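import Mathlib
import Cfsg.Agent.Helper25.CritA

set_option autoImplicit false

namespace Cfsg.Agent.Helper25

open Cfsg
open scoped commutatorElement

/-- Restriction of an automorphism to an invariant subgroup. -/
def restrictAut {G : Type*} [Group G] (N : Subgroup G) (b : MulAut G)
    (h : ∀ x, x ∈ N ↔ b x ∈ N) : MulAut N where
  toFun x := ⟨b x, (h x).1 x.2⟩
  invFun x := ⟨b.symm x, (h _).2 (by rw [MulEquiv.apply_symm_apply]; exact x.2)⟩
  left_inv x := Subtype.ext (b.symm_apply_apply (x : G))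
  right_inv x := Subtype.ext (b.apply_symm_apply (x : G))
  map_mul' x y := Subtype.ext (map_mul b (x : G) (y : G))

theorem restrictAut_apply {G : Type*} [Group G] (N : Subgroup G) (b : MulAut G)
    (h : ∀ x, x ∈ N ↔ b x ∈ N) (x : N) : ((restrictAut N b h x : N) : G) = b x := rfl

theorem restrictAut_pow {G : Type*} [Group G] (N : Subgroup G) (b : MulAut G)
    (h : ∀ x, x ∈ N ↔ b x ∈ N) (n : ℕ) :
    ∀ x : N, ((((restrictAut N b h) ^ n) x : N) : G) = (b ^ n) (x : G) := by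
  induction n with
  | zero => intro x; simp
  | succ n ih =>
    intro x
    rw [pow_succ, pow_succ, MulAut.mul_apply, MulAut.mul_apply, ih]
    rfl

theorem restrictAut_coprime {G : Type*} [Group G] (N : Subgroup G) (b : MulAut G)
    (h : ∀ x, x ∈ N ↔ b x ∈ N) {p : ℕ} (hcop : (orderOf b).Coprime p) :
    (orderOf (restrictAut N b h)).Coprime p := by
  have h1 : (restrictAut N b h) ^ orderOf b = 1 := by
    ext x
    rw [restrictAut_pow, pow_orderOf_eq_one]
    rfl
  exact Nat.Coprime.coprime_dvd_left (orderOf_dvd_of_pow_eq_one h1) hcop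

/-- A critical subgroup of a subgroup `N`, seen in the ambient group. -/
theorem exists_crit_in {G : Type*} [Group G] [Finite G] {p : ℕ} [hp : Fact p.Prime]
    (hG : IsPGroup p G) (N : Subgroup G) :
    ∃ C : Subgroup G, C ≤ N ∧
      (∀ b : MulAut G, (∀ x, x ∈ N ↔ b x ∈ N) → ∀ x, x ∈ C → b x ∈ C) ∧
      (∀ x ∈ C, ∀ g ∈ N, x * g * x⁻¹ * g⁻¹ ∈ Subgroup.centralizer (C : Set G)) ∧
      (∀ x ∈ C, x ^ p ∈ Subgroup.centralizer (C : Set G)) ∧
      (∀ b : MulAut G, (∀ x, x ∈ N ↔ b x ∈ N) → (orderOf b).Coprime p → (∀ x ∈ C, b x = x) →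
        ∀ x ∈ N, b x = x) := by
  have hNp : IsPGroup p N := hG.to_subgroup N
  obtain ⟨C₀, hchar, h1, h2, h3⟩ := Cfsg.Agent.S0093.result hNp
  refine ⟨C₀.map N.subtype, ?_, ?_, ?_, ?_, ?_⟩
  · rintro _ ⟨x, -, rfl⟩; exact x.2
  · intro b hb x hx
    obtain ⟨x₀, hx₀, rfl⟩ := hx
    have h4 := Subgroup.characteristic_iff_comap_eq.1 hchar (restrictAut N b hb)
    have hx' : x₀ ∈ C₀.comap (restrictAut N b hb).toMonoidHom := by rw [h4]; exact hx₀
    exact ⟨restrictAut N b hb x₀, hx', rfl⟩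
  · rintro _ ⟨x₀, hx₀, rfl⟩ g hg
    have h4 := h2 (Subgroup.commutator_mem_commutator hx₀ (Subgroup.mem_top (⟨g, hg⟩ : N)))
    rw [commutatorElement_def] at h4
    have h5 := (Subgroup.mem_inf.1 h4).2
    rw [Subgroup.mem_centralizer_iff] at h5 ⊢
    rintro _ ⟨y₀, hy₀, rfl⟩
    exact congrArg Subtype.val (h5 y₀ hy₀)
  · rintro _ ⟨x₀, hx₀, rfl⟩
    have hCp : IsPGroup p C₀ := hNp.to_subgroup C₀
    have h4 := pow_mem_frattini_of_pgroup hCp (⟨x₀, hx₀⟩ : C₀)
    have h5 := h1 (Subgroup.mem_map_of_mem C₀.subtype h4)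
    rw [Subgroup.mem_centralizer_iff] at h5 ⊢
    rintro _ ⟨y₀, hy₀, rfl⟩
    exact congrArg Subtype.val (h5 y₀ hy₀)
  · intro b hb hcop hfix x hx
    have h4 := Cfsg.Agent.S0121.result hNp C₀ hchar h1 h2 h3 (restrictAut N b hb)
      (restrictAut_coprime N b hb hcop) (fun y hy => Subtype.ext (hfix _ ⟨y, hy, rfl⟩))
    have h5 := congrArg (fun f : MulAut N => ((f ⟨x, hx⟩ : N) : G)) h4
    exact h5

/-- Relative version of `exists_normal_abelian_pcent`: for a normal subgroup `N` of the finite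
`p`-group `G` there is an abelian subgroup `A ≤ N` of small exponent, normal in `G`, such that
every automorphism of `G` of order prime to `p` that preserves `N` and fixes `A` elementwise
fixes `N` elementwise. -/
theorem exists_invariant_abelian_pcent {G : Type*} [Group G] [Finite G] {p : ℕ}
    [hp : Fact p.Prime] (hG : IsPGroup p G) (N : Subgroup G)
    (hNn : ∀ g x : G, x ∈ N → g * x * g⁻¹ ∈ N) :
    ∃ A : Subgroup G, A ≤ N ∧ (∀ g x : G, x ∈ A → g * x * g⁻¹ ∈ A) ∧
      (∀ a ∈ A, ∀ b ∈ A, a * b = b * a) ∧ (∀ a ∈ A, a ^ smallExp p = 1) ∧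
      ∀ δ : MulAut G, (∀ x, x ∈ N ↔ δ x ∈ N) → (orderOf δ).Coprime p → (∀ a ∈ A, δ a = a) →
        ∀ x ∈ N, δ x = x := by
  obtain ⟨C, hCN, hCinv, hcomm, hpowc, hfinal⟩ := exists_crit_in hG N
  obtain ⟨m', hm'⟩ := dvd_smallExp p
  have hconjN : ∀ q : G, ∀ x, x ∈ N ↔ (MulAut.conj q) x ∈ N := by
    intro q x
    constructor
    · intro hx; exact hNn q x hx
    · intro hx
      have h1 := hNn q⁻¹ _ hx
      have e : q⁻¹ * (MulAut.conj q) x * q⁻¹⁻¹ = x := by
        rw [MulAut.conj_apply]; group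
      rwa [e] at h1
  have hCconj : ∀ q x : G, x ∈ C → q * x * q⁻¹ ∈ C :=
    fun q x hx => hCinv (MulAut.conj q) (hconjN q) x hx
  have hcomm' : ∀ x ∈ C, ∀ g ∈ N, g * x * g⁻¹ * x⁻¹ ∈ Subgroup.centralizer (C : Set G) := by
    intro x hx g hg
    have := Subgroup.inv_mem _ (hcomm x hx g hg)
    have e : (x * g * x⁻¹ * g⁻¹)⁻¹ = g * x * g⁻¹ * x⁻¹ := by group
    rwa [e] at this
  have hcent : ∀ z ∈ Subgroup.centralizer (C : Set G), ∀ x ∈ C, Commute z x := by
    intro z hz x hx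
    exact ((Subgroup.mem_centralizer_iff.1 hz) x hx).symm
  have hpm : ∀ x ∈ C, ∀ y ∈ C, (x * y) ^ smallExp p = x ^ smallExp p * y ^ smallExp p := by
    intro x hx y hy
    have hc : y⁻¹ * x⁻¹ * y * x ∈ Subgroup.centralizer (C : Set G) := by
      have := hcomm y⁻¹ (C.inv_mem hy) x⁻¹ (N.inv_mem (hCN hx))
      simpa using this
    have hyx : y * x = x * y * (y⁻¹ * x⁻¹ * y * x) := by group
    have hcx := hcent _ hc x hx
    have hcy := hcent _ hc y hy
    have hcp : (y⁻¹ * x⁻¹ * y * x) ^ p = 1 := by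
      have e1 := c2_pow_aux x y _ hyx hcy p
      have e2 : y ^ p * x = x * y ^ p := (hcent _ (hpowc y hy) x hx).eq
      rw [e2] at e1
      have e3 : x * y ^ p * 1 = x * y ^ p * (y⁻¹ * x⁻¹ * y * x) ^ p := by rw [mul_one]; exact e1
      exact (mul_left_cancel e3).symm
    rw [c2_pow_mul x y _ hyx hcx hcy]
    obtain ⟨s, hs⟩ := smallExp_sum p
    rw [hs, pow_mul, hcp, one_pow, mul_one]
  let D : Subgroup G :=
    { carrier := {x | x ∈ C ∧ x ^ smallExp p = 1}
      mul_mem' := by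
        rintro x y ⟨hx, hx1⟩ ⟨hy, hy1⟩
        exact ⟨C.mul_mem hx hy, by rw [hpm x hx y hy, hx1, hy1, one_mul]⟩
      one_mem' := ⟨C.one_mem, one_pow _⟩
      inv_mem' := by
        rintro x ⟨hx, hx1⟩
        exact ⟨C.inv_mem hx, by rw [inv_pow, hx1, inv_one]⟩ }
  have hD : ∀ x, x ∈ D ↔ x ∈ C ∧ x ^ smallExp p = 1 := fun x => Iff.rfl
  have hDconj : ∀ q : G, ∀ x ∈ D, q * x * q⁻¹ ∈ D := by
    intro q x hx
    rw [hD] at hx ⊢
    refine ⟨hCconj q x hx.1, ?_⟩
    rw [conj_pow, hx.2, mul_one, mul_inv_cancel]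
  -- a maximal invariant abelian subgroup of `D`
  obtain ⟨A, -, hAmax⟩ := Finite.exists_le_maximal
    (p := fun B : Subgroup G => B ≤ D ∧ (∀ a ∈ B, ∀ b ∈ B, a * b = b * a) ∧
      ∀ q : G, ∀ x ∈ B, q * x * q⁻¹ ∈ B) (a := ⊥)
    ⟨bot_le, by
      intro a ha b hb
      rw [Subgroup.mem_bot] at ha hb
      rw [ha, hb], by
      intro q x hx
      rw [Subgroup.mem_bot] at hx ⊢
      rw [hx]; group⟩
  obtain ⟨⟨hAD, hAab, hAinv⟩, hAm⟩ := hAmax
  have hcentconj : ∀ q : G, ∀ x : G, (∀ a ∈ A, x * a = a * x) →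
      ∀ a ∈ A, (q * x * q⁻¹) * a = a * (q * x * q⁻¹) := by
    intro q x hxa a ha
    have h1 := hxa _ (hAinv q⁻¹ a ha)
    rw [inv_inv] at h1
    calc q * x * q⁻¹ * a = q * (x * (q⁻¹ * a * q)) * q⁻¹ := by group
      _ = q * ((q⁻¹ * a * q) * x) * q⁻¹ := by rw [h1]
      _ = a * (q * x * q⁻¹) := by group
  have key : ∀ i : ℕ, ∀ b ∈ Subgroup.upperCentralSeries G i, b ∈ D →
      (∀ a ∈ A, b * a = a * b) → b ∈ A := by
    intro i
    induction i with
    | zero =>
      intro b hb _ _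
      rw [Subgroup.upperCentralSeries_zero, Subgroup.mem_bot] at hb
      rw [hb]; exact A.one_mem
    | succ i ih =>
      intro b hb hbD hba
      have hbinv : ∀ a' ∈ A, b⁻¹ * a' = a' * b⁻¹ := by
        intro a' ha'
        have := hba a' ha'
        calc b⁻¹ * a' = b⁻¹ * (a' * b) * b⁻¹ := by group
          _ = b⁻¹ * (b * a') * b⁻¹ := by rw [this]
          _ = a' * b⁻¹ := by group
      have hcA : ∀ q : G, b * q * b⁻¹ * q⁻¹ ∈ A := by
        intro q
        have h1 := Subgroup.mem_upperCentralSeries_succ_iff.1 hb q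
        rw [commutatorElement_def] at h1
        apply ih _ h1
        · have : b * q * b⁻¹ * q⁻¹ = b * (q * b⁻¹ * q⁻¹) := by group
          rw [this]
          exact D.mul_mem hbD (hDconj q _ (D.inv_mem hbD))
        · intro a ha
          have h2 : (q * b⁻¹ * q⁻¹) * a = a * (q * b⁻¹ * q⁻¹) := hcentconj q b⁻¹ hbinv a ha
          calc b * q * b⁻¹ * q⁻¹ * a = b * ((q * b⁻¹ * q⁻¹) * a) := by group
            _ = b * (a * (q * b⁻¹ * q⁻¹)) := by rw [h2]
            _ = (b * a) * (q * b⁻¹ * q⁻¹) := by group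
            _ = (a * b) * (q * b⁻¹ * q⁻¹) := by rw [hba a ha]
            _ = a * (b * q * b⁻¹ * q⁻¹) := by group
      have hk : ∀ x ∈ ((A : Set G) ∪ {b}), ∀ y ∈ ((A : Set G) ∪ {b}), x * y = y * x := by
        rintro x (hx | hx) y (hy | hy)
        · exact hAab x hx y hy
        · rw [Set.mem_singleton_iff] at hy; rw [hy]; exact (hba x hx).symm
        · rw [Set.mem_singleton_iff] at hx; rw [hx]; exact hba y hy
        · rw [Set.mem_singleton_iff] at hx hy; rw [hx, hy]
      have hB := comm_of_closure hk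
      have hBD : Subgroup.closure ((A : Set G) ∪ {b}) ≤ D := by
        rw [Subgroup.closure_le]
        rintro x (hx | hx)
        · exact hAD hx
        · rw [Set.mem_singleton_iff] at hx; rw [hx]; exact hbD
      have hAB : A ≤ Subgroup.closure ((A : Set G) ∪ {b}) := fun x hx =>
        Subgroup.subset_closure (Or.inl hx)
      have hbB : b ∈ Subgroup.closure ((A : Set G) ∪ {b}) :=
        Subgroup.subset_closure (Or.inr rfl)
      have hBinv : ∀ q : G, ∀ x ∈ Subgroup.closure ((A : Set G) ∪ {b}),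
          q * x * q⁻¹ ∈ Subgroup.closure ((A : Set G) ∪ {b}) := by
        intro q x hx
        refine Subgroup.closure_induction
          (p := fun x _ => q * x * q⁻¹ ∈ Subgroup.closure ((A : Set G) ∪ {b})) ?_ ?_ ?_ ?_ hx
        · rintro y (hy | hy)
          · exact hAB (hAinv q y hy)
          · rw [Set.mem_singleton_iff] at hy
            rw [hy]
            have e : q * b * q⁻¹ = (b * q * b⁻¹ * q⁻¹)⁻¹ * b := by group
            rw [e]
            exact Subgroup.mul_mem _ (hAB (A.inv_mem (hcA q))) hbB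
        · have e : q * 1 * q⁻¹ = 1 := by group
          rw [e]; exact Subgroup.one_mem _
        · intro x y _ _ hx hy
          have e : q * (x * y) * q⁻¹ = (q * x * q⁻¹) * (q * y * q⁻¹) := by group
          rw [e]; exact Subgroup.mul_mem _ hx hy
        · intro x _ hx
          have e : q * x⁻¹ * q⁻¹ = (q * x * q⁻¹)⁻¹ := by group
          rw [e]; exact Subgroup.inv_mem _ hx
      exact hAm ⟨hBD, hB, hBinv⟩ hAB hbB
  have hself : ∀ d ∈ D, (∀ a ∈ A, d * a = a * d) → d ∈ A := by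
    intro d hd hda
    obtain ⟨n, hn⟩ := hG.isNilpotent.nilpotent'
    exact key n d (by rw [hn]; exact Subgroup.mem_top d) hd hda
  have hDC : ∀ x ∈ D, x ∈ C := fun x hx => hx.1
  have hzA : ∀ z ∈ D, z ∈ Subgroup.centralizer (C : Set G) → z ∈ A := by
    intro z hz hzc
    apply hself z hz
    intro a ha
    exact (hcent z hzc a (hDC a (hAD ha))).eq
  refine ⟨A, fun a ha => hCN (hDC a (hAD ha)), fun g x hx => hAinv g x hx, hAab,
    fun a ha => (hAD ha).2, ?_⟩
  intro b hbN hcop hfixA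
  have hbC : ∀ x, x ∈ C → b x ∈ C := hCinv b hbN
  have hpp : ∀ y : G, ∃ j : ℕ, y ^ (p ^ j) = 1 := fun y => hG y
  -- `b` fixes `D`
  have hbD : ∀ d ∈ D, b d = d := by
    intro d hd
    have hbd : b d ∈ D := by
      rw [hD]
      exact ⟨hbC d hd.1, by rw [← map_pow, hd.2, map_one]⟩
    have hy : d⁻¹ * b d ∈ D := D.mul_mem (D.inv_mem hd) hbd
    have hyA : d⁻¹ * b d ∈ A := by
      apply hself _ hy
      intro a ha
      have hz : d * a * d⁻¹ * a⁻¹ ∈ A := by
        apply hzA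
        · exact D.mul_mem (hDconj d a (hAD ha)) (D.inv_mem (hAD ha))
        · exact hcomm d hd.1 a (hCN (hDC a (hAD ha)))
      have e1 := hfixA _ hz
      rw [map_mul, map_mul, map_mul, map_inv, map_inv, hfixA a ha] at e1
      have e2 : b d * a * (b d)⁻¹ = d * a * d⁻¹ := by
        have := congrArg (· * a) e1
        simpa using this
      calc d⁻¹ * b d * a = d⁻¹ * (b d * a * (b d)⁻¹) * b d := by group
        _ = d⁻¹ * (d * a * d⁻¹) * b d := by rw [e2]
        _ = a * (d⁻¹ * b d) := by group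
    obtain ⟨j, hj⟩ := hpp (d⁻¹ * b d)
    have h5 := fix_of_coprime b hcop d (d⁻¹ * b d) (by group) (hfixA _ hyA) hj
    have : b d = d * (d⁻¹ * b d) := by group
    rw [this, h5, mul_one]
  -- `b` fixes `Z(C)`
  have hbZ : ∀ j : ℕ, ∀ z : G, z ∈ C → z ∈ Subgroup.centralizer (C : Set G) → z ^ (p ^ j) = 1 →
      b z = z := by
    intro j
    induction j with
    | zero =>
      intro z _ _ hz
      rw [pow_zero, pow_one] at hz
      rw [hz, map_one]
    | succ j ih =>
      intro z hzC hzc hz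
      have hzp : b (z ^ p) = z ^ p := by
        apply ih (z ^ p) (C.pow_mem hzC p) (Subgroup.pow_mem _ hzc p)
        rw [← pow_mul, ← pow_succ']; exact hz
      have hbz : b z ∈ C := hbC z hzC
      have hcomm2 : Commute z⁻¹ (b z) := ((hcent z hzc (b z) hbz).inv_left)
      have hy : (z⁻¹ * b z) ^ p = 1 := by
        rw [hcomm2.mul_pow, inv_pow, ← map_pow, hzp, inv_mul_cancel]
      have hyD : z⁻¹ * b z ∈ D := by
        rw [hD]
        refine ⟨C.mul_mem (C.inv_mem hzC) hbz, ?_⟩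
        rw [hm', pow_mul, hy, one_pow]
      obtain ⟨i, hi⟩ := hpp (z⁻¹ * b z)
      have h5 := fix_of_coprime b hcop z (z⁻¹ * b z) (by group) (hbD _ hyD) hi
      have : b z = z * (z⁻¹ * b z) := by group
      rw [this, h5, mul_one]
  -- `b` fixes `C`
  have hbCfix : ∀ x ∈ C, b x = x := by
    intro x hx
    have hbx : b x ∈ C := hbC x hx
    have hxm : x ^ smallExp p ∈ Subgroup.centralizer (C : Set G) := by
      rw [hm', pow_mul]; exact Subgroup.pow_mem _ (hpowc x hx) m'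
    obtain ⟨j, hj⟩ := hpp (x ^ smallExp p)
    have hfixm : b (x ^ smallExp p) = x ^ smallExp p :=
      hbZ j _ (C.pow_mem hx _) hxm hj
    have hyD : x⁻¹ * b x ∈ D := by
      rw [hD]
      refine ⟨C.mul_mem (C.inv_mem hx) hbx, ?_⟩
      rw [hpm _ (C.inv_mem hx) _ hbx, inv_pow, ← map_pow, hfixm, inv_mul_cancel]
    obtain ⟨i, hi⟩ := hpp (x⁻¹ * b x)
    have h5 := fix_of_coprime b hcop x (x⁻¹ * b x) (by group) (hbD _ hyD) hi
    have : b x = x * (x⁻¹ * b x) := by group
    rw [this, h5, mul_one]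
  exact hfinal b hbN hcop hbCfix

end Cfsg.Agent.Helper25
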