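import Mathlib
import Cfsg.Agent.Helper25.CritA
import Cfsg.Prelude.Def_KGroupFacts
import Cfsg.Prelude.Def_Transfer

set_option autoImplicit false

namespace Cfsg.Agent.Helper25

open Cfsg
open scoped commutatorElement

theorem pResidual_conj_mem25 (p : ℕ) {G : Type*} [Group G] {n : G} (hn : n ∈ pResidual p G)
    (g : G) : g * n * g⁻¹ ∈ pResidual p G := by
  unfold pResidual at hn ⊢
  refine Subgroup.closure_induction
    (p := fun n _ => g * n * g⁻¹ ∈ Subgroup.closure {g : G | Nat.Coprime (orderOf g) p})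
    ?_ ?_ ?_ ?_ hn
  · intro x hx
    apply Subgroup.subset_closure
    show Nat.Coprime (orderOf (g * x * g⁻¹)) p
    have : orderOf (g * x * g⁻¹) = orderOf x := by
      simpa using orderOf_injective (MulAut.conj g).toMonoidHom (MulAut.conj g).injective x
    rw [this]; exact hx
  · simp
  · intro x y _ _ hx hy
    have : g * (x * y) * g⁻¹ = (g * x * g⁻¹) * (g * y * g⁻¹) := by group
    rw [this]; exact Subgroup.mul_mem _ hx hy
  · intro x _ hx
    have : g * x⁻¹ * g⁻¹ = (g * x * g⁻¹)⁻¹ := by group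
    rw [this]; exact Subgroup.inv_mem _ hx

/-- The Benson–Grodal–Henke subgroup `D = Ω([C, O^p(G)])` for a critical subgroup `C`. -/
theorem bgh_subgroup {P : Type*} [Group P] [Finite P] {p : ℕ} [hp : Fact p.Prime]
    (hP : IsPGroup p P) (G : Subgroup (MulAut P)) (hG : Cfsg.Inn P ≤ G) :
    ∃ D : Subgroup P,
      (∀ α ∈ G, ∀ d ∈ D, α d ∈ D) ∧
      D ≤ Subgroup.closure {y : P | ∃ α ∈ Cfsg.pResidual p ↥G, ∃ x : P,
        y = x⁻¹ * (α : MulAut P) x} ∧
      (∀ d ∈ D, d ^ smallExp p = 1) ∧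
      (∀ d ∈ D, ∀ g : P, d * g * d⁻¹ * g⁻¹ ∈ D ∧
        ∀ d' ∈ D, d' * (d * g * d⁻¹ * g⁻¹) = (d * g * d⁻¹ * g⁻¹) * d') ∧
      (∀ α ∈ G, (orderOf α).Coprime p → (∀ d ∈ D, α d = d) → α = 1) ∧
      (∀ A : Subgroup P, A ≤ D → (∀ a ∈ A, ∀ b ∈ A, a * b = b * a) →
        (∀ d ∈ D, (∀ a ∈ A, d * a = a * d) → d ∈ A) →
        (∀ a ∈ A, ∀ g : P, g * a * g⁻¹ ∈ A) ∧
          ∀ α ∈ G, (orderOf α).Coprime p → (∀ a ∈ A, α a = a) → α = 1) := by
  obtain ⟨C, hchar, h1, h2, h3⟩ := Cfsg.Agent.S0093.result hP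
  haveI hCn : C.Normal := Subgroup.normal_of_characteristic C
  obtain ⟨m', hm'⟩ := dvd_smallExp p
  have hcomm : ∀ x ∈ C, ∀ g : P, x * g * x⁻¹ * g⁻¹ ∈ Subgroup.centralizer (C : Set P) := by
    intro x hx g
    have := h2 (Subgroup.commutator_mem_commutator hx (Subgroup.mem_top g))
    rw [commutatorElement_def] at this
    exact this.2
  have hcomm' : ∀ x ∈ C, ∀ g : P, g * x * g⁻¹ * x⁻¹ ∈ Subgroup.centralizer (C : Set P) := by
    intro x hx g
    have := Subgroup.inv_mem _ (hcomm x hx g)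
    have e : (x * g * x⁻¹ * g⁻¹)⁻¹ = g * x * g⁻¹ * x⁻¹ := by group
    rwa [e] at this
  have hpowc : ∀ x ∈ C, x ^ p ∈ Subgroup.centralizer (C : Set P) := by
    intro x hx
    have hCp : IsPGroup p C := hP.to_subgroup C
    have := pow_mem_frattini_of_pgroup hCp (⟨x, hx⟩ : C)
    exact h1 (Subgroup.mem_map_of_mem C.subtype this)
  have hcent : ∀ z ∈ Subgroup.centralizer (C : Set P), ∀ x ∈ C, Commute z x := by
    intro z hz x hx
    exact ((Subgroup.mem_centralizer_iff.1 hz) x hx).symm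
  have hpm : ∀ x ∈ C, ∀ y ∈ C, (x * y) ^ smallExp p = x ^ smallExp p * y ^ smallExp p := by
    intro x hx y hy
    have hc : y⁻¹ * x⁻¹ * y * x ∈ Subgroup.centralizer (C : Set P) := by
      have := hcomm y⁻¹ (C.inv_mem hy) x⁻¹
      simpa using this
    have hyx : y * x = x * y * (y⁻¹ * x⁻¹ * y * x) := by group
    have hcx := hcent _ hc x hx
    have hcy := hcent _ hc y hy
    have hcp : (y⁻¹ * x⁻¹ * y * x) ^ p = 1 := by
      have e1 := c2_pow_aux x y _ hyx hcy p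
      have e2 : y ^ p * x = x * y ^ p := (hcent _ (hpowc y hy) x hx).eq
      rw [e2] at e1
      have e3 : x * y ^ p * 1 = x * y ^ p * (y⁻¹ * x⁻¹ * y * x) ^ p := by rw [mul_one]; exact e1
      exact (mul_left_cancel e3).symm
    rw [c2_pow_mul x y _ hyx hcx hcy]
    obtain ⟨s, hs⟩ := smallExp_sum p
    rw [hs, pow_mul, hcp, one_pow, mul_one]
  have hCaut : ∀ α : MulAut P, ∀ x, x ∈ C → α x ∈ C := by
    intro α x hx
    have := Subgroup.characteristic_iff_comap_eq.1 hchar α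
    rw [← this] at hx
    exact hx
  -- `C₀ = [C, O^p(G)]`
  obtain ⟨C₀, hC₀def⟩ : ∃ C₀ : Subgroup P, C₀ = Subgroup.closure
      {y : P | ∃ α ∈ Cfsg.pResidual p ↥G, ∃ x ∈ C, y = x⁻¹ * (α : MulAut P) x} := ⟨_, rfl⟩
  have hC₀C : C₀ ≤ C := by
    rw [hC₀def, Subgroup.closure_le]
    rintro _ ⟨α, -, x, hx, rfl⟩
    exact C.mul_mem (C.inv_mem hx) (hCaut _ x hx)
  have hC₀P : C₀ ≤ Subgroup.closure {y : P | ∃ α ∈ Cfsg.pResidual p ↥G, ∃ x : P,
      y = x⁻¹ * (α : MulAut P) x} := by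
    rw [hC₀def]
    apply Subgroup.closure_mono
    rintro _ ⟨α, hα, x, -, rfl⟩
    exact ⟨α, hα, x, rfl⟩
  have hC₀gen : ∀ α ∈ Cfsg.pResidual p ↥G, ∀ x ∈ C, x⁻¹ * (α : MulAut P) x ∈ C₀ := by
    intro α hα x hx
    rw [hC₀def]
    exact Subgroup.subset_closure ⟨α, hα, x, hx, rfl⟩
  have hC₀inv : ∀ β ∈ G, ∀ y ∈ C₀, β y ∈ C₀ := by
    intro β hβ y hy
    rw [hC₀def] at hy
    refine Subgroup.closure_induction (p := fun y _ => β y ∈ C₀) ?_ ?_ ?_ ?_ hy
    · rintro _ ⟨α, hα, x, hx, rfl⟩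
      have hconj := pResidual_conj_mem25 p hα (⟨β, hβ⟩ : G)
      have h4 := hC₀gen _ hconj (β x) (hCaut β x hx)
      have e : ((⟨β, hβ⟩ * α * (⟨β, hβ⟩ : G)⁻¹ : G) : MulAut P) (β x) =
          β ((α : MulAut P) x) := by
        show β ((α : MulAut P) (β⁻¹ (β x))) = _
        rw [MulAut.inv_apply_self]
      rw [e] at h4
      rw [map_mul, map_inv]; exact h4
    · rw [map_one]; exact C₀.one_mem
    · intro x y _ _ hx hy; rw [map_mul]; exact C₀.mul_mem hx hy
    · intro x _ hx; rw [map_inv]; exact C₀.inv_mem hx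
  let D : Subgroup P :=
    { carrier := {x | x ∈ C₀ ∧ x ^ smallExp p = 1}
      mul_mem' := by
        rintro x y ⟨hx, hx1⟩ ⟨hy, hy1⟩
        exact ⟨C₀.mul_mem hx hy, by rw [hpm x (hC₀C hx) y (hC₀C hy), hx1, hy1, one_mul]⟩
      one_mem' := ⟨C₀.one_mem, one_pow _⟩
      inv_mem' := by
        rintro x ⟨hx, hx1⟩
        exact ⟨C₀.inv_mem hx, by rw [inv_pow, hx1, inv_one]⟩ }
  have hD : ∀ x, x ∈ D ↔ x ∈ C₀ ∧ x ^ smallExp p = 1 := fun x => Iff.rfl
  have hDinv : ∀ β ∈ G, ∀ d ∈ D, β d ∈ D := by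
    intro β hβ d hd
    rw [hD] at hd ⊢
    exact ⟨hC₀inv β hβ d hd.1, by rw [← map_pow, hd.2, map_one]⟩
  have hDconj : ∀ q : P, ∀ x ∈ D, q * x * q⁻¹ ∈ D := by
    intro q x hx
    have := hDinv (MulAut.conj q) (hG ⟨q, rfl⟩) x hx
    rwa [MulAut.conj_apply] at this
  have hDC : ∀ x ∈ D, x ∈ C := fun x hx => hC₀C hx.1
  have hpp : ∀ y : P, ∃ j : ℕ, y ^ (p ^ j) = 1 := fun y => hP y
  have key5 : ∀ b ∈ G, (orderOf b).Coprime p → (∀ d ∈ D, b d = d) → b = 1 := by
    intro b hbG hcop hbD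
    have hbC₀ : ∀ x, x ∈ C₀ → b x ∈ C₀ := hC₀inv b hbG
    have hbZ : ∀ j : ℕ, ∀ z : P, z ∈ C₀ → z ∈ Subgroup.centralizer (C : Set P) →
        z ^ (p ^ j) = 1 → b z = z := by
      intro j
      induction j with
      | zero =>
        intro z _ _ hz
        rw [pow_zero, pow_one] at hz
        rw [hz, map_one]
      | succ j ih =>
        intro z hzC hzc hz
        have hzp : b (z ^ p) = z ^ p := by
          apply ih (z ^ p) (C₀.pow_mem hzC p) (Subgroup.pow_mem _ hzc p)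
          rw [← pow_mul, ← pow_succ']; exact hz
        have hbz : b z ∈ C₀ := hbC₀ z hzC
        have hcomm2 : Commute z⁻¹ (b z) := ((hcent z hzc (b z) (hC₀C hbz)).inv_left)
        have hy : (z⁻¹ * b z) ^ p = 1 := by
          rw [hcomm2.mul_pow, inv_pow, ← map_pow, hzp, inv_mul_cancel]
        have hyD : z⁻¹ * b z ∈ D := by
          rw [hD]
          refine ⟨C₀.mul_mem (C₀.inv_mem hzC) hbz, ?_⟩
          rw [hm', pow_mul, hy, one_pow]
        obtain ⟨i, hi⟩ := hpp (z⁻¹ * b z)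
        have h5 := fix_of_coprime b hcop z (z⁻¹ * b z) (by group) (hbD _ hyD) hi
        have : b z = z * (z⁻¹ * b z) := by group
        rw [this, h5, mul_one]
    have hbC₀fix : ∀ x ∈ C₀, b x = x := by
      intro x hx
      have hbx : b x ∈ C₀ := hbC₀ x hx
      have hxm : x ^ smallExp p ∈ Subgroup.centralizer (C : Set P) := by
        rw [hm', pow_mul]; exact Subgroup.pow_mem _ (hpowc x (hC₀C hx)) m'
      obtain ⟨j, hj⟩ := hpp (x ^ smallExp p)
      have hfixm : b (x ^ smallExp p) = x ^ smallExp p :=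
        hbZ j _ (C₀.pow_mem hx _) hxm hj
      have hyD : x⁻¹ * b x ∈ D := by
        rw [hD]
        refine ⟨C₀.mul_mem (C₀.inv_mem hx) hbx, ?_⟩
        rw [hpm _ (C.inv_mem (hC₀C hx)) _ (hC₀C hbx), inv_pow, ← map_pow, hfixm, inv_mul_cancel]
      obtain ⟨i, hi⟩ := hpp (x⁻¹ * b x)
      have h5 := fix_of_coprime b hcop x (x⁻¹ * b x) (by group) (hbD _ hyD) hi
      have : b x = x * (x⁻¹ * b x) := by group
      rw [this, h5, mul_one]
    have hbres : (⟨b, hbG⟩ : G) ∈ Cfsg.pResidual p ↥G := by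
      apply Subgroup.subset_closure
      show Nat.Coprime (orderOf (⟨b, hbG⟩ : G)) p
      rw [← Subgroup.orderOf_coe]; exact hcop
    have hbCfix : ∀ x ∈ C, b x = x := by
      intro x hx
      have hy : x⁻¹ * b x ∈ C₀ := hC₀gen _ hbres x hx
      obtain ⟨i, hi⟩ := hpp (x⁻¹ * b x)
      have h5 := fix_of_coprime b hcop x (x⁻¹ * b x) (by group) (hbC₀fix _ hy) hi
      have : b x = x * (x⁻¹ * b x) := by group
      rw [this, h5, mul_one]
    exact Cfsg.Agent.S0121.result hP C hchar h1 h2 h3 b hcop hbCfix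
  refine ⟨D, hDinv, fun d hd => hC₀P hd.1, fun d hd => hd.2, ?_, key5, ?_⟩
  · intro d hd g
    refine ⟨?_, fun d' hd' => ?_⟩
    · have e : d * g * d⁻¹ * g⁻¹ = d * (g * d⁻¹ * g⁻¹) := by group
      rw [e]; exact D.mul_mem hd (hDconj g _ (D.inv_mem hd))
    · exact (hcent _ (hcomm d (hDC d hd) g) d' (hDC d' hd')).eq.symm
  · intro A hAD hAab hself
    have hzA : ∀ z ∈ D, z ∈ Subgroup.centralizer (C : Set P) → z ∈ A := by
      intro z hz hzc
      apply hself z hz
      intro a ha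
      exact (hcent z hzc a (hDC a (hAD ha))).eq
    constructor
    · intro a ha q
      have hw : q * a * q⁻¹ * a⁻¹ ∈ A := by
        apply hzA
        · exact D.mul_mem (hDconj q a (hAD ha)) (D.inv_mem (hAD ha))
        · exact hcomm' a (hDC a (hAD ha)) q
      have := A.mul_mem hw ha
      simpa using this
    · intro b hbG hcop hfixA
      apply key5 b hbG hcop
      intro d hd
      have hbd : b d ∈ D := hDinv b hbG d hd
      have hy : d⁻¹ * b d ∈ D := D.mul_mem (D.inv_mem hd) hbd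
      have hyA : d⁻¹ * b d ∈ A := by
        apply hself _ hy
        intro a ha
        have hz : d * a * d⁻¹ * a⁻¹ ∈ A := by
          apply hzA
          · exact D.mul_mem (hDconj d a (hAD ha)) (D.inv_mem (hAD ha))
          · exact hcomm d (hDC d hd) a
        have e1 := hfixA _ hz
        rw [map_mul, map_mul, map_mul, map_inv, map_inv, hfixA a ha] at e1
        have e2 : b d * a * (b d)⁻¹ = d * a * d⁻¹ := by
          have := congrArg (· * a) e1
          simpa using this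
        calc d⁻¹ * b d * a = d⁻¹ * (b d * a * (b d)⁻¹) * b d := by group
          _ = d⁻¹ * (d * a * d⁻¹) * b d := by rw [e2]
          _ = a * (d⁻¹ * b d) := by group
      obtain ⟨j, hj⟩ := hpp (d⁻¹ * b d)
      have h5 := fix_of_coprime b hcop d (d⁻¹ * b d) (by group) (hfixA _ hyA) hj
      have : b d = d * (d⁻¹ * b d) := by group
      rw [this, h5, mul_one]

end Cfsg.Agent.Helper25
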