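import Mathlib
import Cfsg.Prelude.Def_TwoFusion
import Cfsg.Prelude.Def_Transfer
import Cfsg.Agent.Helper1.Frobenius
import Cfsg.Agent.Helper16.NPC
import Cfsg.Agent.Helper10.WellPlaced
import Cfsg.Agent.Helper10.ClimbP
import Cfsg.Agent.Helper26.FusCover
import Cfsg.Agent.Helper25.GroupFusion2

/-!
# A Frobenius normal `p`-complement criterion relative to a strongly closed subgroup (helper25)
-/

set_option autoImplicit false

namespace Cfsg.Agent.Helper25.FrobSC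

open Cfsg

variable {G : Type*} [Group G]

theorem conj_pow' (a b : G) (i : ℕ) : (a * b * a⁻¹) ^ i = a * b ^ i * a⁻¹ := by
  induction i with
  | zero => simp
  | succ i ih => rw [pow_succ, ih, pow_succ]; group

/-- If `N_G(U)` has a normal `p`-complement and `U` is a `p`-group, a `p`-power of each element
of `N_G(U)` centralizes `U`. -/
theorem pow_mem_centralizer_of_npc [Finite G] {p : ℕ} [Fact p.Prime] (U : Subgroup G)
    (hU : IsPGroup p U) (h : Cfsg.HasNormalPComplement p ↥(Subgroup.normalizer (U : Set G))) :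
    ∃ k : ℕ, ∀ n ∈ Subgroup.normalizer (U : Set G),
      n ^ (p ^ k) ∈ Subgroup.centralizer (U : Set G) := by
  obtain ⟨N, k, hN, hcop, hk⟩ := Cfsg.Agent.Helper16.npc_exists h
  have := hN
  refine ⟨k, fun n hn => ?_⟩
  have hm : (⟨n, hn⟩ : Subgroup.normalizer (U : Set G)) ^ (p ^ k) ∈ N := by
    rw [← hk]; exact Subgroup.pow_index_mem N _
  have hUp : IsPGroup p (U.subgroupOf (Subgroup.normalizer (U : Set G))) := hU.comap_subtype
  obtain ⟨j, hj⟩ := IsPGroup.iff_card.1 hUp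
  have hbot : N ⊓ U.subgroupOf (Subgroup.normalizer (U : Set G)) = ⊥ := by
    apply (Subgroup.disjoint_of_coprime_natCard ?_).eq_bot
    rw [hj]; exact hcop.pow_right j
  rw [Subgroup.mem_centralizer_iff]
  intro u hu
  set m : Subgroup.normalizer (U : Set G) := (⟨n, hn⟩ : Subgroup.normalizer (U : Set G)) ^ (p ^ k)
    with hmdef
  have hmv : (m : G) = n ^ (p ^ k) := by rw [hmdef]; simp
  set u' : Subgroup.normalizer (U : Set G) := ⟨u, Subgroup.le_normalizer hu⟩ with hu'def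
  have hc : m * u' * m⁻¹ * u'⁻¹ ∈ N ⊓ U.subgroupOf (Subgroup.normalizer (U : Set G)) := by
    constructor
    · have h1 : u' * m⁻¹ * u'⁻¹ ∈ N := hN.conj_mem _ (Subgroup.inv_mem _ hm) u'
      have e : m * u' * m⁻¹ * u'⁻¹ = m * (u' * m⁻¹ * u'⁻¹) := by group
      rw [e]; exact Subgroup.mul_mem _ hm h1
    · refine Subgroup.mem_subgroupOf.mpr ?_
      have h1 : (m : G) * u * (m : G)⁻¹ ∈ U := (Subgroup.mem_normalizer_iff.mp m.2 u).mp hu
      have e : ((m * u' * m⁻¹ * u'⁻¹ : Subgroup.normalizer (U : Set G)) : G) =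
          (m : G) * u * (m : G)⁻¹ * u⁻¹ := by simp [hu'def]
      rw [e]; exact Subgroup.mul_mem _ h1 (Subgroup.inv_mem _ hu)
  rw [hbot, Subgroup.mem_bot] at hc
  have hc' : (m : G) * u * (m : G)⁻¹ * u⁻¹ = 1 := by
    have := congrArg (Subtype.val) hc
    simpa [hu'def] using this
  rw [← hmv]
  calc u * (m : G) = ((m : G) * u * (m : G)⁻¹ * u⁻¹)⁻¹ * ((m : G) * u) := by group
    _ = (m : G) * u := by rw [hc', inv_one, one_mul]

/-- Powers of `c * x` with `c` centralizing and `x` normalizing `T` are powers of `x` modulo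
the centralizer. -/
theorem mul_pow_mem_centralizer [Finite G] (T : Subgroup G) (c x : G)
    (hc : c ∈ Subgroup.centralizer (T : Set G)) (hx : x ∈ Subgroup.normalizer (T : Set G))
    (j : ℕ) : (c * x) ^ j * (x ^ j)⁻¹ ∈ Subgroup.centralizer (T : Set G) := by
  induction j with
  | zero => simp
  | succ j ih =>
    have hxj : x ^ j ∈ Subgroup.normalizer
        ((Subgroup.centralizer (T : Set G) : Subgroup G) : Set G) :=
      Cfsg.Agent.Helper10.normalizer_le_normalizer_centralizer' T (Subgroup.pow_mem _ hx j)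
    have h1 : x ^ j * c * (x ^ j)⁻¹ ∈ Subgroup.centralizer (T : Set G) :=
      (Subgroup.mem_normalizer_iff.mp hxj c).mp hc
    have e : (c * x) ^ (j + 1) * (x ^ (j + 1))⁻¹ =
        ((c * x) ^ j * (x ^ j)⁻¹) * (x ^ j * c * (x ^ j)⁻¹) := by
      rw [pow_succ, pow_succ]; group
    rw [e]; exact Subgroup.mul_mem _ ih h1

section main

variable [Finite G] {p : ℕ} [Fact p.Prime] (S : Sylow p G) (D : Subgroup G)

/-- Claim A: for `U ≤ D`, a `p`-power of each element of `N_G(U)` centralizes `U`. -/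
theorem claimA (hD : Cfsg.IsStronglyClosed D (S : Subgroup G))
    (hyp : ∀ U : Subgroup G, U ≤ D → D ⊓ Subgroup.centralizer (U : Set G) ≤ U →
      Cfsg.HasNormalPComplement p ↥(Subgroup.normalizer (U : Set G)))
    (U : Subgroup G) (hU : U ≤ D) (g : G) (hg : g ∈ Subgroup.normalizer (U : Set G)) :
    ∃ k : ℕ, g ^ (p ^ k) ∈ Subgroup.centralizer (U : Set G) := by
  obtain ⟨a, haS, -, hidx⟩ :=
    Cfsg.Agent.Helper10.exists_conj_sylow_normalizer S U (hU.trans hD.1)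
  set U1 : Subgroup G := U.map (MulAut.conj a).toMonoidHom with hU1
  have hmemU1 : ∀ u ∈ U, a * u * a⁻¹ ∈ U1 := fun u hu => ⟨u, hu, rfl⟩
  have hU1D : U1 ≤ D := by
    rintro _ ⟨u, hu, rfl⟩
    exact hD.2 u (hU hu) a (haS ⟨u, hu, rfl⟩)
  have hg1 : a * g * a⁻¹ ∈ Subgroup.normalizer (U1 : Set G) := by
    apply Cfsg.Agent.Helper9.mem_normalizer_of_conj_le
    rintro _ ⟨u, hu, rfl⟩
    refine ⟨g * u * g⁻¹, (Subgroup.mem_normalizer_iff.mp hg u).mp hu, ?_⟩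
    show a * (g * u * g⁻¹) * a⁻¹ = a * g * a⁻¹ * (a * u * a⁻¹) * (a * g * a⁻¹)⁻¹
    group
  obtain ⟨c, hc, hn⟩ :=
    Cfsg.Agent.Helper10.exists_cent_mul_normalizer S U1 hidx (a * g * a⁻¹) hg1
  set n : G := c * (a * g * a⁻¹) with hndef
  have hnU1 : n ∈ Subgroup.normalizer (U1 : Set G) :=
    Subgroup.mul_mem _ (Subgroup.centralizer_le_normalizer _ hc) hg1
  have hnC : n ∈ Subgroup.normalizer
      ((Subgroup.centralizer (U1 : Set G) : Subgroup G) : Set G) :=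
    Cfsg.Agent.Helper10.normalizer_le_normalizer_centralizer' U1 hnU1
  set RD : Subgroup G := D ⊓ Subgroup.centralizer (U1 : Set G) with hRD
  have hnRD : ∀ x ∈ RD, n * x * n⁻¹ ∈ RD := by
    intro x hx
    have h1 : n * x * n⁻¹ ∈ (S : Subgroup G) ⊓ Subgroup.centralizer (U1 : Set G) :=
      (Subgroup.mem_normalizer_iff.mp hn x).mp ⟨hD.1 hx.1, hx.2⟩
    exact ⟨hD.2 x hx.1 n h1.1, h1.2⟩
  have hnUs : n ∈ Subgroup.normalizer ((U1 ⊔ RD : Subgroup G) : Set G) := by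
    apply Cfsg.Agent.Helper9.mem_normalizer_of_conj_le
    intro q hq
    have h1 : n * q * n⁻¹ ∈ (U1 ⊔ RD).map (MulAut.conj n).toMonoidHom := ⟨q, hq, rfl⟩
    rw [Subgroup.map_sup] at h1
    have hA : U1.map (MulAut.conj n).toMonoidHom ≤ U1 := by
      rintro _ ⟨u, hu, rfl⟩
      exact (Subgroup.mem_normalizer_iff.mp hnU1 u).mp hu
    have hB : RD.map (MulAut.conj n).toMonoidHom ≤ RD := by
      rintro _ ⟨u, hu, rfl⟩
      exact hnRD u hu
    exact (sup_le_sup hA hB) h1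
  have hUsD : U1 ⊔ RD ≤ D := sup_le hU1D inf_le_left
  have hcen : D ⊓ Subgroup.centralizer ((U1 ⊔ RD : Subgroup G) : Set G) ≤ U1 ⊔ RD := by
    intro x hx
    refine le_sup_right (a := U1) ⟨hx.1, ?_⟩
    exact Subgroup.centralizer_le (show (U1 : Set G) ⊆ ((U1 ⊔ RD : Subgroup G) : Set G) from
      fun y hy => le_sup_left (a := U1) (b := RD) hy) hx.2
  have hUsp : IsPGroup p (U1 ⊔ RD : Subgroup G) := S.isPGroup'.to_le (hUsD.trans hD.1)
  obtain ⟨k, hk⟩ := pow_mem_centralizer_of_npc (U1 ⊔ RD) hUsp (hyp _ hUsD hcen)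
  have hnk : n ^ (p ^ k) ∈ Subgroup.centralizer (U1 : Set G) :=
    Subgroup.centralizer_le (show (U1 : Set G) ⊆ ((U1 ⊔ RD : Subgroup G) : Set G) from
      fun y hy => le_sup_left (a := U1) (b := RD) hy) (hk n hnUs)
  have h2 := mul_pow_mem_centralizer U1 c (a * g * a⁻¹) hc hg1 (p ^ k)
  have hg1k : (a * g * a⁻¹) ^ (p ^ k) ∈ Subgroup.centralizer (U1 : Set G) := by
    have e : (a * g * a⁻¹) ^ (p ^ k) =
        ((c * (a * g * a⁻¹)) ^ (p ^ k) * ((a * g * a⁻¹) ^ (p ^ k))⁻¹)⁻¹ *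
          (c * (a * g * a⁻¹)) ^ (p ^ k) := by group
    rw [e]; exact Subgroup.mul_mem _ (Subgroup.inv_mem _ h2) hnk
  refine ⟨k, ?_⟩
  rw [conj_pow'] at hg1k
  rw [Subgroup.mem_centralizer_iff] at hg1k ⊢
  intro u hu
  have h3 := hg1k (a * u * a⁻¹) (hmemU1 u hu)
  calc u * g ^ (p ^ k) = a⁻¹ * ((a * u * a⁻¹) * (a * g ^ (p ^ k) * a⁻¹)) * a := by group
    _ = a⁻¹ * ((a * g ^ (p ^ k) * a⁻¹) * (a * u * a⁻¹)) * a := by rw [h3]
    _ = g ^ (p ^ k) * u := by group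

omit [Finite G] in
theorem conj_pow_of_comm (b x : G)
    (hcomm : ∀ i : ℕ, b * (((b * x * b⁻¹)⁻¹ * x) ^ i)⁻¹ = (((b * x * b⁻¹)⁻¹ * x) ^ i)⁻¹ * b)
    (i : ℕ) : b ^ i * x * (b ^ i)⁻¹ = x * (((b * x * b⁻¹)⁻¹ * x) ^ i)⁻¹ := by
  induction i with
  | zero => simp
  | succ i ih =>
    have e1 : b ^ (i + 1) * x * (b ^ (i + 1))⁻¹ = b * (b ^ i * x * (b ^ i)⁻¹) * b⁻¹ := by
      rw [pow_succ']; group
    rw [e1, ih]
    have e2 : b * (x * (((b * x * b⁻¹)⁻¹ * x) ^ i)⁻¹) * b⁻¹ =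
        (b * x * b⁻¹) * (b * (((b * x * b⁻¹)⁻¹ * x) ^ i)⁻¹) * b⁻¹ := by group
    rw [e2, hcomm i, pow_succ]
    generalize ((b * x * b⁻¹)⁻¹ * x) ^ i = w
    group

/-- Claim B: for `E ≤ S`, a `p`-power of each element of `N_G(E)` centralizes `E`. -/
theorem claimB (hD : Cfsg.IsStronglyClosed D (S : Subgroup G))
    (hyp : ∀ U : Subgroup G, U ≤ D → D ⊓ Subgroup.centralizer (U : Set G) ≤ U →
      Cfsg.HasNormalPComplement p ↥(Subgroup.normalizer (U : Set G)))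
    (E : Subgroup G) (hE : E ≤ (S : Subgroup G)) (g : G)
    (hg : g ∈ Subgroup.normalizer (E : Set G)) :
    ∃ k : ℕ, g ^ (p ^ k) ∈ Subgroup.centralizer (E : Set G) := by
  have hF := groupFusionSystem_isSaturated p S
  have hT : (groupFusionSystem (S : Subgroup G)).StronglyClosed D := by
    refine ⟨hD.1, fun R hR φ hφ x => ?_⟩
    obtain ⟨-, hφS, g', hg'⟩ := mem_groupFusionSystem_hom.mp hφ
    have h1 := hφS x
    rw [hg' x] at h1 ⊢
    exact hD.2 _ (hR x.2) g' h1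
  have hφ : conjHom E g ∈ (groupFusionSystem (S : Subgroup G)).Hom E := by
    refine mem_groupFusionSystem_hom.mpr ⟨hE, fun x => ?_, g, fun x => rfl⟩
    exact hE ((Subgroup.mem_normalizer_iff.mp hg x).mp x.2)
  obtain ⟨ψ, hψ, hcov⟩ := Cfsg.Agent.Helper26.cover S.isPGroup' _ hF hT hφ
  obtain ⟨hED, hψS, h, hh⟩ := mem_groupFusionSystem_hom.mp hψ
  have hcov' : ∀ x ∈ E, (g * x * g⁻¹)⁻¹ * (h * x * h⁻¹) ∈ D := by
    intro x hx
    have h1 := hcov ⟨x, hx⟩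
    rw [hh] at h1
    exact h1
  have hhS : ∀ y ∈ E ⊔ D, h * y * h⁻¹ ∈ (S : Subgroup G) := by
    intro y hy
    have h1 := hψS ⟨y, hy⟩
    rw [hh] at h1
    exact h1
  have hhD : h ∈ Subgroup.normalizer (D : Set G) := by
    apply Cfsg.Agent.Helper9.mem_normalizer_of_conj_le
    intro d hd
    exact hD.2 d hd h (hhS d (le_sup_right (a := E) hd))
  have hSND : (S : Subgroup G) ≤ Subgroup.normalizer (D : Set G) := by
    intro s hs
    apply Cfsg.Agent.Helper9.mem_normalizer_of_conj_le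
    intro d hd
    exact hD.2 d hd s
      (Subgroup.mul_mem _ (Subgroup.mul_mem _ hs (hD.1 hd)) (Subgroup.inv_mem _ hs))
  have hnpcD := hyp D le_rfl inf_le_left
  obtain ⟨K, hK, hcompl, hKcop⟩ := Cfsg.Agent.Helper1.compl_of_npc (S.subtype hSND) hnpcD
  obtain ⟨⟨κ, s⟩, hκs⟩ := hcompl.2 ⟨h, hhD⟩
  have hκK : κ.1 ∈ K := κ.2
  have hmemS : ∀ t : Subgroup.normalizer (D : Set G),
      t ∈ (↑(S.subtype hSND) : Subgroup (Subgroup.normalizer (D : Set G))) ↔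
        (t : G) ∈ (S : Subgroup G) := by
    intro t
    rw [Sylow.coe_subtype, Subgroup.mem_subgroupOf]
  have hsS : (s.1 : G) ∈ (S : Subgroup G) := (hmemS s.1).mp s.2
  have hκsv : (κ.1 : G) * (s.1 : G) = h := by
    have := congrArg Subtype.val hκs
    simpa using this
  have hbot : K ⊓ ((S.subtype hSND : Sylow p _) : Subgroup _) = ⊥ :=
    hcompl.disjoint.eq_bot
  -- `κ` fixes every `y ∈ S` it conjugates into `S`
  have hκfix : ∀ y ∈ (S : Subgroup G), (κ.1 : G) * y * (κ.1 : G)⁻¹ ∈ (S : Subgroup G) →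
      (κ.1 : G) * y * (κ.1 : G)⁻¹ = y := by
    intro y hy hy'
    set y' : Subgroup.normalizer (D : Set G) := ⟨y, hSND hy⟩ with hy'def
    have hc : κ.1 * y' * κ.1⁻¹ * y'⁻¹ ∈
        K ⊓ ((S.subtype hSND : Sylow p _) : Subgroup _) := by
      constructor
      · have h1 : y' * κ.1⁻¹ * y'⁻¹ ∈ K := hK.conj_mem _ (Subgroup.inv_mem _ hκK) y'
        have e : κ.1 * y' * κ.1⁻¹ * y'⁻¹ = κ.1 * (y' * κ.1⁻¹ * y'⁻¹) := by group
        rw [e]; exact Subgroup.mul_mem _ hκK h1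
      · refine (hmemS _).mpr ?_
        have e : ((κ.1 * y' * κ.1⁻¹ * y'⁻¹ : Subgroup.normalizer (D : Set G)) : G) =
            (κ.1 : G) * y * (κ.1 : G)⁻¹ * y⁻¹ := by simp [hy'def]
        rw [e]; exact Subgroup.mul_mem _ hy' (Subgroup.inv_mem _ hy)
    rw [hbot, Subgroup.mem_bot] at hc
    have hc' : (κ.1 : G) * y * (κ.1 : G)⁻¹ * y⁻¹ = 1 := by
      have := congrArg Subtype.val hc
      simpa [hy'def] using this
    calc (κ.1 : G) * y * (κ.1 : G)⁻¹ = ((κ.1 : G) * y * (κ.1 : G)⁻¹ * y⁻¹) * y := by group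
      _ = y := by rw [hc', one_mul]
  have hcov2 : ∀ x ∈ E, (g * x * g⁻¹)⁻¹ * ((s.1 : G) * x * (s.1 : G)⁻¹) ∈ D := by
    intro x hx
    have h1 : (s.1 : G) * x * (s.1 : G)⁻¹ ∈ (S : Subgroup G) :=
      Subgroup.mul_mem _ (Subgroup.mul_mem _ hsS (hE hx)) (Subgroup.inv_mem _ hsS)
    have e : h * x * h⁻¹ = (κ.1 : G) * ((s.1 : G) * x * (s.1 : G)⁻¹) * (κ.1 : G)⁻¹ := by
      rw [← hκsv]; group
    have h2 : (κ.1 : G) * ((s.1 : G) * x * (s.1 : G)⁻¹) * (κ.1 : G)⁻¹ ∈ (S : Subgroup G) := by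
      rw [← e]; exact hhS x (le_sup_left (b := D) hx)
    have h3 := hκfix _ h1 h2
    have h4 := hcov' x hx
    rw [e, h3] at h4
    exact h4
  generalize (s.1 : G) = s' at hsS hcov2
  -- iterate
  have hiter : ∀ i : ℕ, ∀ x ∈ E,
      (g ^ i * x * (g ^ i)⁻¹)⁻¹ * (s' ^ i * x * (s' ^ i)⁻¹) ∈ D := by
    intro i
    induction i with
    | zero => intro x hx; simp
    | succ i ih =>
      intro x hx
      have hy : g ^ i * x * (g ^ i)⁻¹ ∈ E :=
        (Subgroup.mem_normalizer_iff.mp (Subgroup.pow_mem _ hg i) x).mp hx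
      have h1 := hcov2 _ hy
      have h2 : s' * ((g ^ i * x * (g ^ i)⁻¹)⁻¹ * (s' ^ i * x * (s' ^ i)⁻¹)) * s'⁻¹ ∈ D :=
        (Subgroup.mem_normalizer_iff.mp (hSND hsS) _).mp (ih x hx)
      have e : (g ^ (i + 1) * x * (g ^ (i + 1))⁻¹)⁻¹ * (s' ^ (i + 1) * x * (s' ^ (i + 1))⁻¹) =
          ((g * (g ^ i * x * (g ^ i)⁻¹) * g⁻¹)⁻¹ * (s' * (g ^ i * x * (g ^ i)⁻¹) * s'⁻¹)) *
            (s' * ((g ^ i * x * (g ^ i)⁻¹)⁻¹ * (s' ^ i * x * (s' ^ i)⁻¹)) * s'⁻¹) := by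
        rw [pow_succ', pow_succ']; group
      rw [e]; exact Subgroup.mul_mem _ h1 h2
  obtain ⟨m, hm⟩ := S.isPGroup' ⟨s', hsS⟩
  have hm' : s' ^ (p ^ m) = 1 := by
    have := congrArg Subtype.val hm
    simpa using this
  have hgU0 : g ∈ Subgroup.normalizer ((E ⊓ D : Subgroup G) : Set G) := by
    apply Cfsg.Agent.Helper9.mem_normalizer_of_conj_le
    intro q hq
    have h1 : g * q * g⁻¹ ∈ E := (Subgroup.mem_normalizer_iff.mp hg q).mp hq.1
    exact ⟨h1, hD.2 q hq.2 g (hE h1)⟩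
  obtain ⟨k1, hk1⟩ := claimA S D hD hyp (E ⊓ D) inf_le_right g hgU0
  obtain ⟨j, hj⟩ := IsPGroup.iff_card.1
    (S.isPGroup'.to_le (inf_le_left.trans hE) : IsPGroup p (E ⊓ D : Subgroup G))
  have hbE : g ^ (p ^ (m + k1)) ∈ Subgroup.normalizer (E : Set G) := Subgroup.pow_mem _ hg _
  have hbU0 : g ^ (p ^ (m + k1)) ∈ Subgroup.centralizer ((E ⊓ D : Subgroup G) : Set G) := by
    rw [pow_add, pow_mul']; exact Subgroup.pow_mem _ hk1 _
  have hbD : ∀ x ∈ E, (g ^ (p ^ (m + k1)) * x * (g ^ (p ^ (m + k1)))⁻¹)⁻¹ * x ∈ E ⊓ D := by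
    intro x hx
    refine ⟨Subgroup.mul_mem _ (Subgroup.inv_mem _
      ((Subgroup.mem_normalizer_iff.mp hbE x).mp hx)) hx, ?_⟩
    have h1 := hiter (p ^ (m + k1)) x hx
    have e : s' ^ (p ^ (m + k1)) = 1 := by rw [pow_add, pow_mul, hm', one_pow]
    rw [e] at h1
    simpa using h1
  refine ⟨m + k1 + j, ?_⟩
  have e : g ^ (p ^ (m + k1 + j)) = (g ^ (p ^ (m + k1))) ^ (p ^ j) := by
    rw [← pow_mul, ← pow_add]
  rw [e]
  generalize g ^ (p ^ (m + k1)) = b at hbE hbU0 hbD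
  rw [Subgroup.mem_centralizer_iff]
  intro x hx
  have hu := hbD x hx
  have hcomm : ∀ i : ℕ, b * (((b * x * b⁻¹)⁻¹ * x) ^ i)⁻¹ =
      (((b * x * b⁻¹)⁻¹ * x) ^ i)⁻¹ * b := fun i =>
    ((Subgroup.mem_centralizer_iff.mp hbU0) _
      (Subgroup.inv_mem _ (Subgroup.pow_mem _ hu i))).symm
  have h1 := conj_pow_of_comm b x hcomm (p ^ j)
  have h2 : ((b * x * b⁻¹)⁻¹ * x) ^ (p ^ j) = 1 := by
    have h3 : (⟨_, hu⟩ : (E ⊓ D : Subgroup G)) ^ Nat.card (E ⊓ D : Subgroup G) = 1 :=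
      pow_card_eq_one'
    rw [hj] at h3
    have := congrArg Subtype.val h3
    simpa using this
  rw [h2, inv_one, mul_one] at h1
  calc x * b ^ (p ^ j) = (b ^ (p ^ j) * x * (b ^ (p ^ j))⁻¹) * b ^ (p ^ j) := by rw [h1]
    _ = b ^ (p ^ j) * x := by group

/-- The criterion: the local hypothesis at the `D`-centric subgroups of `D` gives a normal
`p`-complement. -/
theorem npc_of_hyp (hD : Cfsg.IsStronglyClosed D (S : Subgroup G))
    (hyp : ∀ U : Subgroup G, U ≤ D → D ⊓ Subgroup.centralizer (U : Set G) ≤ U →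
      Cfsg.HasNormalPComplement p ↥(Subgroup.normalizer (U : Set G))) :
    Cfsg.HasNormalPComplement p G := by
  apply Cfsg.Agent.Helper1.npc_of_local
  apply Cfsg.Agent.Helper1.localP_of_sylow S
  intro Q hQ g hg hcop
  obtain ⟨k, hk⟩ := claimB S D hD hyp Q hQ g hg
  have hcop' : (p ^ k).Coprime (orderOf g) := (Nat.Coprime.pow_right k hcop).symm
  obtain ⟨m, hm⟩ := exists_pow_eq_self_of_coprime hcop'
  rw [← hm]
  exact Subgroup.pow_mem _ hk m

end main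

end Cfsg.Agent.Helper25.FrobSC
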