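import Mathlib
import Cfsg.Prelude.Def_FusionSystem
import Cfsg.Agent.Helper26.FusSat
import Cfsg.Agent.Helper26.FusNormal
import Cfsg.Agent.Helper25.SylowIn

set_option autoImplicit false

namespace Cfsg.Agent.Helper25

open Cfsg Cfsg.FusionSystem Cfsg.Agent.Helper26

variable {Ω : Type*} [Group Ω] {S : Subgroup Ω}

/-! ### `K`-normalizers (AKO I.5) -/

/-- `N_S^{K^φ}(φ(Q))` for a map `φ` with source `Q` and `K ≤ Aut(Q)`: the elements `g` of `S` such
that conjugation by `g` on `φ(Q)`, read through `φ`, is an element of `K`. -/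
def nK (S : Subgroup Ω) {Q : Subgroup Ω} (K : Subgroup (MulAut Q)) (φ : Q →* Ω) : Subgroup Ω where
  carrier := {g | g ∈ S ∧ ∃ k ∈ K, ∀ x : Q, g * φ x * g⁻¹ = φ (k x)}
  one_mem' := ⟨S.one_mem, 1, K.one_mem, fun x => by simp⟩
  mul_mem' := by
    rintro a b ⟨ha, k, hk, hak⟩ ⟨hb, k', hk', hbk⟩
    refine ⟨S.mul_mem ha hb, k * k', K.mul_mem hk hk', fun x => ?_⟩
    have h1 : a * b * φ x * (a * b)⁻¹ = a * (b * φ x * b⁻¹) * a⁻¹ := by group
    rw [h1, hbk, hak]; rfl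
  inv_mem' := by
    rintro a ⟨ha, k, hk, hak⟩
    refine ⟨S.inv_mem ha, k⁻¹, K.inv_mem hk, fun x => ?_⟩
    have h1 := hak (k⁻¹ x)
    rw [MulAut.apply_inv_self] at h1
    rw [← h1]; group

theorem mem_nK {Q : Subgroup Ω} {K : Subgroup (MulAut Q)} {φ : Q →* Ω} {g : Ω} :
    g ∈ nK S K φ ↔ g ∈ S ∧ ∃ k ∈ K, ∀ x : Q, g * φ x * g⁻¹ = φ (k x) := Iff.rfl

theorem nK_le {Q : Subgroup Ω} (K : Subgroup (MulAut Q)) (φ : Q →* Ω) : nK S K φ ≤ S :=
  fun _ h => h.1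

/-- `Q` is fully `K`-normalized in `F`. -/
def FullK (F : FusionSystem S) {Q : Subgroup Ω} (K : Subgroup (MulAut Q)) : Prop :=
  Q ≤ S ∧ ∀ φ ∈ F.Hom Q, Nat.card (nK S K φ) ≤ Nat.card (nK S K Q.subtype)

/-- The automorphisms of `Q` in `K` induced, through `φ`, by the elements of `nK S K φ`. -/
def indK (S : Subgroup Ω) {Q : Subgroup Ω} (K : Subgroup (MulAut Q)) (φ : Q →* Ω) :
    Subgroup (MulAut Q) where
  carrier := {k | k ∈ K ∧ ∃ g ∈ S, ∀ x : Q, g * φ x * g⁻¹ = φ (k x)}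
  one_mem' := ⟨K.one_mem, 1, S.one_mem, fun x => by simp⟩
  mul_mem' := by
    rintro k k' ⟨hk, a, ha, hak⟩ ⟨hk', b, hb, hbk⟩
    refine ⟨K.mul_mem hk hk', a * b, S.mul_mem ha hb, fun x => ?_⟩
    have h1 : a * b * φ x * (a * b)⁻¹ = a * (b * φ x * b⁻¹) * a⁻¹ := by group
    rw [h1, hbk, hak]; rfl
  inv_mem' := by
    rintro k ⟨hk, a, ha, hak⟩
    refine ⟨K.inv_mem hk, a⁻¹, S.inv_mem ha, fun x => ?_⟩
    have h1 := hak (k⁻¹ x)
    rw [MulAut.apply_inv_self] at h1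
    rw [← h1]; group

theorem indK_pow {Q : Subgroup Ω} {φ : Q →* Ω} {k : MulAut Q} {g : Ω}
    (h : ∀ x : Q, g * φ x * g⁻¹ = φ (k x)) (n : ℕ) :
    ∀ x : Q, g ^ n * φ x * (g ^ n)⁻¹ = φ ((k ^ n) x) := by
  induction n with
  | zero => intro x; simp
  | succ n ih =>
    intro x
    have h1 : g ^ (n + 1) * φ x * (g ^ (n + 1))⁻¹ = g ^ n * (g * φ x * g⁻¹) * (g ^ n)⁻¹ := by
      rw [pow_succ]; group
    rw [h1, h, ih, pow_succ]; rfl

theorem indK_isPGroup {p : ℕ} (hS : IsPGroup p S) {Q : Subgroup Ω} (K : Subgroup (MulAut Q))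
    {φ : Q →* Ω} (hφ : Function.Injective φ) : IsPGroup p (indK S K φ) := by
  rintro ⟨k, hk, g, hg, hgk⟩
  obtain ⟨j, hj⟩ := hS ⟨g, hg⟩
  have hj0 := Subtype.ext_iff.1 hj
  have hj' : g ^ p ^ j = 1 := hj0
  refine ⟨j, Subtype.ext ?_⟩
  show k ^ p ^ j = 1
  apply MulEquiv.ext
  intro x
  apply hφ
  have h1 := indK_pow hgk (p ^ j) x
  rw [hj'] at h1
  rw [← h1]; simp

theorem indK_le (F : FusionSystem S) {Q : Subgroup Ω} (K : Subgroup (MulAut Q)) {φ : Q →* Ω}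
    (hφ : φ ∈ F.Hom Q) : indK S K φ ≤ K ⊓ F.autGroup Q := by
  rintro k ⟨hk, g, hg, hgk⟩
  refine Subgroup.mem_inf.2 ⟨hk, ?_⟩
  have hQS := (F.le_of_mem hφ).1
  obtain ⟨e, he, heφ⟩ := exists_iso_of_hom F hφ rfl
  have hPS : φ.range ≤ S := he.le_right
  rw [mem_autGroup_iff F hQS]
  have h1 : (conjHom φ.range g).comp e.toMonoidHom ∈ F.Hom Q := he.comp_hom (F.conj_mem hPS hg)
  have h2 : ∀ x : Q, ((conjHom φ.range g).comp e.toMonoidHom) x = ((e (k x) : φ.range) : Ω) := by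
    intro x
    show g * ((e x : φ.range) : Ω) * g⁻¹ = _
    rw [heφ, heφ, hgk]
  have h3 : ∀ x : Q, ((conjHom φ.range g).comp e.toMonoidHom) x ∈ φ.range := by
    intro x; rw [h2]; exact (e (k x)).2
  refine fs_comp F h1 he.symm h3 (fun x => ?_)
  have h4 : (⟨((conjHom φ.range g).comp e.toMonoidHom) x, h3 x⟩ : φ.range) = e (k x) :=
    Subtype.ext (h2 x)
  show ((k x : Q) : Ω) = ((e.symm ⟨_, h3 x⟩ : Q) : Ω)
  rw [h4, MulEquiv.symm_apply_apply]

/-- AKO I.5.2, (a) ⟹ (c), in a transported form: `R` is receptive, `e₁ : Q ≃ R` is an isomorphism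
of the system, and `K ∩ B` is a Sylow `p`-subgroup of `K ∩ Aut_F(Q)`, where the elements of `B`
become, through `e₁`, conjugations by elements of `S`. -/
theorem kext_gen {p : ℕ} [Fact p.Prime] [Finite S] (hS : IsPGroup p S) (F : FusionSystem S)
    {Q R : Subgroup Ω} (K : Subgroup (MulAut Q)) (hrec : F.IsReceptive R) (e₁ : Q ≃* R)
    (he₁ : IsIso F e₁) (B : Subgroup (MulAut Q)) (hBF : B ≤ F.autGroup Q)
    (hB : ∀ k ∈ B, ∃ h ∈ S, ∀ x : Q, ((e₁ (k x) : R) : Ω) = h * ((e₁ x : R) : Ω) * h⁻¹)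
    (hsyl : Nat.card (K ⊓ B : Subgroup (MulAut Q))
      = p ^ (Nat.card (K ⊓ F.autGroup Q : Subgroup (MulAut Q))).factorization p)
    {φ : Q →* Ω} (hφ : φ ∈ F.Hom Q) :
    ∃ χ ∈ K ⊓ F.autGroup Q, ∃ ψ ∈ F.Hom (φ.range ⊔ nK S K φ),
      ∀ (x : Q) (hx : φ x ∈ φ.range ⊔ nK S K φ), ψ ⟨φ x, hx⟩ = ((e₁ (χ x) : R) : Ω) := by
  have hQS := he₁.le_left
  have hfQ : Finite Q := finite_of_le hQS
  obtain ⟨e, he, heφ⟩ := exists_iso_of_hom F hφ rfl
  have hBA : K ⊓ B ≤ K ⊓ F.autGroup Q := inf_le_inf_left K hBF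
  obtain ⟨χ, hχA, hχ⟩ := exists_conj_le_of_card (G := MulAut Q) hBA hsyl
    (indK_isPGroup hS K (F.injective_of_mem hφ)) (indK_le F K hφ)
  have hχF : IsIso F χ := (mem_autGroup_iff F hQS χ).1 hχA.2
  have he' : IsIso F (e.symm.trans (χ.trans e₁)) := he.symm.trans (hχF.trans he₁)
  obtain ⟨ψ, hψ, hψe⟩ := receptive_ext F hrec he'
  have hle : φ.range ⊔ nK S K φ ≤
      extender S φ.range (R.subtype.comp (e.symm.trans (χ.trans e₁)).toMonoidHom) := by
    refine sup_le (le_extender F he') ?_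
    intro g hg
    obtain ⟨hgS, k, hk, hgk⟩ := hg
    have hkL : k ∈ indK S K φ := ⟨hk, g, hgS, hgk⟩
    have h1 : χ * k * χ⁻¹ ∈ K ⊓ B := hχ (conj_mem_conjBy hkL)
    obtain ⟨h, hh, hhk⟩ := hB _ h1.2
    rw [mem_extender_iff']
    refine ⟨hgS, ?_, h, hh, ?_⟩
    · rw [Subgroup.mem_normalizer_iff]
      intro y
      constructor
      · rintro ⟨x, rfl⟩
        rw [hgk]; exact ⟨k x, rfl⟩
      · rintro ⟨x, hx⟩
        refine ⟨k⁻¹ x, ?_⟩
        have h2 := hgk (k⁻¹ x)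
        rw [MulAut.apply_inv_self, hx] at h2
        exact mul_left_cancel (mul_right_cancel h2)
    · intro x y hy
      show ((e₁ (χ (e.symm y)) : R) : Ω) = h * ((e₁ (χ (e.symm x)) : R) : Ω) * h⁻¹
      have h3 : e.symm y = k (e.symm x) := by
        apply e.injective
        apply Subtype.ext
        rw [MulEquiv.apply_symm_apply, heφ, ← hgk, ← heφ, MulEquiv.apply_symm_apply]
        exact hy
      rw [h3, ← hhk]
      show _ = ((e₁ (χ (k (χ⁻¹ (χ (e.symm x))))) : R) : Ω)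
      rw [MulAut.inv_apply_self]
  refine ⟨χ, hχA, ψ.comp (Subgroup.inclusion hle), fs_restrict F hle hψ, fun x hx => ?_⟩
  have h4 := hψe ⟨φ x, ⟨x, rfl⟩⟩ (hle hx)
  have h5 : e.symm ⟨φ x, ⟨x, rfl⟩⟩ = x := by
    apply e.injective
    rw [MulEquiv.apply_symm_apply]
    exact Subtype.ext (heφ x).symm
  show ψ ⟨φ x, hle hx⟩ = _
  refine h4.trans ?_
  show ((e₁ (χ (e.symm ⟨φ x, ⟨x, rfl⟩⟩)) : R) : Ω) = _
  rw [h5]

/-- The automorphisms of `Q` that become conjugations by elements of `S` on `R` through an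
isomorphism `e₁ : Q ≃ R` of the system are automorphisms in the system. -/
theorem comap_le_autGroup (F : FusionSystem S) {Q R : Subgroup Ω} (e₁ : Q ≃* R)
    (he₁ : IsIso F e₁) :
    (autInducedBy S R).comap (MulAut.congr e₁).toMonoidHom ≤ F.autGroup Q := by
  have hQS := he₁.le_left
  have hRS := he₁.le_right
  intro k hk
  rw [Subgroup.mem_comap] at hk
  have h1 : IsIso F ((MulAut.congr e₁) k) :=
    (mem_autGroup_iff F hRS _).1 (autInducedBy_le_autGroup F hRS hk)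
  have h2 : IsIso F ((e₁.trans ((MulAut.congr e₁) k)).trans e₁.symm) :=
    (he₁.trans h1).trans he₁.symm
  have h3 : (e₁.trans ((MulAut.congr e₁) k)).trans e₁.symm = k := by
    apply MulEquiv.ext; intro x
    show e₁.symm (e₁ (k (e₁.symm (e₁ x)))) = k x
    rw [MulEquiv.symm_apply_apply, MulEquiv.symm_apply_apply]
  rw [h3] at h2
  exact (mem_autGroup_iff F hQS k).2 h2

/-- Choice of an isomorphism onto a fully automized conjugate `R` such that `K ∩ e₁⁻¹ Aut_S(R) e₁`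
is a Sylow `p`-subgroup of `K ∩ Aut_F(Q)`. -/
theorem exists_iso_sylow {p : ℕ} [Fact p.Prime] [Finite S] (hS : IsPGroup p S)
    (F : FusionSystem S) {Q R : Subgroup Ω} (K : Subgroup (MulAut Q)) (hQR : F.IsConj Q R)
    (hRa : F.IsFullyAutomized p R) :
    ∃ e₁ : Q ≃* R, IsIso F e₁ ∧
      Nat.card (K ⊓ (autInducedBy S R).comap (MulAut.congr e₁).toMonoidHom :
          Subgroup (MulAut Q))
        = p ^ (Nat.card (K ⊓ F.autGroup Q : Subgroup (MulAut Q))).factorization p := by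
  obtain ⟨e₀, he₀⟩ := (isConj_iff F).1 hQR
  have hQS := he₀.le_left
  have hRS := he₀.le_right
  have hfQ : Finite Q := finite_of_le hQS
  have hfR : Finite R := finite_of_le hRS
  obtain ⟨T, -, hTA, hTp, hTcard⟩ := exists_sylow_between (p := p)
    (K := (⊥ : Subgroup (MulAut Q))) (H := K ⊓ F.autGroup Q) IsPGroup.of_bot bot_le
  have hT'F : T.map (MulAut.congr e₀).toMonoidHom ≤ F.autGroup R := by
    rintro _ ⟨t, ht, rfl⟩
    exact (mem_autGroup_iff F hRS _).2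
      (he₀.symm.trans (((mem_autGroup_iff F hQS t).1 (hTA ht).2).trans he₀))
  obtain ⟨β, hβ, hβT⟩ := fullyAutomized_conj F hRa _ hT'F (hTp.map _)
  have hβiso : IsIso F β := (mem_autGroup_iff F hRS β).1 hβ
  have he₁ : IsIso F (e₀.trans β) := he₀.trans hβiso
  refine ⟨e₀.trans β, he₁, ?_⟩
  have hTB : T ≤ K ⊓ (autInducedBy S R).comap (MulAut.congr (e₀.trans β)).toMonoidHom := by
    intro t ht
    refine Subgroup.mem_inf.2 ⟨(hTA ht).1, ?_⟩
    rw [Subgroup.mem_comap]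
    have h1 := hβT _ ⟨t, ht, rfl⟩
    have h2 : (MulAut.congr (e₀.trans β)).toMonoidHom t
        = β * (MulAut.congr e₀).toMonoidHom t * β⁻¹ := by
      apply MulEquiv.ext; intro y; rfl
    rw [h2]; exact h1
  have hBp : IsPGroup p (K ⊓ (autInducedBy S R).comap (MulAut.congr (e₀.trans β)).toMonoidHom :
      Subgroup (MulAut Q)) := by
    refine IsPGroup.to_le ?_ inf_le_right
    exact (isPGroup_autInducedBy hS R).comap_of_injective _ (MulAut.congr (e₀.trans β)).injective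
  have hBA : K ⊓ (autInducedBy S R).comap (MulAut.congr (e₀.trans β)).toMonoidHom
      ≤ K ⊓ F.autGroup Q := inf_le_inf_left K (comap_le_autGroup F _ he₁)
  refine le_antisymm (card_le_of_isPGroup hBp hBA) ?_
  rw [← hTcard]
  exact Subgroup.card_le_of_le hTB

/-- AKO I.5.2, (b) ⟹ (a), given the choice of `e₁`. -/
theorem sylow_of_fullK_aux {p : ℕ} [Fact p.Prime] [Finite S] (hS : IsPGroup p S)
    (F : FusionSystem S) (hF : F.IsSaturated p) {Q R : Subgroup Ω} (K : Subgroup (MulAut Q))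
    (hfull : FullK F K) (hRr : F.IsReceptive R) (e₁ : Q ≃* R) (he₁ : IsIso F e₁)
    (hsyl : Nat.card (K ⊓ (autInducedBy S R).comap (MulAut.congr e₁).toMonoidHom :
          Subgroup (MulAut Q))
        = p ^ (Nat.card (K ⊓ F.autGroup Q : Subgroup (MulAut Q))).factorization p) :
    F.IsReceptive Q ∧ Nat.card (K ⊓ autInducedBy S Q : Subgroup (MulAut Q))
      = p ^ (Nat.card (K ⊓ F.autGroup Q : Subgroup (MulAut Q))).factorization p := by
  obtain ⟨hQS, hmax⟩ := hfull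
  have hRS := hRr.1
  have hfQ : Finite Q := finite_of_le hQS
  have hfR : Finite R := finite_of_le hRS
  have hB : ∀ k ∈ (autInducedBy S R).comap (MulAut.congr e₁).toMonoidHom, ∃ h ∈ S,
      ∀ x : Q, ((e₁ (k x) : R) : Ω) = h * ((e₁ x : R) : Ω) * h⁻¹ := by
    intro k hk
    obtain ⟨h, hh, hhk⟩ := (mem_autInducedBy_iff S R _).1 (Subgroup.mem_comap.1 hk)
    refine ⟨h, hh, fun x => ?_⟩
    have h1 := hhk (e₁ x)
    rw [← h1]
    show _ = ((e₁ (k (e₁.symm (e₁ x))) : R) : Ω)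
    rw [MulEquiv.symm_apply_apply]
  obtain ⟨χ, hχA, ψ, hψ, hψx⟩ := kext_gen hS F K hRr e₁ he₁ _ (comap_le_autGroup F e₁ he₁) hB
    hsyl (fs_subtype F hQS)
  have hχK : χ ∈ K := hχA.1
  have hQM : ∀ x : Q, (x : Ω) ∈ Q.subtype.range ⊔ nK S K Q.subtype := fun x =>
    (le_sup_left : Q.subtype.range ≤ Q.subtype.range ⊔ nK S K Q.subtype) ⟨x, rfl⟩
  have hNM : nK S K Q.subtype ≤ Q.subtype.range ⊔ nK S K Q.subtype := le_sup_right
  have hψQ : ∀ x : Q, ψ ⟨x, hQM x⟩ = ((e₁ (χ x) : R) : Ω) := fun x => hψx x (hQM x)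
  have hχF : IsIso F χ := (mem_autGroup_iff F hQS χ).1 hχA.2
  have he₂ : IsIso F (χ.trans e₁) := hχF.trans he₁
  have hmem : ∀ g : nK S K Q.subtype,
      ψ ⟨g, hNM g.2⟩ ∈ nK S K (R.subtype.comp (χ.trans e₁).toMonoidHom) := by
    intro g
    obtain ⟨hgS, k, hk, hgk⟩ := g.2
    refine ⟨(F.le_of_mem hψ).2 _, k, hk, fun x => ?_⟩
    show ψ ⟨g, hNM g.2⟩ * ((e₁ (χ x) : R) : Ω) * (ψ ⟨g, hNM g.2⟩)⁻¹ = ((e₁ (χ (k x)) : R) : Ω)
    rw [← hψQ, ← hψQ, ← map_inv, ← map_mul, ← map_mul]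
    congr 1
    apply Subtype.ext
    exact hgk x
  have hinj : Function.Injective (fun g : nK S K Q.subtype =>
      (⟨ψ ⟨g, hNM g.2⟩, hmem g⟩ : nK S K (R.subtype.comp (χ.trans e₁).toMonoidHom))) := by
    intro a b hab
    have h1 := Subtype.ext_iff.1 hab
    have h2 : ψ ⟨a, hNM a.2⟩ = ψ ⟨b, hNM b.2⟩ := h1
    have h3 := F.injective_of_mem hψ h2
    have h4 := Subtype.ext_iff.1 h3
    exact Subtype.ext h4
  have hfN : Finite ↥(nK S K Q.subtype) := finite_of_le (nK_le K _)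
  have hfN2 : Finite ↥(nK S K (R.subtype.comp (χ.trans e₁).toMonoidHom)) :=
    finite_of_le (nK_le K _)
  have hsurj : Function.Surjective (fun g : nK S K Q.subtype =>
      (⟨ψ ⟨g, hNM g.2⟩, hmem g⟩ : nK S K (R.subtype.comp (χ.trans e₁).toMonoidHom))) := by
    have hcard : Nat.card ↥(nK S K Q.subtype)
        = Nat.card ↥(nK S K (R.subtype.comp (χ.trans e₁).toMonoidHom)) :=
      le_antisymm (Nat.card_le_card_of_injective _ hinj) (hmax _ he₂)
    exact ((Nat.bijective_iff_injective_and_card _).2 ⟨hinj, hcard⟩).2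
  have hpre : ∀ h ∈ nK S K (R.subtype.comp (χ.trans e₁).toMonoidHom),
      ∃ g : nK S K Q.subtype, ψ ⟨g, hNM g.2⟩ = h := by
    intro h hh
    obtain ⟨g, hg⟩ := hsurj ⟨h, hh⟩
    have h1 := Subtype.ext_iff.1 hg
    exact ⟨g, h1⟩
  constructor
  · apply sat_receptive_of_fullyCentralized hS F hF
    refine ⟨hQS, fun Q'' hQ'' => ?_⟩
    have hRfc := receptive_fullyCentralized F hRr
    have h1 : Nat.card (centralizerIn S Q'') ≤ Nat.card (centralizerIn S R) :=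
      hRfc.2 Q'' (isConj_trans F (isConj_symm F he₁.isConj) hQ'')
    refine h1.trans ?_
    have hcR : ∀ c : centralizerIn S R, ∃ g : centralizerIn S Q,
        ∃ hg : (g : Ω) ∈ Q.subtype.range ⊔ nK S K Q.subtype, ψ ⟨g, hg⟩ = c := by
      intro c
      have hc := mem_centralizerIn_iff.1 c.2
      have hcN : (c : Ω) ∈ nK S K (R.subtype.comp (χ.trans e₁).toMonoidHom) := by
        refine ⟨hc.1, 1, K.one_mem, fun x => ?_⟩
        show (c : Ω) * ((e₁ (χ x) : R) : Ω) * (c : Ω)⁻¹ = ((e₁ (χ x) : R) : Ω)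
        rw [← hc.2 _ (e₁ (χ x)).2, mul_inv_cancel_right]
      obtain ⟨g, hg⟩ := hpre _ hcN
      have hgC : (g : Ω) ∈ centralizerIn S Q := by
        rw [mem_centralizerIn_iff]
        refine ⟨nK_le K _ g.2, fun x hx => ?_⟩
        have h2 : ψ (⟨x, hQM ⟨x, hx⟩⟩ * ⟨g, hNM g.2⟩) = ψ (⟨g, hNM g.2⟩ * ⟨x, hQM ⟨x, hx⟩⟩) := by
          rw [map_mul, map_mul, hg, hψQ ⟨x, hx⟩]
          exact hc.2 _ (e₁ (χ ⟨x, hx⟩)).2
        have h3 := F.injective_of_mem hψ h2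
        have h4 := Subtype.ext_iff.1 h3
        exact h4
      exact ⟨⟨g, hgC⟩, hNM g.2, hg⟩
    choose f hf1 hf2 using hcR
    have hfC : Finite ↥(centralizerIn S Q) := finite_of_le inf_le_left
    refine Nat.card_le_card_of_injective f ?_
    intro c d hcd
    apply Subtype.ext
    rw [← hf2 c, ← hf2 d]
    congr 1
    exact Subtype.ext (congrArg (fun z : centralizerIn S Q => (z : Ω)) hcd)
  · have heq : K ⊓ autInducedBy S Q
        = conjBy (K ⊓ (autInducedBy S R).comap (MulAut.congr e₁).toMonoidHom) χ⁻¹ := by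
      ext k
      rw [mem_conjBy, inv_inv]
      constructor
      · intro hk0
        obtain ⟨hk, hkS⟩ := Subgroup.mem_inf.1 hk0
        obtain ⟨g, hg, hgk⟩ := (mem_autInducedBy_iff S Q k).1 hkS
        have hgN : g ∈ nK S K Q.subtype := ⟨hg, k, hk, fun x => (hgk x).symm⟩
        refine Subgroup.mem_inf.2 ⟨K.mul_mem (K.mul_mem hχK hk) (K.inv_mem hχK), ?_⟩
        rw [Subgroup.mem_comap, mem_autInducedBy_iff]
        refine ⟨ψ ⟨g, hNM hgN⟩, (F.le_of_mem hψ).2 _, fun y => ?_⟩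
        show ((e₁ (χ (k (χ⁻¹ (e₁.symm y)))) : R) : Ω) = _
        have hx : ((e₁ (χ (χ⁻¹ (e₁.symm y))) : R) : Ω) = y := by
          rw [MulAut.apply_inv_self, MulEquiv.apply_symm_apply]
        have h2 : ψ ⟨g, hNM hgN⟩ * ψ ⟨(χ⁻¹ (e₁.symm y) : Q), hQM _⟩ * (ψ ⟨g, hNM hgN⟩)⁻¹
            = ψ ⟨(k (χ⁻¹ (e₁.symm y)) : Q), hQM _⟩ := by
          rw [← map_inv, ← map_mul, ← map_mul]
          congr 1
          apply Subtype.ext
          exact (hgk _).symm
        rw [hψQ, hψQ, hx] at h2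
        exact h2.symm
      · intro hk
        obtain ⟨hk1, hk2⟩ := Subgroup.mem_inf.1 hk
        have hkK : k ∈ K := by
          have h0 := K.mul_mem (K.mul_mem (K.inv_mem hχK) hk1) hχK
          have e : χ⁻¹ * (χ * k * χ⁻¹) * χ = k := by group
          rw [e] at h0; exact h0
        refine Subgroup.mem_inf.2 ⟨hkK, ?_⟩
        rw [Subgroup.mem_comap, mem_autInducedBy_iff] at hk2
        obtain ⟨h, hh, hhk⟩ := hk2
        have hh2 : ∀ x : Q, h * ((e₁ (χ x) : R) : Ω) * h⁻¹ = ((e₁ (χ (k x)) : R) : Ω) := by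
          intro x
          rw [← hhk]
          show ((e₁ (χ (k (χ⁻¹ (e₁.symm (e₁ (χ x)))))) : R) : Ω) = _
          rw [MulEquiv.symm_apply_apply, MulAut.inv_apply_self]
        have hhN : h ∈ nK S K (R.subtype.comp (χ.trans e₁).toMonoidHom) :=
          ⟨hh, k, hkK, fun x => hh2 x⟩
        obtain ⟨g, hg⟩ := hpre h hhN
        obtain ⟨hgS, k', hk', hgk'⟩ := g.2
        rw [mem_autInducedBy_iff]
        refine ⟨g, hgS, fun x => ?_⟩
        have h1 : ψ ⟨((k' x : Q) : Ω), hQM _⟩ = ψ ⟨((k x : Q) : Ω), hQM _⟩ := by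
          have h2 : (⟨((k' x : Q) : Ω), hQM (k' x)⟩ : ↥(Q.subtype.range ⊔ nK S K Q.subtype))
              = ⟨g, hNM g.2⟩ * ⟨x, hQM x⟩ * ⟨g, hNM g.2⟩⁻¹ := Subtype.ext (hgk' x).symm
          rw [h2, map_mul, map_mul, map_inv, hg, hψQ, hψQ]
          exact hh2 x
        have h3 := F.injective_of_mem hψ h1
        have h4 := Subtype.ext_iff.1 h3
        have h5 : ((k' x : Q) : Ω) = ((k x : Q) : Ω) := h4
        rw [← h5]
        exact (hgk' x).symm
    rw [heq, card_conjBy]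
    exact hsyl

/-- AKO I.5.2, (b) ⟹ (a): a fully `K`-normalized subgroup of a saturated system is receptive and
`K ∩ Aut_S(Q)` is a Sylow `p`-subgroup of `K ∩ Aut_F(Q)`. -/
theorem sylow_of_fullK {p : ℕ} [Fact p.Prime] [Finite S] (hS : IsPGroup p S)
    (F : FusionSystem S) (hF : F.IsSaturated p) {Q : Subgroup Ω} (K : Subgroup (MulAut Q))
    (hfull : FullK F K) :
    F.IsReceptive Q ∧ Nat.card (K ⊓ autInducedBy S Q : Subgroup (MulAut Q))
      = p ^ (Nat.card (K ⊓ F.autGroup Q : Subgroup (MulAut Q))).factorization p := by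
  obtain ⟨R, hQR, hRa, hRr⟩ := hF Q hfull.1
  obtain ⟨e₁, he₁, hsyl⟩ := exists_iso_sylow hS F K hQR hRa
  exact sylow_of_fullK_aux hS F hF K hfull hRr e₁ he₁ hsyl

/-- AKO I.5.2, (b) ⟹ (c). -/
theorem kext_of_fullK {p : ℕ} [Fact p.Prime] [Finite S] (hS : IsPGroup p S) (F : FusionSystem S)
    (hF : F.IsSaturated p) {Q : Subgroup Ω} (K : Subgroup (MulAut Q)) (hfull : FullK F K)
    {φ : Q →* Ω} (hφ : φ ∈ F.Hom Q) :
    ∃ χ ∈ K ⊓ F.autGroup Q, ∃ ψ ∈ F.Hom (φ.range ⊔ nK S K φ),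
      ∀ (x : Q) (hx : φ x ∈ φ.range ⊔ nK S K φ), ψ ⟨φ x, hx⟩ = ((χ x : Q) : Ω) := by
  obtain ⟨hrec, hsyl⟩ := sylow_of_fullK hS F hF K hfull
  have hQS := hfull.1
  exact kext_gen hS F K hrec (MulEquiv.refl Q) (isIso_refl F hQS) (autInducedBy S Q)
    (autInducedBy_le_autGroup F hQS) (fun k hk => (mem_autInducedBy_iff S Q k).1 hk) hsyl hφ

end Cfsg.Agent.Helper25
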