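import Mathlib
import Cfsg.Prelude.Def_FusionSystem
import Cfsg.Agent.Helper25.KNorm
import Cfsg.Agent.Helper9.StrEmb

set_option autoImplicit false

namespace Cfsg.Agent.Helper25

open Cfsg Cfsg.FusionSystem Cfsg.Agent.Helper26

variable {Ω : Type*} [Group Ω] {S : Subgroup Ω}

/-! ### The `K`-normalizer system `N_F^K(Q)` (AKO I.5.5) -/

/-- The maps of `N_F^K(Q)` with source `P`. -/
def KHom (F : FusionSystem S) {Q : Subgroup Ω} (K : Subgroup (MulAut Q)) (P : Subgroup Ω)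
    (φ : P →* Ω) : Prop :=
  φ ∈ F.Hom P ∧ P ≤ nK S K Q.subtype ∧ (∀ x : P, φ x ∈ nK S K Q.subtype) ∧
    ∃ ψ ∈ F.Hom (P ⊔ Q), (∀ x : P, ψ (Subgroup.inclusion le_sup_left x) = φ x) ∧
      ∃ k ∈ K, ∀ x : Q, ψ (Subgroup.inclusion le_sup_right x) = ((k x : Q) : Ω)

/-- `K_P`: the automorphisms of `P ⊔ Q` preserving `P` and inducing an element of `K` on `Q`. -/
def kP (P : Subgroup Ω) {Q : Subgroup Ω} (K : Subgroup (MulAut Q)) :
    Subgroup (MulAut ↥(P ⊔ Q)) where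
  carrier := {α | (∀ x : ↥(P ⊔ Q), (x : Ω) ∈ P ↔ ((α x : ↥(P ⊔ Q)) : Ω) ∈ P) ∧
    ∃ k ∈ K, ∀ x : Q, α (Subgroup.inclusion le_sup_right x) = Subgroup.inclusion le_sup_right (k x)}
  one_mem' := ⟨fun x => Iff.rfl, 1, K.one_mem, fun x => rfl⟩
  mul_mem' := by
    rintro a b ⟨ha, k, hk, hak⟩ ⟨hb, k', hk', hbk⟩
    refine ⟨fun x => (hb x).trans (ha (b x)), k * k', K.mul_mem hk hk', fun x => ?_⟩
    show a (b _) = _
    rw [hbk, hak]; rfl
  inv_mem' := by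
    rintro a ⟨ha, k, hk, hak⟩
    refine ⟨fun x => ?_, k⁻¹, K.inv_mem hk, fun x => ?_⟩
    · have h1 := ha (a⁻¹ x)
      rw [MulAut.apply_inv_self] at h1
      exact h1.symm
    · have h1 := hak (k⁻¹ x)
      rw [MulAut.apply_inv_self] at h1
      rw [← h1, MulAut.inv_apply_self]

/-- The automorphisms of `M` fixing `P ≤ M` elementwise. -/
def fixSub {P M : Subgroup Ω} (hPM : P ≤ M) : Subgroup (MulAut M) where
  carrier := {α | ∀ x : P, α (Subgroup.inclusion hPM x) = Subgroup.inclusion hPM x}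
  one_mem' := fun x => rfl
  mul_mem' := by
    intro a b ha hb x
    show a (b _) = _
    rw [hb, ha]
  inv_mem' := by
    intro a ha x
    apply a.injective
    rw [MulAut.apply_inv_self]
    exact (ha x).symm

/-- Restriction to `P` of an automorphism of `M ≥ P` preserving `P`. -/
def resAut {P M : Subgroup Ω} (hPM : P ≤ M) (α : MulAut M)
    (h : ∀ x : M, (x : Ω) ∈ P ↔ ((α x : M) : Ω) ∈ P) : MulAut P where
  toFun x := ⟨α (Subgroup.inclusion hPM x), (h _).1 x.2⟩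
  invFun y := ⟨α.symm (Subgroup.inclusion hPM y),
    (h _).2 (by rw [MulEquiv.apply_symm_apply]; exact y.2)⟩
  left_inv x := by
    apply Subtype.ext
    have h1 : (Subgroup.inclusion hPM ⟨((α (Subgroup.inclusion hPM x) : M) : Ω), (h _).1 x.2⟩ : M)
        = α (Subgroup.inclusion hPM x) := Subtype.ext rfl
    show ((α.symm (Subgroup.inclusion hPM ⟨((α (Subgroup.inclusion hPM x) : M) : Ω), _⟩) : M) : Ω)
      = x
    rw [h1, MulEquiv.symm_apply_apply]; rfl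
  right_inv y := by
    apply Subtype.ext
    have h1 : (Subgroup.inclusion hPM ⟨((α.symm (Subgroup.inclusion hPM y) : M) : Ω),
        (h _).2 (by rw [MulEquiv.apply_symm_apply]; exact y.2)⟩ : M)
        = α.symm (Subgroup.inclusion hPM y) := Subtype.ext rfl
    show ((α (Subgroup.inclusion hPM ⟨((α.symm (Subgroup.inclusion hPM y) : M) : Ω), _⟩) : M) : Ω)
      = y
    rw [h1, MulEquiv.apply_symm_apply]; rfl
  map_mul' x y := by
    apply Subtype.ext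
    show ((α (Subgroup.inclusion hPM (x * y)) : M) : Ω)
      = ((α (Subgroup.inclusion hPM x) : M) : Ω) * ((α (Subgroup.inclusion hPM y) : M) : Ω)
    rw [map_mul, map_mul]; rfl

theorem resAut_apply {P M : Subgroup Ω} (hPM : P ≤ M) (α : MulAut M)
    (h : ∀ x : M, (x : Ω) ∈ P ↔ ((α x : M) : Ω) ∈ P) (x : P) :
    ((resAut hPM α h x : P) : Ω) = ((α (Subgroup.inclusion hPM x) : M) : Ω) := rfl

/-- Restriction to `P`, as a homomorphism on `K_P`. -/
def resHom (P : Subgroup Ω) {Q : Subgroup Ω} (K : Subgroup (MulAut Q)) :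
    ↥(kP P K) →* MulAut P where
  toFun α := resAut le_sup_left α.1 α.2.1
  map_one' := by
    apply MulEquiv.ext; intro x; apply Subtype.ext; rfl
  map_mul' a b := by
    apply MulEquiv.ext; intro x; apply Subtype.ext; rfl

theorem resHom_apply (P : Subgroup Ω) {Q : Subgroup Ω} (K : Subgroup (MulAut Q))
    (α : ↥(kP P K)) (x : P) :
    ((resHom P K α x : P) : Ω)
      = (((α : MulAut ↥(P ⊔ Q)) (Subgroup.inclusion le_sup_left x) : ↥(P ⊔ Q)) : Ω) := rfl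

theorem nK_normalizes {Q : Subgroup Ω} {K : Subgroup (MulAut Q)} {g : Ω}
    (hg : g ∈ nK S K Q.subtype) : g ∈ Subgroup.normalizer (Q : Set Ω) := by
  rw [Subgroup.mem_normalizer_iff]
  intro x
  constructor
  · intro hx
    obtain ⟨-, k, -, hk⟩ := hg
    have h1 := hk ⟨x, hx⟩
    have h2 : g * x * g⁻¹ = ((k ⟨x, hx⟩ : Q) : Ω) := h1
    rw [h2]; exact (k ⟨x, hx⟩).2
  · intro hx
    obtain ⟨-, k, -, hk⟩ := (nK S K Q.subtype).inv_mem hg
    have h1 := hk ⟨g * x * g⁻¹, hx⟩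
    have h2 : g⁻¹ * (g * x * g⁻¹) * g⁻¹⁻¹ = ((k ⟨g * x * g⁻¹, hx⟩ : Q) : Ω) := h1
    have h3 : g⁻¹ * (g * x * g⁻¹) * g⁻¹⁻¹ = x := by group
    rw [h3] at h2
    rw [h2]; exact (k _).2

theorem normalizer_sup_mem {P Q : Subgroup Ω} {g : Ω}
    (hP : g ∈ Subgroup.normalizer (P : Set Ω)) (hQ : g ∈ Subgroup.normalizer (Q : Set Ω)) :
    g ∈ Subgroup.normalizer ((P ⊔ Q : Subgroup Ω) : Set Ω) := by
  rw [mem_normalizer_iff_conjBy] at hP hQ ⊢
  show (P ⊔ Q).map (MulAut.conj g).toMonoidHom = P ⊔ Q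
  rw [Subgroup.map_sup]
  have h1 : P.map (MulAut.conj g).toMonoidHom = P := hP
  have h2 : Q.map (MulAut.conj g).toMonoidHom = Q := hQ
  rw [h1, h2]

/-- Conjugation by an element of `N_S^K(Q)` normalizing `P` lies in `K_P ∩ Aut_S(P ⊔ Q)`. -/
theorem conjAut_mem_kP {P Q : Subgroup Ω} {K : Subgroup (MulAut Q)} {g : Ω}
    (hg : g ∈ nK S K Q.subtype) (hgP : g ∈ Subgroup.normalizer (P : Set Ω))
    (hgM : g ∈ Subgroup.normalizer ((P ⊔ Q : Subgroup Ω) : Set Ω)) :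
    conjAut (P ⊔ Q) g hgM ∈ kP P K ⊓ autInducedBy S (P ⊔ Q) := by
  refine Subgroup.mem_inf.2 ⟨⟨fun x => ?_, ?_⟩, conjAut_mem S _ g hg.1 hgM⟩
  · rw [conjAut_apply]
    exact Subgroup.mem_normalizer_iff.1 hgP x
  · obtain ⟨-, k, hk, hgk⟩ := hg
    refine ⟨k, hk, fun x => ?_⟩
    apply Subtype.ext
    rw [conjAut_apply]
    exact hgk x

/-! ### Step 2a: fully automized -/

theorem kNorm_fullyAutomized {p : ℕ} [Fact p.Prime] [Finite S] (hS : IsPGroup p S)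
    (F : FusionSystem S) (hF : F.IsSaturated p) {Q : Subgroup Ω} (K : Subgroup (MulAut Q))
    (E : FusionSystem (nK S K Q.subtype))
    (hE : ∀ (P : Subgroup Ω) (φ : P →* Ω), φ ∈ E.Hom P ↔ KHom F K P φ)
    {P : Subgroup Ω} (hP : P ≤ nK S K Q.subtype) (hfull : FullK F (kP P K)) :
    E.IsFullyAutomized p P := by
  have hMS : P ⊔ Q ≤ S := hfull.1
  have hfM : Finite ↥(P ⊔ Q) := finite_of_le hMS
  have hPM : P ≤ P ⊔ Q := le_sup_left
  have hfP : Finite P := finite_of_le (hPM.trans hMS)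
  obtain ⟨-, hsyl⟩ := sylow_of_fullK hS F hF (kP P K) hfull
  have hBA : kP P K ⊓ autInducedBy S (P ⊔ Q) ≤ kP P K ⊓ F.autGroup (P ⊔ Q) :=
    inf_le_inf_left _ (autInducedBy_le_autGroup F hMS)
  obtain ⟨RA, hRA⟩ := (isSylowIn_iff_card hBA).mpr hsyl
  have hres : ∀ a : ↥(kP P K ⊓ F.autGroup (P ⊔ Q)),
      ((resHom P K).comp (Subgroup.inclusion inf_le_left)) a ∈ E.autGroup P := by
    intro a
    rw [mem_autGroup_iff E hP]
    show P.subtype.comp (resHom P K ⟨a.1, a.2.1⟩).toMonoidHom ∈ E.Hom P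
    rw [hE]
    have haF : IsIso F (a : MulAut ↥(P ⊔ Q)) := (mem_autGroup_iff F hMS _).1 a.2.2
    obtain ⟨k, hk, hak⟩ := a.2.1.2
    refine ⟨fs_restrict' F hPM haF (fun x => rfl), hP,
      fun x => hP (resHom P K ⟨a.1, a.2.1⟩ x).2, _, haF, fun x => rfl, k, hk, fun x => ?_⟩
    show (((a : MulAut ↥(P ⊔ Q)) (Subgroup.inclusion le_sup_right x) : ↥(P ⊔ Q)) : Ω) = _
    rw [hak]; rfl
  have hsurj : Function.Surjective
      (((resHom P K).comp (Subgroup.inclusion inf_le_left)).codRestrict (E.autGroup P) hres) := by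
    rintro ⟨β, hβ⟩
    have hβE : P.subtype.comp β.toMonoidHom ∈ E.Hom P := (mem_autGroup_iff E hP β).1 hβ
    obtain ⟨hβF, -, -, ψ, hψ, hψP, k, hk, hψQ⟩ := (hE P _).1 hβE
    have hψP' : ∀ (x : ↥(P ⊔ Q)) (hx : (x : Ω) ∈ P), ψ x = ((β ⟨x, hx⟩ : P) : Ω) :=
      fun x hx => hψP ⟨x, hx⟩
    have hψQ' : ∀ (x : ↥(P ⊔ Q)) (hx : (x : Ω) ∈ Q), ψ x = ((k ⟨x, hx⟩ : Q) : Ω) :=
      fun x hx => hψQ ⟨x, hx⟩
    have hmapM : ∀ z : ↥(P ⊔ Q), ψ z ∈ P ⊔ Q := by
      apply sup_map_mem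
      · intro x hx
        rw [hψP' x hx]; exact hPM (β ⟨x, hx⟩).2
      · intro x hx
        rw [hψQ' x hx]; exact (le_sup_right : Q ≤ P ⊔ Q) (k ⟨x, hx⟩).2
    obtain ⟨a, ha, haψ⟩ := exists_iso_of_hom_of_card F hψ hmapM le_rfl
    have haP : ∀ x : P, a (Subgroup.inclusion le_sup_left x)
        = Subgroup.inclusion le_sup_left (β x) := by
      intro x; apply Subtype.ext; rw [haψ, hψP]; rfl
    have hakP : a ∈ kP P K := by
      refine ⟨fun z => ⟨fun hz => ?_, fun hz => ?_⟩, k, hk, fun x => ?_⟩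
      · rw [haψ, hψP' z hz]; exact (β ⟨z, hz⟩).2
      · have h3 : a (Subgroup.inclusion le_sup_left (β⁻¹ ⟨(a z : ↥(P ⊔ Q)), hz⟩)) = a z := by
          rw [haP, MulAut.apply_inv_self]; exact Subtype.ext rfl
        have h4 := a.injective h3
        have h5 := Subtype.ext_iff.1 h4
        have h6 : ((β⁻¹ ⟨(a z : ↥(P ⊔ Q)), hz⟩ : P) : Ω) = (z : Ω) := h5
        rw [← h6]; exact (β⁻¹ ⟨(a z : ↥(P ⊔ Q)), hz⟩).2
      · apply Subtype.ext; rw [haψ, hψQ]; rfl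
    refine ⟨⟨a, Subgroup.mem_inf.2 ⟨hakP, (mem_autGroup_iff F hMS a).2 ha⟩⟩, ?_⟩
    apply Subtype.ext
    apply MulEquiv.ext
    intro x
    apply Subtype.ext
    show ((a (Subgroup.inclusion le_sup_left x) : ↥(P ⊔ Q)) : Ω) = ((β x : P) : Ω)
    rw [haP]; rfl
  refine ⟨hP, RA.mapSurjective hsurj, ?_⟩
  rw [Sylow.coe_mapSurjective, hRA]
  ext β
  rw [Subgroup.mem_subgroupOf]
  constructor
  · rintro ⟨a, ha, rfl⟩
    have ha' : (a : MulAut ↥(P ⊔ Q)) ∈ kP P K ⊓ autInducedBy S (P ⊔ Q) :=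
      Subgroup.mem_subgroupOf.1 ha
    obtain ⟨g, hg, hga⟩ := (mem_autInducedBy_iff S (P ⊔ Q) _).1 ha'.2
    obtain ⟨k, hk, hak⟩ := ha'.1.2
    have hgN : g ∈ nK S K Q.subtype := by
      refine ⟨hg, k, hk, fun x => ?_⟩
      have h1 := hga (Subgroup.inclusion le_sup_right x)
      rw [hak] at h1
      exact h1.symm
    rw [mem_autInducedBy_iff]
    exact ⟨g, hgN, fun x => hga (Subgroup.inclusion le_sup_left x)⟩
  · intro hβ
    obtain ⟨g, hgN, hgβ⟩ := (mem_autInducedBy_iff (nK S K Q.subtype) P _).1 hβ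
    have hgP : g ∈ Subgroup.normalizer (P : Set Ω) :=
      (mem_normalizerIn_of_aut (S := S) hgN.1 hgβ).2
    have hgM := normalizer_sup_mem hgP (nK_normalizes hgN)
    have hc := conjAut_mem_kP hgN hgP hgM
    refine ⟨⟨conjAut (P ⊔ Q) g hgM, hBA hc⟩, Subgroup.mem_subgroupOf.2 hc, ?_⟩
    apply Subtype.ext
    apply MulEquiv.ext
    intro x
    apply Subtype.ext
    show g * (x : Ω) * g⁻¹ = _
    exact (hgβ x).symm

end Cfsg.Agent.Helper25
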