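import Mathlib
import Cfsg.Prelude.Def_FusionSystem
import Cfsg.Agent.Helper25.KNorm2

set_option autoImplicit false

namespace Cfsg.Agent.Helper25

open Cfsg Cfsg.FusionSystem Cfsg.Agent.Helper26

variable {Ω : Type*} [Group Ω] {S : Subgroup Ω}

/-! ### Step 2b: receptive -/

theorem kNorm_receptive {p : ℕ} [Fact p.Prime] [Finite S] (hS : IsPGroup p S)
    (F : FusionSystem S) (hF : F.IsSaturated p) {Q : Subgroup Ω} (K : Subgroup (MulAut Q))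
    (E : FusionSystem (nK S K Q.subtype))
    (hE : ∀ (P : Subgroup Ω) (φ : P →* Ω), φ ∈ E.Hom P ↔ KHom F K P φ)
    {P : Subgroup Ω} (hP : P ≤ nK S K Q.subtype) (hfull : FullK F (kP P K)) :
    E.IsReceptive P := by
  have hMS : P ⊔ Q ≤ S := hfull.1
  have hfM : Finite ↥(P ⊔ Q) := finite_of_le hMS
  have hPM : P ≤ P ⊔ Q := le_sup_left
  have hQM : Q ≤ P ⊔ Q := le_sup_right
  have hfP : Finite P := finite_of_le (hPM.trans hMS)
  obtain ⟨hMrec, hsyl⟩ := sylow_of_fullK hS F hF (kP P K) hfull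
  have hBA : kP P K ⊓ autInducedBy S (P ⊔ Q) ≤ kP P K ⊓ F.autGroup (P ⊔ Q) :=
    inf_le_inf_left _ (autInducedBy_le_autGroup F hMS)
  refine ⟨hP, fun R φ hφ hrange => ?_⟩
  obtain ⟨hφF, hRN, hφN, φb, hφb, hφbR, k₀, hk₀, hφbQ⟩ := (hE R φ).1 hφ
  have hRS : R ≤ S := hRN.trans (nK_le K _)
  have hRQS : R ⊔ Q ≤ S := (F.le_of_mem hφb).1
  have hφbR' : ∀ (x : ↥(R ⊔ Q)) (hx : (x : Ω) ∈ R), φb x = φ ⟨x, hx⟩ :=
    fun x hx => hφbR ⟨x, hx⟩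
  have hφbQ' : ∀ (x : ↥(R ⊔ Q)) (hx : (x : Ω) ∈ Q), φb x = ((k₀ ⟨x, hx⟩ : Q) : Ω) :=
    fun x hx => hφbQ ⟨x, hx⟩
  have hφP : ∀ x : R, φ x ∈ P := fun x => by rw [← hrange]; exact ⟨x, rfl⟩
  have hPφ : ∀ y ∈ P, ∃ x : R, φ x = y := by
    intro y hy
    have h1 : y ∈ φ.range := by rw [hrange]; exact hy
    exact h1
  have hφbrange : φb.range = P ⊔ Q := by
    apply le_antisymm
    · rintro _ ⟨z, rfl⟩
      refine sup_map_mem φb ?_ ?_ z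
      · intro x hx
        rw [hφbR' x hx]; exact hPM (hφP _)
      · intro x hx
        rw [hφbQ' x hx]; exact hQM (k₀ _).2
    · refine sup_le ?_ ?_
      · intro y hy
        obtain ⟨x, rfl⟩ := hPφ y hy
        exact ⟨Subgroup.inclusion le_sup_left x, hφbR x⟩
      · intro y hy
        refine ⟨Subgroup.inclusion le_sup_right (k₀⁻¹ ⟨y, hy⟩), ?_⟩
        rw [hφbQ, MulAut.apply_inv_self]
  obtain ⟨eb, heb, hebφ⟩ := exists_iso_of_hom F hφb hφbrange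
  have hebR : ∀ (x : ↥(R ⊔ Q)) (hx : (x : Ω) ∈ R), ((eb x : ↥(P ⊔ Q)) : Ω) = φ ⟨x, hx⟩ :=
    fun x hx => (hebφ x).trans (hφbR' x hx)
  have hebQ2 : ∀ q : Q, eb (Subgroup.inclusion le_sup_right q) = Subgroup.inclusion hQM (k₀ q) :=
    fun q => Subtype.ext ((hebφ _).trans (hφbQ q))
  have hebRP : ∀ x : ↥(R ⊔ Q), (x : Ω) ∈ R ↔ ((eb x : ↥(P ⊔ Q)) : Ω) ∈ P := by
    intro x
    constructor
    · intro hx
      rw [hebR x hx]; exact hφP _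
    · intro hx
      obtain ⟨x', hx'⟩ := hPφ _ hx
      have h1 : eb (Subgroup.inclusion le_sup_left x') = eb x := by
        apply Subtype.ext
        rw [hebR _ x'.2]
        exact hx'
      have h2 := eb.injective h1
      have h3 := Subtype.ext_iff.1 h2
      have h4 : (x' : Ω) = (x : Ω) := h3
      rw [← h4]; exact x'.2
  have hNdata : ∀ g ∈ extender (nK S K Q.subtype) R φ, g ∈ nK S K Q.subtype ∧
      g ∈ Subgroup.normalizer (R : Set Ω) ∧ ∃ h ∈ nK S K Q.subtype,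
        ∀ (x y : R), (y : Ω) = g * x * g⁻¹ → φ y = h * φ x * h⁻¹ :=
    fun g hg => (mem_extender_iff' _ R φ g).1 hg
  have hNnorm : extender (nK S K Q.subtype) R φ ≤
      Subgroup.normalizer ((R ⊔ Q : Subgroup Ω) : Set Ω) :=
    fun g hg => normalizer_sup_mem (hNdata g hg).2.1 (nK_normalizes (hNdata g hg).1)
  obtain ⟨Lh, hLh⟩ : ∃ Lh : ↥(extender (nK S K Q.subtype) R φ) →* MulAut ↥(P ⊔ Q),
      ∀ (g : ↥(extender (nK S K Q.subtype) R φ)) (y : ↥(R ⊔ Q)),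
        Lh g (eb y) = eb (conjAut (R ⊔ Q) g (hNnorm g.2) y) := by
    refine ⟨(MulAut.congr eb).toMonoidHom.comp
      ((R ⊔ Q).normalizerMonoidHom.comp (Subgroup.inclusion hNnorm)), fun g y => ?_⟩
    show eb (conjAut (R ⊔ Q) g (hNnorm g.2) (eb.symm (eb y))) = _
    rw [MulEquiv.symm_apply_apply]
  have hL1 : ∀ g : ↥(extender (nK S K Q.subtype) R φ),
      Lh g ∈ kP P K ⊓ F.autGroup (P ⊔ Q) := by
    intro g
    obtain ⟨hgN, hgR, -⟩ := hNdata g g.2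
    obtain ⟨hgS, kg, hkg, hgk⟩ := hgN
    refine Subgroup.mem_inf.2 ⟨⟨fun z => ?_, k₀ * kg * k₀⁻¹,
      K.mul_mem (K.mul_mem hk₀ hkg) (K.inv_mem hk₀), fun x => ?_⟩, ?_⟩
    · have hz : eb (eb.symm z) = z := MulEquiv.apply_symm_apply eb z
      have h1 := hebRP (eb.symm z)
      rw [hz] at h1
      have h2 := hLh g (eb.symm z)
      rw [hz] at h2
      rw [h2, ← h1, ← hebRP, conjAut_apply]
      exact Subgroup.mem_normalizer_iff.1 hgR _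
    · have h1 : (Subgroup.inclusion hQM x : ↥(P ⊔ Q))
          = eb (Subgroup.inclusion le_sup_right (k₀⁻¹ x)) := by
        rw [hebQ2, MulAut.apply_inv_self]
      have h2 : conjAut (R ⊔ Q) g (hNnorm g.2) (Subgroup.inclusion le_sup_right (k₀⁻¹ x))
          = Subgroup.inclusion le_sup_right (kg (k₀⁻¹ x)) := Subtype.ext (hgk _)
      rw [h1, hLh, h2, hebQ2]; rfl
    · rw [mem_autGroup_iff F hMS]
      have hc : IsIso F (conjAut (R ⊔ Q) g (hNnorm g.2)) :=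
        (mem_autGroup_iff F hRQS _).1
          (autInducedBy_le_autGroup F hRQS (conjAut_mem S _ g hgS (hNnorm g.2)))
      have h3 : Lh g = eb.symm.trans ((conjAut (R ⊔ Q) g (hNnorm g.2)).trans eb) := by
        apply MulEquiv.ext; intro z
        have hz : eb (eb.symm z) = z := MulEquiv.apply_symm_apply eb z
        have h2 := hLh g (eb.symm z)
        rw [hz] at h2
        exact h2
      rw [h3]; exact heb.symm.trans (hc.trans heb)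
  have hL2 : ∀ g : ↥(extender (nK S K Q.subtype) R φ),
      Lh g ∈ (kP P K ⊓ autInducedBy S (P ⊔ Q)) ⊔
        ((kP P K ⊓ F.autGroup (P ⊔ Q)) ⊓ fixSub hPM) := by
    intro g
    obtain ⟨hgN, hgR, h, hhN, hgh⟩ := hNdata g g.2
    have hhP : h ∈ Subgroup.normalizer (P : Set Ω) := by
      apply Helper9.mem_normalizer_of_conj_le P h
      intro y hy
      obtain ⟨x, rfl⟩ := hPφ y hy
      have hgx : (g : Ω) * (x : Ω) * (g : Ω)⁻¹ ∈ R :=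
        (Subgroup.mem_normalizer_iff.1 hgR x).1 x.2
      rw [← hgh x ⟨_, hgx⟩ rfl]; exact hφP _
    have hhM := normalizer_sup_mem hhP (nK_normalizes hhN)
    have hb := conjAut_mem_kP hhN hhP hhM
    have hbA := hBA hb
    have hmul : Lh g = conjAut (P ⊔ Q) h hhM * ((conjAut (P ⊔ Q) h hhM)⁻¹ * Lh g) := by group
    rw [hmul]
    refine Subgroup.mul_mem_sup hb (Subgroup.mem_inf.2
      ⟨Subgroup.mul_mem _ (Subgroup.inv_mem _ hbA) (hL1 g), fun y => ?_⟩)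
    show (conjAut (P ⊔ Q) h hhM)⁻¹ (Lh g (Subgroup.inclusion hPM y)) = Subgroup.inclusion hPM y
    apply (conjAut (P ⊔ Q) h hhM).injective
    rw [MulAut.apply_inv_self]
    obtain ⟨x, hx⟩ := hPφ _ y.2
    have hgx : (g : Ω) * (x : Ω) * (g : Ω)⁻¹ ∈ R := (Subgroup.mem_normalizer_iff.1 hgR x).1 x.2
    have h1 : (Subgroup.inclusion hPM y : ↥(P ⊔ Q)) = eb (Subgroup.inclusion le_sup_left x) := by
      apply Subtype.ext
      rw [hebR _ x.2]; exact hx.symm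
    rw [h1, hLh]
    apply Subtype.ext
    rw [conjAut_apply, hebR (Subgroup.inclusion le_sup_left x) x.2]
    have h2 : ((eb (conjAut (R ⊔ Q) g (hNnorm g.2) (Subgroup.inclusion le_sup_left x)) :
        ↥(P ⊔ Q)) : Ω) = φ ⟨(g : Ω) * (x : Ω) * (g : Ω)⁻¹, hgx⟩ := hebR _ hgx
    rw [h2]
    exact hgh x ⟨_, hgx⟩ rfl
  have hLp : IsPGroup p Lh.range :=
    IsPGroup.of_surjective (isPGroup_of_le hS (fun g hg => (hNdata g hg).1.1))
      Lh.rangeRestrict Lh.rangeRestrict_surjective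
  have hLle : Lh.range ≤ (kP P K ⊓ autInducedBy S (P ⊔ Q)) ⊔
      ((kP P K ⊓ F.autGroup (P ⊔ Q)) ⊓ fixSub hPM) := by
    rintro _ ⟨g, rfl⟩; exact hL2 g
  have hA₀norm : ∀ b ∈ kP P K ⊓ F.autGroup (P ⊔ Q),
      ∀ α ∈ (kP P K ⊓ F.autGroup (P ⊔ Q)) ⊓ fixSub hPM,
        b * α * b⁻¹ ∈ (kP P K ⊓ F.autGroup (P ⊔ Q)) ⊓ fixSub hPM := by
    intro b hb α hα
    obtain ⟨hαA, hαfix⟩ := Subgroup.mem_inf.1 hα
    refine Subgroup.mem_inf.2
      ⟨Subgroup.mul_mem _ (Subgroup.mul_mem _ hb hαA) (Subgroup.inv_mem _ hb), fun y => ?_⟩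
    show b (α (b⁻¹ (Subgroup.inclusion hPM y))) = Subgroup.inclusion hPM y
    have hbinv : b⁻¹ ∈ kP P K := (kP P K).inv_mem (Subgroup.mem_inf.1 hb).1
    have h1 : ((b⁻¹ (Subgroup.inclusion hPM y) : ↥(P ⊔ Q)) : Ω) ∈ P := (hbinv.1 _).1 y.2
    have h2 : b⁻¹ (Subgroup.inclusion hPM y) = Subgroup.inclusion hPM ⟨_, h1⟩ := Subtype.ext rfl
    rw [h2, hαfix, ← h2, MulAut.apply_inv_self]
  have hBnorm : kP P K ⊓ autInducedBy S (P ⊔ Q) ≤ Subgroup.normalizer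
      ((((kP P K ⊓ F.autGroup (P ⊔ Q)) ⊓ fixSub hPM : Subgroup (MulAut ↥(P ⊔ Q))) :
        Set (MulAut ↥(P ⊔ Q)))) :=
    fun b hb => Helper9.mem_normalizer_of_conj_le _ b (hA₀norm b (hBA hb))
  have hBp : IsPGroup p (kP P K ⊓ autInducedBy S (P ⊔ Q) : Subgroup (MulAut ↥(P ⊔ Q))) :=
    (isPGroup_autInducedBy hS (P ⊔ Q)).to_le inf_le_right
  obtain ⟨a, haA₀, haL⟩ := exists_conj_le_of_sup (G := MulAut ↥(P ⊔ Q))
    (K := kP P K ⊓ autInducedBy S (P ⊔ Q))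
    (C := (kP P K ⊓ F.autGroup (P ⊔ Q)) ⊓ fixSub hPM)
    (H := kP P K ⊓ F.autGroup (P ⊔ Q)) (T := Lh.range) hBA inf_le_left hBnorm hsyl hBp hLp hLle
  obtain ⟨haA, hafix⟩ := Subgroup.mem_inf.1 haA₀
  obtain ⟨hakP, haF⟩ := Subgroup.mem_inf.1 haA
  have haiso : IsIso F a := (mem_autGroup_iff F hMS a).1 haF
  have he' : IsIso F (eb.trans a) := heb.trans haiso
  obtain ⟨ψ, hψ, hψe⟩ := receptive_ext F hMrec he'
  have hNX : extender (nK S K Q.subtype) R φ ≤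
      extender S (R ⊔ Q) ((P ⊔ Q).subtype.comp (eb.trans a).toMonoidHom) := by
    intro g hg
    obtain ⟨hgN, hgR, -⟩ := hNdata g hg
    have h1 : a * Lh ⟨g, hg⟩ * a⁻¹ ∈ kP P K ⊓ autInducedBy S (P ⊔ Q) :=
      haL (conj_mem_conjBy ⟨⟨g, hg⟩, rfl⟩)
    obtain ⟨h', hh', hh'a⟩ := (mem_autInducedBy_iff S (P ⊔ Q) _).1 h1.2
    rw [mem_extender_iff']
    refine ⟨hgN.1, hNnorm hg, h', hh', fun y y' hy => ?_⟩
    show ((a (eb y') : ↥(P ⊔ Q)) : Ω) = h' * ((a (eb y) : ↥(P ⊔ Q)) : Ω) * h'⁻¹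
    rw [← hh'a]
    show _ = ((a (Lh ⟨g, hg⟩ (a⁻¹ (a (eb y)))) : ↥(P ⊔ Q)) : Ω)
    rw [MulAut.inv_apply_self, hLh ⟨g, hg⟩ y]
    congr 3
    exact Subtype.ext hy
  have hRQX : R ⊔ Q ≤ extender S (R ⊔ Q) ((P ⊔ Q).subtype.comp (eb.trans a).toMonoidHom) :=
    le_extender F he'
  have hNQX : extender (nK S K Q.subtype) R φ ⊔ Q ≤
      extender S (R ⊔ Q) ((P ⊔ Q).subtype.comp (eb.trans a).toMonoidHom) :=
    sup_le hNX (le_sup_right.trans hRQX)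
  obtain ⟨ka, hka, haQ⟩ := hakP.2
  have hQX : ∀ q : Q, (q : Ω) ∈ extender S (R ⊔ Q)
      ((P ⊔ Q).subtype.comp (eb.trans a).toMonoidHom) :=
    fun q => hRQX ((le_sup_right : Q ≤ R ⊔ Q) q.2)
  have hψQ : ∀ q : Q, ψ ⟨q, hQX q⟩ = (((ka * k₀) q : Q) : Ω) := by
    intro q
    have h1 := hψe (Subgroup.inclusion le_sup_right q) (hQX q)
    refine h1.trans ?_
    show ((a (eb (Subgroup.inclusion le_sup_right q)) : ↥(P ⊔ Q)) : Ω) = _
    rw [hebQ2, haQ]; rfl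
  have hNN₀ : extender (nK S K Q.subtype) R φ ≤ nK S K Q.subtype :=
    fun g hg => (hNdata g hg).1
  have hk₁ : ka * k₀ ∈ K := K.mul_mem hka hk₀
  have hψ'E : ψ.comp (Subgroup.inclusion hNX) ∈ E.Hom (extender (nK S K Q.subtype) R φ) := by
    rw [hE]
    refine ⟨fs_restrict F hNX hψ, hNN₀, fun g => ?_, ψ.comp (Subgroup.inclusion hNQX),
      fs_restrict F hNQX hψ, fun g => rfl, ka * k₀, hk₁, fun x => hψQ x⟩
    obtain ⟨hgS, kg, hkg, hgk⟩ := hNN₀ g.2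
    refine ⟨(F.le_of_mem hψ).2 _, (ka * k₀) * kg * (ka * k₀)⁻¹,
      K.mul_mem (K.mul_mem hk₁ hkg) (K.inv_mem hk₁), fun x => ?_⟩
    show ψ ⟨g, hNX g.2⟩ * (x : Ω) * (ψ ⟨g, hNX g.2⟩)⁻¹
      = (((ka * k₀) (kg ((ka * k₀)⁻¹ x)) : Q) : Ω)
    have h2 : ψ ⟨g, hNX g.2⟩ * ψ ⟨(((ka * k₀)⁻¹ x : Q) : Ω), hQX _⟩ * (ψ ⟨g, hNX g.2⟩)⁻¹
        = ψ ⟨((kg ((ka * k₀)⁻¹ x) : Q) : Ω), hQX _⟩ := by
      rw [← map_inv, ← map_mul, ← map_mul]
      congr 1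
      apply Subtype.ext
      exact hgk _
    rw [hψQ, hψQ, MulAut.apply_inv_self] at h2
    exact h2
  refine ⟨ψ.comp (Subgroup.inclusion hNX), hψ'E, fun x hR hN => ?_⟩
  show ψ ⟨x, hNX hN⟩ = φ ⟨x, hR⟩
  have h1 := hψe ⟨x, (le_sup_left : R ≤ R ⊔ Q) hR⟩ (hNX hN)
  refine h1.trans ?_
  show ((a (eb ⟨x, (le_sup_left : R ≤ R ⊔ Q) hR⟩) : ↥(P ⊔ Q)) : Ω) = _
  have h2 : eb ⟨x, (le_sup_left : R ≤ R ⊔ Q) hR⟩
      = Subgroup.inclusion hPM ⟨φ ⟨x, hR⟩, hφP _⟩ := Subtype.ext (hebR _ hR)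
  rw [h2, hafix ⟨φ ⟨x, hR⟩, hφP _⟩]
  rfl

/-! ### Step 1: a conjugate `P'` with `P' ⊔ Q` fully `K_{P'}`-normalized -/

theorem kP_congr {P P' Q : Subgroup Ω} {K : Subgroup (MulAut Q)} (t : ↥(P ⊔ Q) ≃* ↥(P' ⊔ Q))
    (hP : ∀ z : ↥(P ⊔ Q), (z : Ω) ∈ P ↔ ((t z : ↥(P' ⊔ Q)) : Ω) ∈ P')
    {χ : MulAut Q} (hχ : χ ∈ K)
    (hQ : ∀ x : Q, t (Subgroup.inclusion le_sup_right x) = Subgroup.inclusion le_sup_right (χ x))
    {α : MulAut ↥(P ⊔ Q)} (hα : α ∈ kP P K) : MulAut.congr t α ∈ kP P' K := by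
  obtain ⟨hαP, k, hk, hαk⟩ := hα
  refine ⟨fun y => ?_, χ * k * χ⁻¹, K.mul_mem (K.mul_mem hχ hk) (K.inv_mem hχ), fun x => ?_⟩
  · show (y : Ω) ∈ P' ↔ ((t (α (t.symm y)) : ↥(P' ⊔ Q)) : Ω) ∈ P'
    have h1 := hP (t.symm y)
    rw [MulEquiv.apply_symm_apply] at h1
    rw [← h1, ← hP]
    exact hαP _
  · show t (α (t.symm (Subgroup.inclusion le_sup_right x)))
      = Subgroup.inclusion le_sup_right (χ (k (χ⁻¹ x)))
    have h1 : t.symm (Subgroup.inclusion le_sup_right x)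
        = Subgroup.inclusion le_sup_right (χ⁻¹ x) := by
      apply t.injective
      rw [MulEquiv.apply_symm_apply, hQ, MulAut.apply_inv_self]
    rw [h1, hαk, hQ]

theorem nK_kP_congr {P P' Q : Subgroup Ω} {K : Subgroup (MulAut Q)}
    (t : ↥(P ⊔ Q) ≃* ↥(P' ⊔ Q))
    (hP : ∀ z : ↥(P ⊔ Q), (z : Ω) ∈ P ↔ ((t z : ↥(P' ⊔ Q)) : Ω) ∈ P')
    {χ : MulAut Q} (hχ : χ ∈ K)
    (hQ : ∀ x : Q, t (Subgroup.inclusion le_sup_right x) = Subgroup.inclusion le_sup_right (χ x))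
    (φ' : ↥(P' ⊔ Q) →* Ω) :
    nK S (kP P' K) φ' = nK S (kP P K) (φ'.comp t.toMonoidHom) := by
  have hP' : ∀ y : ↥(P' ⊔ Q), (y : Ω) ∈ P' ↔ ((t.symm y : ↥(P ⊔ Q)) : Ω) ∈ P := by
    intro y
    have h1 := hP (t.symm y)
    rw [MulEquiv.apply_symm_apply] at h1
    exact h1.symm
  have hQ' : ∀ x : Q, t.symm (Subgroup.inclusion le_sup_right x)
      = Subgroup.inclusion le_sup_right (χ⁻¹ x) := by
    intro x
    apply t.injective
    rw [MulEquiv.apply_symm_apply, hQ, MulAut.apply_inv_self]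
  ext g
  constructor
  · rintro ⟨hg, α', hα', hgα'⟩
    refine ⟨hg, MulAut.congr t.symm α', kP_congr t.symm hP' (K.inv_mem hχ) hQ' hα', fun z => ?_⟩
    show g * φ' (t z) * g⁻¹ = φ' (t (t.symm (α' (t z))))
    rw [MulEquiv.apply_symm_apply]
    exact hgα' (t z)
  · rintro ⟨hg, α, hα, hgα⟩
    refine ⟨hg, MulAut.congr t α, kP_congr t hP hχ hQ hα, fun y => ?_⟩
    show g * φ' y * g⁻¹ = φ' (t (α (t.symm y)))
    have h1 := hgα (t.symm y)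
    have h2 : (φ'.comp t.toMonoidHom) (t.symm y) = φ' y := by
      show φ' (t (t.symm y)) = φ' y
      rw [MulEquiv.apply_symm_apply]
    rw [h2] at h1
    exact h1

theorem fullK_transport [Finite S] (F : FusionSystem S) {Q : Subgroup Ω} (K : Subgroup (MulAut Q))
    {P P' : Subgroup Ω} (hP'Q : P' ⊔ Q ≤ S)
    {φ : ↥(P ⊔ Q) →* Ω}
    (hφmax : ∀ φ' ∈ F.Hom (P ⊔ Q), Nat.card (nK S (kP P K) φ') ≤ Nat.card (nK S (kP P K) φ))
    {χ : MulAut Q} (hχK : χ ∈ K) {D : Subgroup Ω} {ψ : D →* Ω} (hψ : ψ ∈ F.Hom D)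
    (hφD : ∀ z : ↥(P ⊔ Q), φ z ∈ D) (hD : nK S (kP P K) φ ≤ D)
    (t : ↥(P ⊔ Q) ≃* ↥(P' ⊔ Q)) (ht : IsIso F t)
    (htψ : ∀ z : ↥(P ⊔ Q), ((t z : ↥(P' ⊔ Q)) : Ω) = ψ ⟨φ z, hφD z⟩)
    (hP : ∀ z : ↥(P ⊔ Q), (z : Ω) ∈ P ↔ ((t z : ↥(P' ⊔ Q)) : Ω) ∈ P')
    (hQ : ∀ x : Q, t (Subgroup.inclusion le_sup_right x)
      = Subgroup.inclusion le_sup_right (χ x)) :
    FullK F (kP P' K) := by
  refine ⟨hP'Q, fun φ' hφ' => ?_⟩
  rw [nK_kP_congr t hP hχK hQ φ', nK_kP_congr t hP hχK hQ (P' ⊔ Q).subtype]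
  refine (hφmax _ (ht.comp_hom hφ')).trans ?_
  have hmem : ∀ g : nK S (kP P K) φ,
      ψ ⟨g, hD g.2⟩ ∈ nK S (kP P K) ((P' ⊔ Q).subtype.comp t.toMonoidHom) := by
    intro g
    obtain ⟨hgS, α, hα, hgα⟩ := g.2
    refine ⟨(F.le_of_mem hψ).2 _, α, hα, fun z => ?_⟩
    show ψ ⟨g, hD g.2⟩ * ((t z : ↥(P' ⊔ Q)) : Ω) * (ψ ⟨g, hD g.2⟩)⁻¹
      = ((t (α z) : ↥(P' ⊔ Q)) : Ω)
    rw [htψ, htψ, ← map_inv, ← map_mul, ← map_mul]
    congr 1
    apply Subtype.ext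
    exact hgα z
  have hfin : Finite ↥(nK S (kP P K) ((P' ⊔ Q).subtype.comp t.toMonoidHom)) :=
    finite_of_le (nK_le _ _)
  refine Nat.card_le_card_of_injective (fun g : nK S (kP P K) φ =>
    (⟨ψ ⟨g, hD g.2⟩, hmem g⟩ : nK S (kP P K) ((P' ⊔ Q).subtype.comp t.toMonoidHom))) ?_
  intro a b hab
  have h1 := Subtype.ext_iff.1 hab
  have h2 : ψ ⟨a, hD a.2⟩ = ψ ⟨b, hD b.2⟩ := h1
  have h3 := F.injective_of_mem hψ h2
  have h4 := Subtype.ext_iff.1 h3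
  exact Subtype.ext h4

theorem kNorm_exists_full {p : ℕ} [Fact p.Prime] [Finite S] (hS : IsPGroup p S)
    (F : FusionSystem S) (hF : F.IsSaturated p) {Q : Subgroup Ω} (K : Subgroup (MulAut Q))
    (hfull : FullK F K) (E : FusionSystem (nK S K Q.subtype))
    (hE : ∀ (P : Subgroup Ω) (φ : P →* Ω), φ ∈ E.Hom P ↔ KHom F K P φ)
    {P : Subgroup Ω} (hP : P ≤ nK S K Q.subtype) :
    ∃ P' : Subgroup Ω, E.IsConj P P' ∧ P' ≤ nK S K Q.subtype ∧ FullK F (kP P' K) := by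
  have hQS := hfull.1
  have hPS : P ≤ S := hP.trans (nK_le K _)
  have hMS : P ⊔ Q ≤ S := sup_le hPS hQS
  have hPM : P ≤ P ⊔ Q := le_sup_left
  have hQM : Q ≤ P ⊔ Q := le_sup_right
  obtain ⟨φ, hφ, hφmax⟩ : ∃ φ ∈ F.Hom (P ⊔ Q), ∀ φ' ∈ F.Hom (P ⊔ Q),
      Nat.card (nK S (kP P K) φ') ≤ Nat.card (nK S (kP P K) φ) := by
    have hne : {n | ∃ φ ∈ F.Hom (P ⊔ Q), Nat.card (nK S (kP P K) φ) = n}.Nonempty :=
      ⟨_, _, fs_subtype F hMS, rfl⟩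
    have hbdd : BddAbove {n | ∃ φ ∈ F.Hom (P ⊔ Q), Nat.card (nK S (kP P K) φ) = n} := by
      refine ⟨Nat.card S, ?_⟩
      rintro n ⟨φ, -, rfl⟩
      exact Subgroup.card_le_of_le (nK_le _ _)
    obtain ⟨φ, hφ, hφn⟩ := Nat.sSup_mem hne hbdd
    refine ⟨φ, hφ, fun φ' hφ' => ?_⟩
    rw [hφn]
    exact le_csSup hbdd ⟨φ', hφ', rfl⟩
  have hφQ : φ.comp (Subgroup.inclusion hQM) ∈ F.Hom Q := fs_restrict F hQM hφ
  obtain ⟨χ, hχA, ψ, hψ, hψx⟩ := kext_of_fullK hS F hF K hfull hφQ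
  have hχK : χ ∈ K := hχA.1
  have hφD : ∀ z : ↥(P ⊔ Q), φ z ∈ (φ.comp (Subgroup.inclusion hQM)).range ⊔
      nK S K (φ.comp (Subgroup.inclusion hQM)) := by
    apply sup_map_mem
    · intro z hz
      apply (le_sup_right : nK S K (φ.comp (Subgroup.inclusion hQM)) ≤ _)
      obtain ⟨-, k, hk, hzk⟩ := hP hz
      refine ⟨(F.le_of_mem hφ).2 z, k, hk, fun x => ?_⟩
      show φ z * φ (Subgroup.inclusion hQM x) * (φ z)⁻¹ = φ (Subgroup.inclusion hQM (k x))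
      rw [← map_inv, ← map_mul, ← map_mul]
      congr 1
      apply Subtype.ext
      exact hzk x
    · intro z hz
      apply (le_sup_left : (φ.comp (Subgroup.inclusion hQM)).range ≤ _)
      exact ⟨⟨z, hz⟩, rfl⟩
  have hD : nK S (kP P K) φ ≤ (φ.comp (Subgroup.inclusion hQM)).range ⊔
      nK S K (φ.comp (Subgroup.inclusion hQM)) := by
    intro g hg
    apply (le_sup_right : nK S K (φ.comp (Subgroup.inclusion hQM)) ≤ _)
    obtain ⟨hgS, α, hα, hgα⟩ := hg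
    obtain ⟨k, hk, hαk⟩ := hα.2
    refine ⟨hgS, k, hk, fun x => ?_⟩
    show g * φ (Subgroup.inclusion hQM x) * g⁻¹ = φ (Subgroup.inclusion hQM (k x))
    rw [hgα, hαk]
  obtain ⟨θ, hθ, hθQ, hθψ⟩ : ∃ θ : ↥(P ⊔ Q) →* Ω, θ ∈ F.Hom (P ⊔ Q) ∧
      (∀ x : Q, θ (Subgroup.inclusion hQM x) = ((χ x : Q) : Ω)) ∧
      (∀ z : ↥(P ⊔ Q), θ z = ψ ⟨φ z, hφD z⟩) :=
    ⟨ψ.comp (φ.codRestrict _ hφD), F.comp_mem hφ hψ hφD, fun x => hψx x _, fun z => rfl⟩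
  have hθN : ∀ z : ↥(P ⊔ Q), (z : Ω) ∈ P → θ z ∈ nK S K Q.subtype := by
    intro z hz
    obtain ⟨-, k, hk, hzk⟩ := hP hz
    refine ⟨(F.le_of_mem hθ).2 z, χ * k * χ⁻¹, K.mul_mem (K.mul_mem hχK hk) (K.inv_mem hχK),
      fun y => ?_⟩
    show θ z * (y : Ω) * (θ z)⁻¹ = ((χ (k (χ⁻¹ y)) : Q) : Ω)
    have h2 : θ z * θ (Subgroup.inclusion hQM (χ⁻¹ y)) * (θ z)⁻¹
        = θ (Subgroup.inclusion hQM (k (χ⁻¹ y))) := by
      rw [← map_inv, ← map_mul, ← map_mul]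
      congr 1
      apply Subtype.ext
      exact hzk _
    rw [hθQ, hθQ, MulAut.apply_inv_self] at h2
    exact h2
  have hP'N : (P.subgroupOf (P ⊔ Q)).map θ ≤ nK S K Q.subtype := by
    rintro _ ⟨z, hz, rfl⟩
    exact hθN z (Subgroup.mem_subgroupOf.1 hz)
  refine ⟨(P.subgroupOf (P ⊔ Q)).map θ, ?_, hP'N, ?_⟩
  · refine ⟨θ.comp (Subgroup.inclusion hPM), ?_, ?_⟩
    · rw [hE]
      exact ⟨fs_restrict F hPM hθ, hP, fun x => hθN _ x.2, θ, hθ, fun x => rfl, χ, hχK, hθQ⟩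
    · ext y
      constructor
      · rintro ⟨x, rfl⟩
        exact ⟨Subgroup.inclusion hPM x, Subgroup.mem_subgroupOf.2 x.2, rfl⟩
      · rintro ⟨z, hz, rfl⟩
        exact ⟨⟨z, Subgroup.mem_subgroupOf.1 hz⟩, rfl⟩
  · have hθP : ∀ z : ↥(P ⊔ Q), (z : Ω) ∈ P → θ z ∈ (P.subgroupOf (P ⊔ Q)).map θ :=
      fun z hz => ⟨z, Subgroup.mem_subgroupOf.2 hz, rfl⟩
    have hrange : θ.range = (P.subgroupOf (P ⊔ Q)).map θ ⊔ Q := by
      apply le_antisymm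
      · rintro _ ⟨z, rfl⟩
        refine sup_map_mem θ ?_ ?_ z
        · intro x hx
          exact (le_sup_left : (P.subgroupOf (P ⊔ Q)).map θ ≤ _) (hθP x hx)
        · intro x hx
          have h1 := hθQ ⟨x, hx⟩
          have h2 : θ x = ((χ ⟨x, hx⟩ : Q) : Ω) := h1
          rw [h2]
          exact (le_sup_right : Q ≤ (P.subgroupOf (P ⊔ Q)).map θ ⊔ Q) (χ ⟨x, hx⟩).2
      · refine sup_le ?_ ?_
        · rintro _ ⟨z, -, rfl⟩
          exact ⟨z, rfl⟩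
        · intro y hy
          refine ⟨Subgroup.inclusion hQM (χ⁻¹ ⟨y, hy⟩), ?_⟩
          rw [hθQ, MulAut.apply_inv_self]
    obtain ⟨t, ht, htθ⟩ := exists_iso_of_hom F hθ hrange
    refine fullK_transport F K (sup_le (hP'N.trans (nK_le K _)) hQS) hφmax hχK hψ hφD hD t ht
      (fun z => (htθ z).trans (hθψ z)) (fun z => ⟨fun hz => ?_, fun hz => ?_⟩) (fun x => ?_)
    · rw [htθ]; exact hθP z hz
    · rw [htθ] at hz
      obtain ⟨z', hz', hzz'⟩ := hz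
      have h1 := F.injective_of_mem hθ hzz'
      rw [← h1]
      exact Subgroup.mem_subgroupOf.1 hz'
    · apply Subtype.ext
      rw [htθ, hθQ]; rfl

/-- AKO I.5.5: if `Q` is fully `K`-normalized in the saturated system `F`, then `N_F^K(Q)` is
saturated. -/
theorem kNorm_saturated {p : ℕ} [Fact p.Prime] [Finite S] (hS : IsPGroup p S)
    (F : FusionSystem S) (hF : F.IsSaturated p) {Q : Subgroup Ω} (K : Subgroup (MulAut Q))
    (hfull : FullK F K) (E : FusionSystem (nK S K Q.subtype))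
    (hE : ∀ (P : Subgroup Ω) (φ : P →* Ω), φ ∈ E.Hom P ↔ KHom F K P φ) :
    E.IsSaturated p := by
  intro P hP
  obtain ⟨P', hconj, hP', hfull'⟩ := kNorm_exists_full hS F hF K hfull E hE hP
  exact ⟨P', hconj, kNorm_fullyAutomized hS F hF K E hE hP' hfull',
    kNorm_receptive hS F hF K E hE hP' hfull'⟩

/-- AKO I.5.5, for a system over a subgroup `T` equal to `N_S^K(Q)`. -/
theorem kNorm_saturated' {p : ℕ} [Fact p.Prime] [Finite S] (hS : IsPGroup p S)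
    (F : FusionSystem S) (hF : F.IsSaturated p) {Q : Subgroup Ω} (K : Subgroup (MulAut Q))
    (hfull : FullK F K) (T : Subgroup Ω) (hT : T = nK S K Q.subtype) (E : FusionSystem T)
    (hE : ∀ (P : Subgroup Ω) (φ : P →* Ω), φ ∈ E.Hom P ↔ KHom F K P φ) :
    E.IsSaturated p := by
  subst hT
  exact kNorm_saturated hS F hF K hfull E hE

end Cfsg.Agent.Helper25
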