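import Mathlib
import Cfsg.Agent.S0809
import Cfsg.Agent.Helper12.SL2Commutant

set_option autoImplicit false

namespace Cfsg.Agent.Helper25

open Cfsg Cfsg.Agent.Helper12 Matrix

variable {F : Type*} [Field F]

theorem sl2NegOne_comm (y : Matrix.SpecialLinearGroup (Fin 2) F) :
    y * sl2NegOne = sl2NegOne * y :=
  (Subgroup.mem_center_iff.mp sl2NegOne_mem_center) y

/-- Commuting in `PSL₂` lifts to commuting or anticommuting in `SL₂`. -/
theorem psl2_comm_cases (g x : Matrix.SpecialLinearGroup (Fin 2) F)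
    (h : (QuotientGroup.mk g : Matrix.ProjectiveSpecialLinearGroup (Fin 2) F) * QuotientGroup.mk x =
      QuotientGroup.mk x * QuotientGroup.mk g) :
    g * x = x * g ∨ g * x = sl2NegOne * (x * g) := by
  have h1 : (QuotientGroup.mk (x * g) : Matrix.ProjectiveSpecialLinearGroup (Fin 2) F) =
      QuotientGroup.mk (g * x) := h.symm
  rw [QuotientGroup.eq] at h1
  rcases sl2_center_cases _ h1 with h2 | h2
  · left
    rw [inv_mul_eq_one] at h2
    exact h2.symm
  · right
    rw [inv_mul_eq_iff_eq_mul] at h2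
    rw [h2]
    exact sl2NegOne_comm _

theorem sl2_not_scalar_of_sq (h2 : (2 : F) ≠ 0) (x : Matrix.SpecialLinearGroup (Fin 2) F)
    (hx : x * x = sl2NegOne) : ¬ Sl2Scalar x := by
  intro hs
  rcases sl2_center_cases x (sl2Scalar_mem_center x hs) with h | h
  · rw [h, mul_one] at hx
    exact sl2NegOne_ne_one h2 hx.symm
  · rw [h, sl2NegOne_mul_self] at hx
    exact sl2NegOne_ne_one h2 hx.symm

/-- An element anticommuting with a square root of `-1` is a square root of `-1`. -/
theorem sl2_anti_sq (h2 : (2 : F) ≠ 0) (x g : Matrix.SpecialLinearGroup (Fin 2) F)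
    (hx : x * x = sl2NegOne) (hg : g * x = sl2NegOne * (x * g)) : g * g = sl2NegOne := by
  apply Cfsg.Agent.S0809.sq_eq_negOne_of_trace
  have htx := Cfsg.Agent.S0809.trace_of_sq_eq_negOne x hx
  obtain ⟨a, b, c, d, hX, hdet⟩ := sl2_eta x
  obtain ⟨e, f, h, k, hG, -⟩ := sl2_eta g
  have hg' : (g : Matrix (Fin 2) (Fin 2) F) * (x : Matrix (Fin 2) (Fin 2) F) =
      -((x : Matrix (Fin 2) (Fin 2) F) * (g : Matrix (Fin 2) (Fin 2) F)) := by
    rw [← Matrix.SpecialLinearGroup.coe_mul, hg, sl2NegOne_mul_val,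
      Matrix.SpecialLinearGroup.coe_mul]
  rw [hX, Matrix.trace_fin_two_of] at htx
  rw [hX, hG] at hg'
  rw [hG, Matrix.trace_fin_two_of]
  have e00 := congrFun (congrFun hg' 0) 0
  have e01 := congrFun (congrFun hg' 0) 1
  have e10 := congrFun (congrFun hg' 1) 0
  have e11 := congrFun (congrFun hg' 1) 1
  simp [Matrix.mul_apply, Fin.sum_univ_two] at e00 e01 e10 e11
  have hd : d = -a := by linear_combination htx
  subst hd
  by_contra hne
  have hb : b = 0 := by
    have h0 : (e + k) * b = 0 := by linear_combination e01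
    exact (mul_eq_zero.mp h0).resolve_left hne
  have hc : c = 0 := by
    have h0 : (e + k) * c = 0 := by linear_combination e10
    exact (mul_eq_zero.mp h0).resolve_left hne
  have ha : a = 0 := by
    have h0 : 2 * ((e + k) * a) = 0 := by linear_combination e00 - e11
    exact (mul_eq_zero.mp ((mul_eq_zero.mp h0).resolve_left h2)).resolve_left hne
  subst ha hb hc
  simp at hdet

/-- An element anticommuting with a square root `x` of `-1` inverts the centralizer of `x`. -/
theorem sl2_anti_inv (h2 : (2 : F) ≠ 0) (x g c : Matrix.SpecialLinearGroup (Fin 2) F)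
    (hx : x * x = sl2NegOne) (hg : g * x = sl2NegOne * (x * g)) (hc : x * c = c * x) :
    g * c = c⁻¹ * g := by
  obtain ⟨u, v, hC⟩ := sl2_commutant x c (sl2_not_scalar_of_sq h2 x hx) hc
  have htx := Cfsg.Agent.S0809.trace_of_sq_eq_negOne x hx
  have htg := Cfsg.Agent.S0809.trace_of_sq_eq_negOne g (sl2_anti_sq h2 x g hx hg)
  obtain ⟨a, b, c0, d, hX, hdet⟩ := sl2_eta x
  obtain ⟨e, f, h, k, hG, -⟩ := sl2_eta g
  have hg' : (g : Matrix (Fin 2) (Fin 2) F) * (x : Matrix (Fin 2) (Fin 2) F) =
      -((x : Matrix (Fin 2) (Fin 2) F) * (g : Matrix (Fin 2) (Fin 2) F)) := by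
    rw [← Matrix.SpecialLinearGroup.coe_mul, hg, sl2NegOne_mul_val,
      Matrix.SpecialLinearGroup.coe_mul]
  rw [hX, Matrix.trace_fin_two_of] at htx
  rw [hG, Matrix.trace_fin_two_of] at htg
  rw [hX, hG] at hg'
  have e00 := congrFun (congrFun hg' 0) 0
  simp [Matrix.mul_apply, Fin.sum_univ_two] at e00
  have hd : d = -a := by linear_combination htx
  have hk : k = -e := by linear_combination htg
  subst hd hk
  have h1 : 2 * a * e + f * c0 + b * h = 0 := by linear_combination e00
  rw [sl2_mul_eq_iff, Matrix.SpecialLinearGroup.coe_inv, hC, hG, hX, Matrix.adjugate_fin_two]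
  ext i j
  fin_cases i <;> fin_cases j <;> simp [Matrix.mul_apply, Fin.sum_univ_two] <;>
    first
      | ring1
      | linear_combination v * h1

/-- The only square roots of `-1` commuting with a square root `x` of `-1` are `±x`. -/
theorem sl2_comm_sq_neg (h2 : (2 : F) ≠ 0) (x c : Matrix.SpecialLinearGroup (Fin 2) F)
    (hx : x * x = sl2NegOne) (hc : x * c = c * x) (hcc : c * c = sl2NegOne) :
    c = x ∨ c = sl2NegOne * x := by
  obtain ⟨u, v, hC⟩ := sl2_commutant x c (sl2_not_scalar_of_sq h2 x hx) hc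
  have htx := Cfsg.Agent.S0809.trace_of_sq_eq_negOne x hx
  have htc := Cfsg.Agent.S0809.trace_of_sq_eq_negOne c hcc
  obtain ⟨a, b, c0, d, hX, hdet⟩ := sl2_eta x
  have hdc := c.det_coe
  rw [hX, Matrix.trace_fin_two_of] at htx
  rw [hC, hX] at htc hdc
  simp [Matrix.trace_fin_two] at htc
  simp [Matrix.det_fin_two] at hdc
  have hd : d = -a := by linear_combination htx
  subst hd
  have hu : u = 0 := by
    have h0 : 2 * u = 0 := by linear_combination htc
    exact (mul_eq_zero.mp h0).resolve_left h2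
  subst hu
  have hv : (v - 1) * (v + 1) = 0 := by linear_combination hdc - v ^ 2 * hdet
  rcases mul_eq_zero.mp hv with h | h
  · left
    have hv1 : v = 1 := by linear_combination h
    apply Subtype.ext
    rw [hC, hv1]
    simp
  · right
    have hv1 : v = -1 := by linear_combination h
    apply Subtype.ext
    rw [sl2NegOne_mul_val, hC, hv1]
    simp

/-- The product of two elements anticommuting with `x` commutes with `x`. -/
theorem sl2_anti_mul (x g h : Matrix.SpecialLinearGroup (Fin 2) F)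
    (hg : g * x = sl2NegOne * (x * g)) (hh : h * x = sl2NegOne * (x * h)) :
    x * (g * h) = (g * h) * x := by
  symm
  calc (g * h) * x = g * (h * x) := mul_assoc _ _ _
    _ = g * (sl2NegOne * (x * h)) := by rw [hh]
    _ = sl2NegOne * ((g * x) * h) := by
        rw [← mul_assoc g, sl2NegOne_comm g, mul_assoc, mul_assoc]
    _ = sl2NegOne * ((sl2NegOne * (x * g)) * h) := by rw [hg]
    _ = (sl2NegOne * sl2NegOne) * (x * (g * h)) := by simp only [mul_assoc]
    _ = x * (g * h) := by rw [sl2NegOne_mul_self, one_mul]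

/-- Two anticommuting square roots of `-1`, not equal up to sign. -/
theorem exists_klein [Fintype F] (hodd : Odd (Fintype.card F)) :
    ∃ x y : Matrix.SpecialLinearGroup (Fin 2) F, x * x = sl2NegOne ∧ y * y = sl2NegOne ∧
      x * y = sl2NegOne * (y * x) ∧ x ≠ y ∧ x ≠ sl2NegOne * y := by
  have h2 : (2 : F) ≠ 0 := two_ne_zero_of_odd hodd
  obtain ⟨a, b, hab⟩ := sl2_norm_universal hodd 0 (Cfsg.Agent.S0809.four_ne_zero_sq hodd) (-1)
  refine ⟨sl2mk 0 1 (-1) 0 (by ring), sl2mk a b b (-a) (by linear_combination -hab),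
    ?_, ?_, ?_, ?_, ?_⟩
  · apply Cfsg.Agent.S0809.sq_eq_negOne_of_trace
    simp [Matrix.trace_fin_two]
  · apply Cfsg.Agent.S0809.sq_eq_negOne_of_trace
    simp [Matrix.trace_fin_two]
  · apply Subtype.ext
    rw [sl2NegOne_mul_val, Matrix.SpecialLinearGroup.coe_mul, Matrix.SpecialLinearGroup.coe_mul,
      sl2mk_val, sl2mk_val]
    ext i j
    fin_cases i <;> fin_cases j <;> simp [Matrix.mul_apply, Fin.sum_univ_two]
  · intro h
    have h1 := congrArg (fun m : Matrix.SpecialLinearGroup (Fin 2) F =>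
      (m : Matrix (Fin 2) (Fin 2) F) 0 1) h
    have h3 := congrArg (fun m : Matrix.SpecialLinearGroup (Fin 2) F =>
      (m : Matrix (Fin 2) (Fin 2) F) 1 0) h
    simp at h1 h3
    apply h2
    linear_combination h1 - h3
  · intro h
    have h1 := congrArg (fun m : Matrix.SpecialLinearGroup (Fin 2) F =>
      (m : Matrix (Fin 2) (Fin 2) F) 0 1) h
    have h3 := congrArg (fun m : Matrix.SpecialLinearGroup (Fin 2) F =>
      (m : Matrix (Fin 2) (Fin 2) F) 1 0) h
    rw [sl2NegOne_mul_val] at h1 h3
    simp at h1 h3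
    apply h2
    linear_combination h1 + h3

end Cfsg.Agent.Helper25
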