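import Mathlib
import Cfsg.Prelude.Def_FusionSystem
import Cfsg.Agent.Helper26.Alperin
import Cfsg.Agent.Helper25.PStable

set_option autoImplicit false

namespace Cfsg.Agent.Helper25

open Cfsg Cfsg.FusionSystem

variable {Ω : Type*} [Group Ω] {S : Subgroup Ω}

/-- The image in `Aut(R)` of `O_p(Aut_F(R))`. -/
def opAut (F : FusionSystem S) (p : ℕ) (R : Subgroup Ω) : Subgroup (MulAut R) :=
  (pCore p (F.autGroup R)).map (F.autGroup R).subtype

/-- `N_S^K(R)` for `K = O_p(Aut_F(R))`: the elements of `N_S(R)` inducing on `R` an automorphism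
lying in `O_p(Aut_F(R))`. -/
def plusSub (F : FusionSystem S) (p : ℕ) (R : Subgroup Ω) : Subgroup Ω :=
  S ⊓ (((opAut F p R).comap R.normalizerMonoidHom).map (Subgroup.normalizer (R : Set Ω)).subtype)

theorem mem_plusSub {F : FusionSystem S} {p : ℕ} {R : Subgroup Ω} {s : Ω} :
    s ∈ plusSub F p R ↔ s ∈ S ∧ ∃ h : s ∈ Subgroup.normalizer (R : Set Ω),
      Helper26.conjAut R s h ∈ opAut F p R := by
  constructor
  · rintro ⟨hs, ⟨⟨s', hs'⟩, hk, rfl⟩⟩
    exact ⟨hs, hs', hk⟩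
  · rintro ⟨hs, h, hk⟩
    exact ⟨hs, ⟨⟨s, h⟩, hk, rfl⟩⟩

theorem plusSub_le (F : FusionSystem S) (p : ℕ) (R : Subgroup Ω) : plusSub F p R ≤ S :=
  inf_le_left

theorem le_plusSub {p : ℕ} (hS : IsPGroup p S) (F : FusionSystem S) {R : Subgroup Ω}
    (hR : R ≤ S) : R ≤ plusSub F p R := by
  intro r hr
  rw [mem_plusSub]
  refine ⟨hR hr, Subgroup.le_normalizer hr, ?_⟩
  apply Helper26.inn_le_pCore_map hS F hR
  refine ⟨⟨r, hr⟩, ?_⟩
  ext x
  rfl

theorem centralizerIn_le_plusSub (F : FusionSystem S) (p : ℕ) (R : Subgroup Ω) :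
    centralizerIn S R ≤ plusSub F p R := by
  intro c hc
  rw [mem_plusSub]
  refine ⟨hc.1, Subgroup.centralizer_le_normalizer _ hc.2, ?_⟩
  have : Helper26.conjAut R c (Subgroup.centralizer_le_normalizer _ hc.2) = 1 := by
    ext x
    show c * (x : Ω) * c⁻¹ = x
    have h1 := Subgroup.mem_centralizer_iff.mp hc.2 x x.2
    rw [← h1, mul_inv_cancel_right]
  rw [this]
  exact Subgroup.one_mem _

/-- Elements of `O_p(Aut_F(R))` are induced by elements of `S` when `R` is fully automized. -/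
theorem opAut_le_autInducedBy {p : ℕ} [Fact p.Prime] (F : FusionSystem S) {R : Subgroup Ω}
    (hRa : F.IsFullyAutomized p R) : opAut F p R ≤ autInducedBy S R := by
  obtain ⟨-, T, hT⟩ := hRa
  rintro _ ⟨δ, hδ, rfl⟩
  have h1 : δ ∈ (T : Subgroup (F.autGroup R)) := Helper26.pCore_le_sylow' T hδ
  rw [hT] at h1
  exact Subgroup.mem_subgroupOf.1 h1

theorem opAut_le_autGroup (F : FusionSystem S) (p : ℕ) (R : Subgroup Ω) :
    opAut F p R ≤ F.autGroup R := by
  rintro _ ⟨δ, -, rfl⟩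
  exact δ.2

theorem opAut_conj_mem (F : FusionSystem S) (p : ℕ) {R : Subgroup Ω} {k α : MulAut R}
    (hk : k ∈ opAut F p R) (hα : α ∈ F.autGroup R) : α * k * α⁻¹ ∈ opAut F p R := by
  obtain ⟨δ, hδ, rfl⟩ := hk
  have h3 := (Helper26.pCore_normal' p (F.autGroup R)).conj_mem δ hδ ⟨α, hα⟩
  exact ⟨_, h3, rfl⟩

/-- `Q ≤ R` and every `F`-automorphism of `Q` extends to an `F`-automorphism of `R`. -/
def ExtAut (F : FusionSystem S) (Q R : Subgroup Ω) : Prop :=
  ∃ hQR : Q ≤ R, ∀ α ∈ F.autGroup Q, ∃ β ∈ F.autGroup R,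
    ∀ x : Q, ((β ⟨x, hQR x.2⟩ : R) : Ω) = α x

theorem extAut_refl (F : FusionSystem S) (Q : Subgroup Ω) : ExtAut F Q Q :=
  ⟨le_rfl, fun α hα => ⟨α, hα, fun _ => rfl⟩⟩

theorem ExtAut.trans {F : FusionSystem S} {Q R R' : Subgroup Ω} (h : ExtAut F Q R)
    (h' : ExtAut F R R') : ExtAut F Q R' := by
  obtain ⟨hQR, h⟩ := h
  obtain ⟨hRR', h'⟩ := h'
  refine ⟨hQR.trans hRR', fun α hα => ?_⟩
  obtain ⟨β, hβ, hβα⟩ := h α hα
  obtain ⟨γ, hγ, hγβ⟩ := h' β hβ
  refine ⟨γ, hγ, fun x => ?_⟩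
  rw [← hβα x, ← hγβ ⟨x, hQR x.2⟩]

/-- Every automorphism of a fully automized receptive `R` extends to `N_S^K(R)`. -/
theorem extAut_plusSub {p : ℕ} [Fact p.Prime] [Finite S] (hS : IsPGroup p S)
    (F : FusionSystem S) {R : Subgroup Ω} (hRa : F.IsFullyAutomized p R)
    (hRr : F.IsReceptive R) : ExtAut F R (plusSub F p R) := by
  have hRS := hRr.1
  have hRP := le_plusSub hS F (p := p) hRS
  refine ⟨hRP, fun α hα => ?_⟩
  have hα' := (Helper26.mem_autGroup_iff F hRS α).1 hα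
  obtain ⟨χ, hχ, hχe⟩ := Helper26.receptive_ext F hRr hα'
  -- the plus subgroup lies in the extender
  have hB : plusSub F p R ≤ extender S R (R.subtype.comp α.toMonoidHom) := by
    intro u hu
    obtain ⟨huS, huN, huK⟩ := mem_plusSub.1 hu
    rw [Helper26.mem_extender_iff']
    refine ⟨huS, huN, ?_⟩
    have h3 := opAut_conj_mem F p huK hα
    obtain ⟨h, hh, hconj⟩ :=
      (Helper26.mem_autInducedBy_iff S R _).1 (opAut_le_autInducedBy F hRa h3)
    refine ⟨h, hh, fun x y hy => ?_⟩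
    have h4 := hconj (α x)
    have h5 : (α * Helper26.conjAut R u huN * α⁻¹) (α x) = α y := by
      show α (Helper26.conjAut R u huN (α⁻¹ (α x))) = α y
      rw [MulAut.inv_apply_self]
      congr 1
      exact Subtype.ext hy.symm
    rw [h5] at h4
    exact h4
  have hφ : χ.comp (Subgroup.inclusion hB) ∈ F.Hom (plusSub F p R) :=
    Helper26.fs_restrict F hB hχ
  have hRE : R ≤ extender S R (R.subtype.comp α.toMonoidHom) := Helper26.le_extender F hα'
  have hmem : ∀ s : plusSub F p R, (χ.comp (Subgroup.inclusion hB)) s ∈ plusSub F p R := by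
    intro s
    obtain ⟨hsS, hsN, hsK⟩ := mem_plusSub.1 s.2
    have htS : χ ⟨s, hB s.2⟩ ∈ S := (F.le_of_mem hχ).2 _
    have hδK := opAut_conj_mem F p hsK hα
    have hδ : ∀ y : R, (((α * Helper26.conjAut R (s : Ω) hsN * α⁻¹) y : R) : Ω)
        = χ ⟨s, hB s.2⟩ * (y : Ω) * (χ ⟨s, hB s.2⟩)⁻¹ := by
      intro y
      show ((α (Helper26.conjAut R (s : Ω) hsN (α⁻¹ y)) : R) : Ω) = _
      have e1 := hχe (Helper26.conjAut R (s : Ω) hsN (α⁻¹ y)) (hRE (Subtype.property _))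
      have e1' : χ ⟨((Helper26.conjAut R (s : Ω) hsN (α⁻¹ y) : R) : Ω), hRE (Subtype.property _)⟩
          = ((α (Helper26.conjAut R (s : Ω) hsN (α⁻¹ y)) : R) : Ω) := e1
      rw [← e1']
      have e2 : (⟨((Helper26.conjAut R (s : Ω) hsN (α⁻¹ y) : R) : Ω), hRE (Subtype.property _)⟩ :
          extender S R (R.subtype.comp α.toMonoidHom))
          = ⟨s, hB s.2⟩ * ⟨((α⁻¹ y : R) : Ω), hRE (Subtype.property _)⟩ * ⟨s, hB s.2⟩⁻¹ :=
        Subtype.ext rfl
      rw [e2, map_mul, map_mul, map_inv]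
      have e3 := hχe (α⁻¹ y) (hRE (Subtype.property _))
      have e3' : χ ⟨((α⁻¹ y : R) : Ω), hRE (Subtype.property _)⟩ = ((α (α⁻¹ y) : R) : Ω) := e3
      rw [e3', MulAut.apply_inv_self]
    have htN : χ ⟨s, hB s.2⟩ ∈ normalizerIn S R := Helper26.mem_normalizerIn_of_aut htS hδ
    show χ ⟨s, hB s.2⟩ ∈ plusSub F p R
    rw [mem_plusSub]
    refine ⟨htS, htN.2, ?_⟩
    have : Helper26.conjAut R (χ ⟨s, hB s.2⟩) htN.2
        = α * Helper26.conjAut R (s : Ω) hsN * α⁻¹ := by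
      ext y
      exact (hδ y).symm
    rw [this]
    exact hδK
  haveI : Finite (plusSub F p R) := Helper26.finite_of_le (plusSub_le F p R)
  obtain ⟨e, he, hex⟩ := Helper26.exists_iso_of_hom_of_card F hφ hmem le_rfl
  refine ⟨e, (Helper26.mem_autGroup_iff F (plusSub_le F p R) e).2 he, fun x => ?_⟩
  rw [hex]
  exact hχe x (hB (hRP x.2))

/-- If `N_S^K(R) = R` for a fully automized receptive `R`, then `R` is centric and radical. -/
theorem centric_radical_of_plusSub_eq {p : ℕ} [Fact p.Prime] (hS : IsPGroup p S)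
    (F : FusionSystem S) {R : Subgroup Ω} (hRa : F.IsFullyAutomized p R)
    (hRr : F.IsReceptive R) (h : plusSub F p R = R) : F.IsCentric R ∧ F.IsRadical p R := by
  have hRS := hRr.1
  constructor
  · apply Helper26.centric_of_receptive F hRr
    have := centralizerIn_le_plusSub F p R
    rwa [h] at this
  · refine ⟨hRS, le_antisymm ?_ (Helper26.inn_le_pCore_map hS F hRS)⟩
    intro k hk
    have hk' : k ∈ opAut F p R := hk
    obtain ⟨u, huS, hu⟩ := (Helper26.mem_autInducedBy_iff S R k).1 (opAut_le_autInducedBy F hRa hk')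
    have huN : u ∈ normalizerIn S R := Helper26.mem_normalizerIn_of_aut huS hu
    have hkc : Helper26.conjAut R u huN.2 = k := by
      ext y
      exact (hu y).symm
    have huP : u ∈ plusSub F p R := mem_plusSub.2 ⟨huS, huN.2, by rw [hkc]; exact hk'⟩
    rw [h] at huP
    refine ⟨⟨u, huP⟩, ?_⟩
    ext y
    exact (hu y).symm

/-- Transport of `ExtAut` along an isomorphism of the system. -/
theorem extAut_transport (F : FusionSystem S) {Q R R₁ : Subgroup Ω} (h : ExtAut F Q R)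
    (e : R ≃* R₁) (he : Helper26.IsIso F e) :
    ∃ (Q₁ : Subgroup Ω) (θ : Q ≃* Q₁), Helper26.IsIso F θ ∧ ExtAut F Q₁ R₁ := by
  obtain ⟨hQR, h⟩ := h
  have hφ : (R₁.subtype.comp e.toMonoidHom).comp (Subgroup.inclusion hQR) ∈ F.Hom Q :=
    Helper26.fs_restrict F hQR he
  obtain ⟨θ, hθ, hθx⟩ := Helper26.exists_iso_of_hom F hφ rfl
  have hθx' : ∀ x : Q, ((θ x : _) : Ω) = ((e ⟨x, hQR x.2⟩ : R₁) : Ω) := hθx
  have hQ₁R₁ : ((R₁.subtype.comp e.toMonoidHom).comp (Subgroup.inclusion hQR)).range ≤ R₁ := by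
    rintro _ ⟨x, rfl⟩
    exact (e _).2
  refine ⟨_, θ, hθ, hQ₁R₁, fun α₁ hα₁ => ?_⟩
  have hα : MulAut.congr θ.symm α₁ ∈ F.autGroup Q := autGroup_congr_mem F hθ.symm hα₁
  obtain ⟨β, hβ, hβα⟩ := h _ hα
  refine ⟨MulAut.congr e β, autGroup_congr_mem F he hβ, fun y => ?_⟩
  show ((e (β (e.symm ⟨y, hQ₁R₁ y.2⟩)) : R₁) : Ω) = α₁ y
  have hy : e.symm ⟨y, hQ₁R₁ y.2⟩ = ⟨(θ.symm y : Q), hQR (θ.symm y).2⟩ := by
    apply e.injective
    rw [MulEquiv.apply_symm_apply]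
    apply Subtype.ext
    rw [← hθx' (θ.symm y), MulEquiv.apply_symm_apply]
  rw [hy]
  have h1 := hβα (θ.symm y)
  have h2 : β ⟨(θ.symm y : Q), hQR (θ.symm y).2⟩
      = ⟨((MulAut.congr θ.symm α₁) (θ.symm y) : Q), hQR (Subtype.property _)⟩ := Subtype.ext h1
  rw [h2, ← hθx' ((MulAut.congr θ.symm α₁) (θ.symm y))]
  show ((θ (θ.symm (α₁ (θ (θ.symm y)))) : _) : Ω) = α₁ y
  rw [MulEquiv.apply_symm_apply, MulEquiv.apply_symm_apply]

end Cfsg.Agent.Helper25
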