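import Mathlib
import Cfsg.Prelude.Def_ConjugacyFunctors
import Cfsg.Agent.Helper10.FamFusion
import Cfsg.Agent.Helper10.ClimbP

/-!
# Functor pairs: control of strong fusion, local to global (helper25)

Built on helper10's chain calculus (`Ch`, `Good`, `Dec`) and well-placed subgroups.
-/

set_option autoImplicit false

namespace Cfsg.Agent.Helper25.PairFusion

open Cfsg Cfsg.Agent.Helper10

variable {G : Type*} [Group G]

/-- The allowed steps for a pair `(W, V)`: elements of `N_H(W T)` or of `C_H(V T)`. -/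
def stepSet2 (W V : Subgroup G → Subgroup G) (H T : Subgroup G) : Set G :=
  {y | y ∈ H ⊓ Subgroup.normalizer ((W T : Subgroup G) : Set G) ∨
    y ∈ H ⊓ Subgroup.centralizer ((V T : Subgroup G) : Set G)}

theorem stepSet2_inv (W V : Subgroup G → Subgroup G) (H T : Subgroup G) :
    ∀ y ∈ stepSet2 W V H T, y⁻¹ ∈ stepSet2 W V H T := by
  rintro y (hy | hy)
  · exact Or.inl (Subgroup.inv_mem _ hy)
  · exact Or.inr (Subgroup.inv_mem _ hy)

/-- From a list of steps (right conjugation) to a chain. -/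
theorem ch_of_list {St : Set G} {T : Subgroup G} {A : Set G} (hA : A ⊆ T) :
    ∀ l : List G, (∀ y ∈ l, y⁻¹ ∈ St) →
      (∀ k : ℕ, k ≤ l.length → cj ((l.take k).prod) A ⊆ T) → Ch St T A (l.prod)⁻¹ := by
  intro l
  induction l using List.reverseRecOn with
  | nil =>
    intro _ _
    rw [List.prod_nil, inv_one]
    exact Ch.nil A hA
  | append_singleton l y ih =>
    intro hl hk
    have h1 : Ch St T A (l.prod)⁻¹ := ih (fun z hz => hl z (List.mem_append_left _ hz))
      (fun k hk' => by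
        have h2 := hk k (by rw [List.length_append]; omega)
        rwa [List.take_append_of_le_length hk'] at h2)
    have e : ((l ++ [y]).prod)⁻¹ = y⁻¹ * (l.prod)⁻¹ := by
      rw [List.prod_append, List.prod_singleton, mul_inv_rev]
    rw [e]
    refine Ch.step A _ _ h1 (hl y (by simp)) ?_
    rw [← e, ← cj_eq_lc]
    have h2 := hk (l ++ [y]).length le_rfl
    rwa [List.take_length] at h2

/-- From a chain to a list of steps (right conjugation). -/
theorem list_of_ch {St : Set G} {T : Subgroup G} {A : Set G} {c : G} (h : Ch St T A c) :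
    ∃ l : List G, (∀ y ∈ l, y⁻¹ ∈ St) ∧ l.prod = c⁻¹ ∧
      ∀ k : ℕ, k ≤ l.length → cj ((l.take k).prod) A ⊆ T := by
  induction h with
  | nil hA =>
    refine ⟨[], by simp, by simp, fun k _ => ?_⟩
    rw [List.take_nil, List.prod_nil, cj_one]
    exact hA
  | step c y h hy hsub ih =>
    obtain ⟨l, hl, hprod, hk⟩ := ih
    refine ⟨l ++ [y⁻¹], ?_, ?_, ?_⟩
    · intro z hz
      rcases List.mem_append.1 hz with hz | hz
      · exact hl z hz
      · rw [List.mem_singleton] at hz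
        rw [hz, inv_inv]; exact hy
    · rw [List.prod_append, List.prod_singleton, hprod, mul_inv_rev]
    · intro k hk'
      by_cases hkl : k ≤ l.length
      · rw [List.take_append_of_le_length hkl]; exact hk k hkl
      · have e : k = (l ++ [y⁻¹]).length := by
          rw [List.length_append, List.length_singleton] at hk' ⊢; omega
        rw [e, List.take_length, List.prod_append, List.prod_singleton, hprod, cj_eq_lc,
          mul_inv_rev, inv_inv, inv_inv]
        exact hsub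

/-- Transport of chains between conjugate Sylow subgroups. -/
theorem ch_conj2 {p : ℕ} {W V : Subgroup G → Subgroup G}
    (hW : Cfsg.IsConjugacyFunctor p W) (hV : Cfsg.IsConjugacyFunctor p V) (H S₁ : Subgroup G)
    (hS₁p : IsPGroup p S₁) (n : G) (hn : n ∈ H) :
    ∀ (A : Set G) (c : G),
      Ch (stepSet2 W V H (S₁.map (MulAut.conj n).toMonoidHom))
        (S₁.map (MulAut.conj n).toMonoidHom) A c →
      Ch (stepSet2 W V H S₁) S₁ (lc n⁻¹ A) (n⁻¹ * c * n) := by
  intro A c h
  have hT'S : ∀ B : Set G, B ⊆ ((S₁.map (MulAut.conj n).toMonoidHom : Subgroup G) : Set G) →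
      lc n⁻¹ B ⊆ S₁ := by
    intro B hB x hx
    rw [mem_lc_iff, inv_inv] at hx
    have h1 : n * x * n⁻¹ ∈ S₁.map (MulAut.conj n).toMonoidHom := hB hx
    have h2 := (Cfsg.Agent.Helper16.mem_map_conj_iff S₁ n _).1 h1
    have e : n⁻¹ * (n * x * n⁻¹) * n = x := by group
    rw [e] at h2; exact h2
  induction h with
  | nil hA =>
    have e : n⁻¹ * 1 * n = 1 := by group
    rw [e]; exact Ch.nil _ (hT'S A hA)
  | step c y h hy hsub ih =>
    have e : n⁻¹ * (y * c) * n = (n⁻¹ * y * n) * (n⁻¹ * c * n) := by group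
    rw [e]
    refine Ch.step _ _ _ ih ?_ ?_
    · have hyH' : ∀ {K : Subgroup G}, y ∈ H ⊓ K → n⁻¹ * y * n ∈ H := fun hyH =>
        H.mul_mem (H.mul_mem (H.inv_mem hn) (Subgroup.mem_inf.1 hyH).1) hn
      rcases hy with hyH | hyH
      · refine Or.inl (Subgroup.mem_inf.2 ⟨hyH' hyH, ?_⟩)
        have hyN := (Subgroup.mem_inf.1 hyH).2
        rw [(hW S₁ hS₁p).2.2 n, ← Subgroup.map_equiv_normalizer_eq (W S₁) (MulAut.conj n)] at hyN
        exact (Cfsg.Agent.Helper16.mem_map_conj_iff _ n y).1 hyN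
      · refine Or.inr (Subgroup.mem_inf.2 ⟨hyH' hyH, ?_⟩)
        have hyC := (Subgroup.mem_inf.1 hyH).2
        rw [(hV S₁ hS₁p).2.2 n] at hyC
        rw [Subgroup.mem_centralizer_iff] at hyC ⊢
        intro v hv
        have h1 := hyC (n * v * n⁻¹) ⟨v, hv, rfl⟩
        calc v * (n⁻¹ * y * n) = n⁻¹ * ((n * v * n⁻¹) * y) * n := by group
          _ = n⁻¹ * (y * (n * v * n⁻¹)) * n := by rw [h1]
          _ = n⁻¹ * y * n * v := by group
    · rw [← e, lc_lc]
      have e2 : n⁻¹ * (y * c) * n * n⁻¹ = n⁻¹ * (y * c) := by group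
      rw [e2, ← lc_lc]
      exact hT'S _ hsub

/-- The local hypothesis (in the statement's list form, for some Sylow subgroup of `H`) gives
chains for any Sylow `p`-subgroup `S₁` of `H`. -/
theorem good_local [Finite G] {p : ℕ} [Fact p.Prime] {W V : Subgroup G → Subgroup G}
    (hW : Cfsg.IsConjugacyFunctor p W) (hV : Cfsg.IsConjugacyFunctor p V) (H : Subgroup G)
    (hc : ∃ Q : Subgroup G, Q ≤ H ∧ IsPGroup p ↥Q ∧ ¬ p ∣ Q.relIndex H ∧
      ∀ (X : Set G) (a : G), X ⊆ Q → a ∈ H → cj a X ⊆ Q →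
        ∃ c ∈ H ⊓ Subgroup.centralizer X, ∃ (n : ℕ) (b : Fin n → G),
          (∀ i, b i ∈ H ⊓ Subgroup.normalizer ((W Q : Subgroup G) : Set G) ∨
            b i ∈ H ⊓ Subgroup.centralizer ((V Q : Subgroup G) : Set G)) ∧
          a = c * (List.ofFn b).prod ∧
          ∀ k : ℕ, k ≤ n → cj (((List.ofFn b).take k).prod) (cj c X) ⊆ Q)
    (S₁ : Subgroup G) (hS₁p : IsPGroup p S₁) (hS₁H : S₁ ≤ H) (hS₁idx : ¬ p ∣ S₁.relIndex H)
    (A : Set G) (h : G) (hh : h ∈ H) (hA : A ⊆ S₁) (hAh : lc h A ⊆ S₁) :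
    Good (stepSet2 W V H S₁) S₁ A h := by
  obtain ⟨T', hT'H, hT'p, hT'idx, hctl⟩ := hc
  obtain ⟨n, hn, hnS⟩ := sylow_conj_eq hT'H hT'p hT'idx hS₁p hS₁H hS₁idx
  subst hnS
  have hST' : ∀ B : Set G, B ⊆ S₁ →
      lc n B ⊆ ((S₁.map (MulAut.conj n).toMonoidHom : Subgroup G) : Set G) := by
    rintro B hB _ ⟨b, hb, rfl⟩
    exact ⟨b, hB hb, rfl⟩
  have hh' : n * h * n⁻¹ ∈ H := H.mul_mem (H.mul_mem hn hh) (H.inv_mem hn)
  have hA' := hST' A hA
  have hA'h : lc (n * h * n⁻¹) (lc n A) ⊆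
      ((S₁.map (MulAut.conj n).toMonoidHom : Subgroup G) : Set G) := by
    rw [lc_lc]
    have e : n * h * n⁻¹ * n = n * h := by group
    rw [e, ← lc_lc]
    exact hST' _ hAh
  have hgood : Good (stepSet2 W V H (S₁.map (MulAut.conj n).toMonoidHom))
      (S₁.map (MulAut.conj n).toMonoidHom) (lc n A) (n * h * n⁻¹) := by
    obtain ⟨c, hc, m, b, hb, hab, hk⟩ := hctl (lc n A) (n * h * n⁻¹)⁻¹ hA'
      (H.inv_mem hh') (by rw [cj_eq_lc, inv_inv]; exact hA'h)
    have hcX : ∀ x ∈ lc n A, c⁻¹ * x * c = x := by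
      intro x hx
      have h1 := Subgroup.mem_centralizer_iff.1 hc.2 x hx
      calc c⁻¹ * x * c = c⁻¹ * (x * c) := by group
        _ = c⁻¹ * (c * x) := by rw [h1]
        _ = x := by group
    have hcj : cj c (lc n A) = lc n A := by
      ext x
      constructor
      · rintro ⟨x', hx', rfl⟩
        show c⁻¹ * x' * c ∈ _
        rw [hcX x' hx']; exact hx'
      · intro hx
        exact ⟨x, hx, hcX x hx⟩
    rw [hcj] at hk
    have hch := ch_of_list (St := stepSet2 W V H (S₁.map (MulAut.conj n).toMonoidHom)) hA'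
      (List.ofFn b) (by
        intro y hy
        obtain ⟨i, rfl⟩ := (List.mem_ofFn' b y).1 hy
        exact stepSet2_inv _ _ _ _ _ (hb i)) (by
        intro k hk'
        rw [List.length_ofFn] at hk'
        exact hk k hk')
    have hprod : (List.ofFn b).prod = c⁻¹ * (n * h * n⁻¹)⁻¹ := by
      rw [hab]; group
    refine ⟨_, hch, fun x hx => ?_⟩
    rw [hprod]
    have h1 := hcX x hx
    calc (c⁻¹ * (n * h * n⁻¹)⁻¹)⁻¹ * x * (c⁻¹ * (n * h * n⁻¹)⁻¹)⁻¹⁻¹
        = (n * h * n⁻¹) * (c * x * c⁻¹) * (n * h * n⁻¹)⁻¹ := by group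
      _ = (n * h * n⁻¹) * (c * (c⁻¹ * x * c) * c⁻¹) * (n * h * n⁻¹)⁻¹ := by rw [h1]
      _ = n * h * n⁻¹ * x * (n * h * n⁻¹)⁻¹ := by group
  obtain ⟨c', hc', e'⟩ := hgood
  have hch := ch_conj2 hW hV H S₁ hS₁p n hn _ _ hc'
  rw [lc_lc, inv_mul_cancel, lc_one] at hch
  refine ⟨n⁻¹ * c' * n, hch, fun a ha => ?_⟩
  have h1 := e' (n * a * n⁻¹) ⟨a, ha, rfl⟩
  calc n⁻¹ * c' * n * a * (n⁻¹ * c' * n)⁻¹ = n⁻¹ * (c' * (n * a * n⁻¹) * c'⁻¹) * n := by group
    _ = n⁻¹ * (n * h * n⁻¹ * (n * a * n⁻¹) * (n * h * n⁻¹)⁻¹) * n := by rw [h1]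
    _ = h * a * h⁻¹ := by group

section climb

variable [Finite G] {p : ℕ} [Fact p.Prime]

/-- Climbing the tower for a pair `(W, V)`, along well-placed subgroups containing `Z(S)`. -/
theorem climb2 (S : Sylow p G) (W V : Subgroup G → Subgroup G)
    (hW : Cfsg.IsConjugacyFunctor p W) (hS1 : (S : Subgroup G) ≠ ⊥)
    (hWZ : ∀ H : Subgroup G, IsPGroup p ↥H →
      H ⊓ Subgroup.centralizer ((H : Subgroup G) : Set G) ≤ W H)
    (hVmono : ∀ H K : Subgroup G, IsPGroup p ↥H → IsPGroup p ↥K → H ≠ ⊥ → K ≠ ⊥ →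
      H ⊓ Subgroup.centralizer ((H : Subgroup G) : Set G) ≤
        K ⊓ Subgroup.centralizer ((K : Subgroup G) : Set G) → V H ≤ V K)
    (hloc : ∀ T : Subgroup G,
      (S : Subgroup G) ⊓ Subgroup.centralizer ((S : Subgroup G) : Set G) ≤ T →
      Cfsg.IsWellPlaced p W (S : Subgroup G) T →
      ∀ (A : Set G) (h : G), h ∈ Subgroup.normalizer (T : Set G) →
        A ⊆ ((S : Subgroup G) ⊓ Subgroup.normalizer (T : Set G) : Subgroup G) →
        lc h A ⊆ ((S : Subgroup G) ⊓ Subgroup.normalizer (T : Set G) : Subgroup G) →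
        Good (stepSet2 W V (Subgroup.normalizer (T : Set G))
          ((S : Subgroup G) ⊓ Subgroup.normalizer (T : Set G)))
          ((S : Subgroup G) ⊓ Subgroup.normalizer (T : Set G)) A h) :
    ∀ (d : ℕ) (T : Subgroup G),
      (S : Subgroup G) ⊓ Subgroup.centralizer ((S : Subgroup G) : Set G) ≤ T →
      Cfsg.IsWellPlaced p W (S : Subgroup G) T →
      Nat.card (S : Subgroup G) - Nat.card ((S : Subgroup G) ⊓ Subgroup.normalizer (T : Set G) :
        Subgroup G) = d →
      ∀ (A : Set G) (h : G), h ∈ Subgroup.normalizer (T : Set G) →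
        A ⊆ ((S : Subgroup G) ⊓ Subgroup.normalizer (T : Set G) : Subgroup G) →
        lc h A ⊆ ((S : Subgroup G) ⊓ Subgroup.normalizer (T : Set G) : Subgroup G) →
        Good (stepSet2 W V ⊤ (S : Subgroup G)) (S : Subgroup G) A h := by
  intro d
  induction d using Nat.strong_induction_on with
  | _ d ih =>
    intro T hZT hwp hd A h hh hA hAh
    have hTS : T ≤ (S : Subgroup G) := hwp.1
    have hS₁p : IsPGroup p ((S : Subgroup G) ⊓ Subgroup.normalizer (T : Set G) : Subgroup G) :=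
      S.isPGroup'.to_le inf_le_left
    -- `Z(S) ≤ Z(N_S(T))`
    have hZZ : (S : Subgroup G) ⊓ Subgroup.centralizer ((S : Subgroup G) : Set G) ≤
        ((S : Subgroup G) ⊓ Subgroup.normalizer (T : Set G)) ⊓
          Subgroup.centralizer ((((S : Subgroup G) ⊓ Subgroup.normalizer (T : Set G) :
            Subgroup G)) : Set G) := by
      intro z hz
      refine ⟨⟨hz.1, Subgroup.le_normalizer (hZT hz)⟩, ?_⟩
      exact Subgroup.centralizer_le (show ((((S : Subgroup G) ⊓ Subgroup.normalizer (T : Set G) :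
        Subgroup G)) : Set G) ⊆ ((S : Subgroup G) : Set G) from fun y hy => hy.1) hz.2
    have hne : (S : Subgroup G) ⊓ Subgroup.normalizer (T : Set G) ≠ ⊥ := by
      intro hbot
      have hT : T = ⊥ := by
        rw [eq_bot_iff, ← hbot]; exact le_inf hTS Subgroup.le_normalizer
      have hN : Subgroup.normalizer (T : Set G) = ⊤ := by
        rw [hT]; exact Subgroup.normalizer_eq_top_iff.2 inferInstance
      rw [hN, inf_top_eq] at hbot
      exact hS1 hbot
    have hVV : V (S : Subgroup G) ≤ V ((S : Subgroup G) ⊓ Subgroup.normalizer (T : Set G)) :=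
      hVmono _ _ S.isPGroup' hS₁p hS1 hne hZZ
    obtain ⟨c, hc, e⟩ := hloc T hZT hwp A h hh hA hAh
    refine Good.congr ?_ e
    refine good_of_ch_of_steps (inf_le_left : (S : Subgroup G) ⊓ Subgroup.normalizer (T : Set G) ≤
      (S : Subgroup G)) ?_ A c hc
    intro B y hy hB hyB
    rcases hy with hyM | hyM
    · have hyNV := (Subgroup.mem_inf.1 hyM).2
      by_cases hN : (S : Subgroup G) ≤ Subgroup.normalizer (T : Set G)
      · have hS₁ : (S : Subgroup G) ⊓ Subgroup.normalizer (T : Set G) = (S : Subgroup G) :=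
          inf_eq_left.2 hN
        rw [hS₁] at hyNV hB hyB
        exact Good.of_ch (Ch.single (Or.inl (Subgroup.mem_inf.2 ⟨Subgroup.mem_top _, hyNV⟩))
          hB hyB)
      · obtain ⟨hle2, hlt⟩ := tower_growth S W hW T hN
        have hwp₁ := isWellPlaced_tower_one W (S : Subgroup G) T hW S.isPGroup' hwp
        have hcard2 : Nat.card ((S : Subgroup G) ⊓ Subgroup.normalizer ((W ((S : Subgroup G) ⊓
            Subgroup.normalizer (T : Set G)) : Subgroup G) : Set G) : Subgroup G) ≤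
            Nat.card (S : Subgroup G) := Subgroup.card_le_of_le inf_le_left
        have hd' : Nat.card (S : Subgroup G) - Nat.card ((S : Subgroup G) ⊓ Subgroup.normalizer
            ((W ((S : Subgroup G) ⊓ Subgroup.normalizer (T : Set G)) : Subgroup G) : Set G) :
            Subgroup G) < d := by omega
        exact ih _ hd' _ (hZZ.trans (hWZ _ hS₁p)) hwp₁ rfl B y hyNV
          (hB.trans (SetLike.coe_subset_coe.2 hle2)) (hyB.trans (SetLike.coe_subset_coe.2 hle2))
    · have hyC := (Subgroup.mem_inf.1 hyM).2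
      have hyC' : y ∈ Subgroup.centralizer ((V (S : Subgroup G) : Subgroup G) : Set G) :=
        Subgroup.centralizer_le (SetLike.coe_subset_coe.2 hVV) hyC
      exact Good.of_ch (Ch.single (Or.inr (Subgroup.mem_inf.2 ⟨Subgroup.mem_top _, hyC'⟩))
        (hB.trans (SetLike.coe_subset_coe.2 inf_le_left))
        (hyB.trans (SetLike.coe_subset_coe.2 inf_le_left)))

/-- Chains along a decomposition all of whose successive conjugates contain `Z(S)`. -/
theorem dec_good_center (S : Sylow p G) (𝓕 : Set (Subgroup G))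
    (h𝓕 : ∀ U ∈ 𝓕, U ≤ (S : Subgroup G)) (St : Set G)
    (hstep : ∀ U ∈ 𝓕, (S : Subgroup G) ⊓ Subgroup.centralizer ((S : Subgroup G) : Set G) ≤ U →
      ∀ x ∈ Subgroup.normalizer (U : Set G), Good St (S : Subgroup G) (U : Set G) x) :
    ∀ (A : Set G) (g : G), Dec 𝓕 A g →
      (∀ h : G, cj h A ⊆ ((S : Subgroup G) : Set G) →
        (((S : Subgroup G) ⊓ Subgroup.centralizer ((S : Subgroup G) : Set G) : Subgroup G) :
          Set G) ⊆ cj h A) →
      A ⊆ ((S : Subgroup G) : Set G) → Good St (S : Subgroup G) A g⁻¹ := by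
  intro A g hdec
  induction hdec with
  | nil A =>
    intro _ hAS
    rw [inv_one]; exact Good.of_ch (Ch.nil A hAS)
  | cons A U x g' hU hx hA hdec ih =>
    intro hinv hAS
    have hUS := h𝓕 U hU
    have hZU : (S : Subgroup G) ⊓ Subgroup.centralizer ((S : Subgroup G) : Set G) ≤ U := by
      intro z hz
      have h1 := hinv 1 (by rw [cj_one]; exact hAS) hz
      rw [cj_one] at h1
      exact hA h1
    have hG1 : Good St (S : Subgroup G) A x⁻¹ :=
      (hstep U hU hZU x⁻¹ (Subgroup.inv_mem _ hx)).mono hA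
    have hcjS : cj x A ⊆ ((S : Subgroup G) : Set G) := by
      rw [cj_subset_iff]
      intro a ha
      have := (Subgroup.mem_normalizer_iff.1 (Subgroup.inv_mem _ hx) a).1 (hA ha)
      rw [inv_inv] at this
      exact hUS this
    have hG2 : Good St (S : Subgroup G) (cj x A) g'⁻¹ := ih (by
      intro h hh
      rw [cj_cj] at hh ⊢
      exact hinv _ hh) hcjS
    rw [mul_inv_rev]
    refine Good.comp hG1 ?_
    rw [← cj_eq_lc]
    exact hG2

/-- Centric reduction for chains. -/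
theorem step_good_centric (S : Sylow p G) (𝓕 : Set (Subgroup G))
    (h𝓕 : ∀ U ∈ 𝓕, U ≤ (S : Subgroup G))
    (hfam : ∀ (A : Set G) (g : G), A ⊆ ((S : Subgroup G) : Set G) →
      cj g A ⊆ ((S : Subgroup G) : Set G) → Dec 𝓕 A g)
    (St : Set G)
    (hstep : ∀ U ∈ 𝓕, (S : Subgroup G) ⊓ Subgroup.centralizer ((S : Subgroup G) : Set G) ≤ U →
      ∀ x ∈ Subgroup.normalizer (U : Set G), Good St (S : Subgroup G) (U : Set G) x)
    (T : Subgroup G) (hTS : T ≤ (S : Subgroup G))
    (hidx : ¬ p ∣ ((S : Subgroup G) ⊓ Subgroup.normalizer (T : Set G)).relIndex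
      (Subgroup.normalizer (T : Set G)))
    (x : G) (hx : x ∈ Subgroup.normalizer (T : Set G)) :
    Good St (S : Subgroup G) (T : Set G) x := by
  obtain ⟨c, hc, hcx⟩ := exists_cent_mul_normalizer S T hidx x hx
  have hcxT : c * x ∈ Subgroup.normalizer (T : Set G) :=
    Subgroup.mul_mem _ (Subgroup.centralizer_le_normalizer _ hc) hx
  obtain ⟨Tp, hTp⟩ : ∃ Tp : Subgroup G,
      Tp = T ⊔ ((S : Subgroup G) ⊓ Subgroup.centralizer (T : Set G)) := ⟨_, rfl⟩
  have hTpS : Tp ≤ (S : Subgroup G) := by rw [hTp]; exact sup_le hTS inf_le_left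
  have hN : c * x ∈ Subgroup.normalizer (Tp : Set G) := by
    apply Cfsg.Agent.Helper16.mem_normalizer_of_map_conj_eq
    rw [hTp, Subgroup.map_sup, Cfsg.Agent.Helper16.map_conj_eq_of_mem_normalizer hcxT,
      Cfsg.Agent.Helper16.map_conj_eq_of_mem_normalizer hcx]
  have hcj : cj (c * x)⁻¹ (Tp : Set G) ⊆ ((S : Subgroup G) : Set G) := by
    rw [cj_subset_iff]
    intro a ha
    rw [inv_inv]
    exact hTpS ((Subgroup.mem_normalizer_iff.mp hN a).mp ha)
  have hdec := hfam (Tp : Set G) (c * x)⁻¹ hTpS hcj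
  have h1 := dec_good_center S 𝓕 h𝓕 St hstep _ _ hdec (by
    intro h hh
    rw [hTp] at hh ⊢
    exact center_subset_cj_sup S T hidx h hh) hTpS
  rw [inv_inv] at h1
  have hTTp : (T : Set G) ⊆ (Tp : Set G) := by
    rw [hTp]; exact fun t ht => Subgroup.mem_sup_left ht
  refine (h1.mono hTTp).congr ?_
  intro t ht
  have h2 : x * t * x⁻¹ ∈ T := (Subgroup.mem_normalizer_iff.mp hx t).mp ht
  have h3 := Subgroup.mem_centralizer_iff.mp hc _ h2
  calc c * x * t * (c * x)⁻¹ = c * (x * t * x⁻¹) * c⁻¹ := by group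
    _ = (x * t * x⁻¹) * c * c⁻¹ := by rw [← h3]
    _ = x * t * x⁻¹ := by group

/-- Local-to-global for chains through well-placed subgroups containing `Z(S)`. -/
theorem good_of_centric_wp (S : Sylow p G) (W : Subgroup G → Subgroup G)
    (hW : Cfsg.IsConjugacyFunctor p W) (St : Set G)
    (hstep : ∀ U : Subgroup G, Cfsg.IsWellPlaced p W (S : Subgroup G) U →
      (S : Subgroup G) ⊓ Subgroup.centralizer ((S : Subgroup G) : Set G) ≤ U →
      ∀ x ∈ Subgroup.normalizer (U : Set G), Good St (S : Subgroup G) (U : Set G) x)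
    (A : Set G) (g : G) (hA : A ⊆ ((S : Subgroup G) : Set G))
    (hg : lc g A ⊆ ((S : Subgroup G) : Set G)) :
    Good St (S : Subgroup G) A g := by
  have hfam : ∀ (A : Set G) (g : G), A ⊆ ((S : Subgroup G) : Set G) →
      cj g A ⊆ ((S : Subgroup G) : Set G) →
      Dec {T : Subgroup G | Cfsg.IsWellPlaced p W (S : Subgroup G) T} A g :=
    isConjugationFamily_of_hyp S {T : Subgroup G | Cfsg.IsWellPlaced p W (S : Subgroup G) T}
      (fun U hU => hU.1) (fun T hT => by
        obtain ⟨h, hwp, -⟩ := exists_wellPlaced_conj S W hW _ T hT rfl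
        exact ⟨_, hwp, ⟨h, rfl⟩, hwp.2 0⟩)
  have hdec := hfam A g⁻¹ hA (by
    rw [cj_subset_iff]
    intro a ha
    rw [inv_inv]
    exact hg ⟨a, ha, rfl⟩)
  have h1 := Good.of_dec (St := St) (T := (S : Subgroup G))
    (𝓕 := {T : Subgroup G | Cfsg.IsWellPlaced p W (S : Subgroup G) T}) (fun U hU => hU.1)
    (fun U hU A hAU x hx =>
      (step_good_centric S _ (fun U hU => hU.1) hfam St
        (fun U hU hZ x hx => hstep U hU hZ x hx) U hU.1 (hU.2 0) x⁻¹
        (Subgroup.inv_mem _ hx)).mono hAU) A g⁻¹ hdec hA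
  rwa [inv_inv] at h1

/-- The pair `(W, V)` controls strong fusion in `G` (statement's list form). -/
theorem pair_main (hdiv : p ∣ Nat.card G) (P : Sylow p G) (W V : Subgroup G → Subgroup G)
    (hW : Cfsg.IsConjugacyFunctor p W) (hV : Cfsg.IsConjugacyFunctor p V)
    (hWZ : ∀ H : Subgroup G, IsPGroup p ↥H →
      H ⊓ Subgroup.centralizer ((H : Subgroup G) : Set G) ≤ W H)
    (hVmono : ∀ H K : Subgroup G, IsPGroup p ↥H → IsPGroup p ↥K → H ≠ ⊥ → K ≠ ⊥ →
      H ⊓ Subgroup.centralizer ((H : Subgroup G) : Set G) ≤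
        K ⊓ Subgroup.centralizer ((K : Subgroup G) : Set G) → V H ≤ V K)
    (hloc : ∀ H : Subgroup G,
      (P : Subgroup G) ⊓ Subgroup.centralizer (((P : Subgroup G) : Subgroup G) : Set G) ≤ H →
      H ≤ (P : Subgroup G) →
      ∃ Q : Subgroup G, Q ≤ Subgroup.normalizer ((H : Subgroup G) : Set G) ∧ IsPGroup p ↥Q ∧
        ¬ p ∣ Q.relIndex (Subgroup.normalizer ((H : Subgroup G) : Set G)) ∧
        ∀ (X : Set G) (a : G), X ⊆ Q → a ∈ Subgroup.normalizer ((H : Subgroup G) : Set G) →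
          cj a X ⊆ Q →
          ∃ c ∈ Subgroup.normalizer ((H : Subgroup G) : Set G) ⊓ Subgroup.centralizer X,
            ∃ (n : ℕ) (b : Fin n → G),
              (∀ i, b i ∈ Subgroup.normalizer ((H : Subgroup G) : Set G) ⊓
                  Subgroup.normalizer ((W Q : Subgroup G) : Set G) ∨
                b i ∈ Subgroup.normalizer ((H : Subgroup G) : Set G) ⊓
                  Subgroup.centralizer ((V Q : Subgroup G) : Set G)) ∧
              a = c * (List.ofFn b).prod ∧
              ∀ k : ℕ, k ≤ n → cj (((List.ofFn b).take k).prod) (cj c X) ⊆ Q)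
    (X : Set G) (a : G) (hX : X ⊆ ((P : Subgroup G) : Set G))
    (haX : cj a X ⊆ ((P : Subgroup G) : Set G)) :
    ∃ c ∈ Subgroup.centralizer X, ∃ (n : ℕ) (b : Fin n → G),
      (∀ i, b i ∈ (⊤ : Subgroup G) ⊓ Subgroup.normalizer ((W (P : Subgroup G) : Subgroup G) : Set G) ∨
        b i ∈ (⊤ : Subgroup G) ⊓ Subgroup.centralizer ((V (P : Subgroup G) : Subgroup G) : Set G)) ∧
      a = c * (List.ofFn b).prod ∧
      ∀ k : ℕ, k ≤ n → cj (((List.ofFn b).take k).prod) (cj c X) ⊆ ((P : Subgroup G) : Set G) := by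
  have hP1 : (P : Subgroup G) ≠ ⊥ := P.ne_bot_of_dvd_card hdiv
  have hgood : Good (stepSet2 W V ⊤ (P : Subgroup G)) (P : Subgroup G) X a⁻¹ := by
    refine good_of_centric_wp P W hW _ ?_ X a⁻¹ hX (by rw [← cj_eq_lc]; exact haX)
    intro U hwp hZU x hx
    have hUle : U ≤ (P : Subgroup G) ⊓ Subgroup.normalizer (U : Set G) :=
      le_inf hwp.1 Subgroup.le_normalizer
    refine climb2 P W V hW hP1 hWZ hVmono ?_ _ U hZU hwp rfl (U : Set G) x hx
      (SetLike.coe_subset_coe.2 hUle) ?_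
    · intro T hZT hwpT A h hh hA hAh
      exact good_local hW hV _ (hloc T hZT hwpT.1) _ (P.isPGroup'.to_le inf_le_left)
        inf_le_right (hwpT.2 0) A h hh hA hAh
    · rintro _ ⟨u, hu, rfl⟩
      exact hUle ((Subgroup.mem_normalizer_iff.1 hx u).1 hu)
  obtain ⟨c', hc', e'⟩ := hgood
  obtain ⟨l, hl, hprod, hk⟩ := list_of_ch hc'
  have hcen : ∀ x ∈ X, (a * c')⁻¹ * x * (a * c') = x := by
    intro x hx
    have h1 := e' x hx
    calc (a * c')⁻¹ * x * (a * c') = c'⁻¹ * (a⁻¹ * x * a⁻¹⁻¹) * c' := by group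
      _ = c'⁻¹ * (c' * x * c'⁻¹) * c' := by rw [h1]
      _ = x := by group
  have hcj : cj (a * c') X = X := by
    ext x
    constructor
    · rintro ⟨x', hx', rfl⟩
      show (a * c')⁻¹ * x' * (a * c') ∈ _
      rw [hcen x' hx']; exact hx'
    · intro hx
      exact ⟨x, hx, hcen x hx⟩
  refine ⟨a * c', ?_, l.length, fun i => l.get i, ?_, ?_, ?_⟩
  · rw [Subgroup.mem_centralizer_iff]
    intro x hx
    have h1 := hcen x hx
    calc x * (a * c') = (a * c') * ((a * c')⁻¹ * x * (a * c')) := by group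
      _ = a * c' * x := by rw [h1]
  · intro i
    have h1 := stepSet2_inv _ _ _ _ _ (hl (l.get i) (List.get_mem l i))
    rw [inv_inv] at h1
    exact h1
  · rw [List.ofFn_get, hprod]; group
  · intro k hk'
    rw [List.ofFn_get, hcj]
    exact hk k hk'

end climb

end Cfsg.Agent.Helper25.PairFusion
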