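import Mathlib
import Cfsg.Prelude.Def_ConjugacyFunctors
import Cfsg.Agent.Helper10.FamFusion
import Cfsg.Agent.Helper10.ClimbP

/-!
# Functor pairs: control of transfer, local to global (helper25)

Built on helper10's conjugation-family calculus (`Dec`, well-placed subgroups, centric
reduction) and Mathlib's focal subgroup theorem.
-/

set_option autoImplicit false

open scoped commutatorElement

namespace Cfsg.Agent.Helper25.PairTransfer

open Cfsg Cfsg.Agent.Helper10

variable {G : Type*} [Group G]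

/-- Elements `b (g⁻¹ b g)⁻¹` of a decomposable conjugation lie in a subgroup `R` containing the
elementwise local pieces at the members of the family satisfying `Φ`. -/
theorem dec_mem_gen {𝓕 : Set (Subgroup G)} (R : Subgroup G) (Φ : Subgroup G → Prop)
    (hstep : ∀ T ∈ 𝓕, Φ T → ∀ t ∈ T, ∀ x ∈ Subgroup.normalizer (T : Set G),
      t * (x⁻¹ * t * x)⁻¹ ∈ R) :
    ∀ (A : Set G) (g : G), Dec 𝓕 A g → (∀ h : G, ∀ T ∈ 𝓕, cj h A ⊆ T → Φ T) →
      ∀ b ∈ A, b * (g⁻¹ * b * g)⁻¹ ∈ R := by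
  intro A g hdec
  induction hdec with
  | nil A =>
    intro _ a _
    have e : a * ((1 : G)⁻¹ * a * 1)⁻¹ = 1 := by group
    rw [e]; exact Subgroup.one_mem _
  | cons A T x₀ g'' hT hx₀ hA hdec ih =>
    intro hΦ a ha
    have hΦT : Φ T := hΦ 1 T hT (by rw [cj_one]; exact hA)
    have hab : a * (x₀⁻¹ * a * x₀)⁻¹ ∈ R := hstep T hT hΦT a (hA ha) x₀ hx₀
    have hb := ih (fun h T' hT' hsub => hΦ (x₀ * h) T' hT' (by rw [← cj_cj]; exact hsub))
      (x₀⁻¹ * a * x₀) ⟨a, ha, rfl⟩
    have e : a * ((x₀ * g'')⁻¹ * a * (x₀ * g''))⁻¹ = (a * (x₀⁻¹ * a * x₀)⁻¹) *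
        ((x₀⁻¹ * a * x₀) * (g''⁻¹ * (x₀⁻¹ * a * x₀) * g'')⁻¹) := by group
    rw [e]; exact Subgroup.mul_mem _ hab hb

/-- The local hypothesis (for some Sylow subgroup of `H`) holds for every Sylow `p`-subgroup of
`H` (the direction needed). -/
theorem pair_t_sylow [Finite G] {p : ℕ} [Fact p.Prime] {W V : Subgroup G → Subgroup G}
    (hW : Cfsg.IsConjugacyFunctor p W) (hV : Cfsg.IsConjugacyFunctor p V) (H : Subgroup G)
    (hc : ∃ Q : Subgroup G, Q ≤ H ∧ IsPGroup p ↥Q ∧ ¬ p ∣ Q.relIndex H ∧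
      ∀ x : G, x ∈ Q ⊓ ⁅H, H⁆ ↔
        ∃ a ∈ Q ⊓ ⁅H ⊓ Subgroup.normalizer ((W Q : Subgroup G) : Set G),
          H ⊓ Subgroup.normalizer ((W Q : Subgroup G) : Set G)⁆,
        ∃ b ∈ Q ⊓ ⁅H ⊓ Subgroup.centralizer ((V Q : Subgroup G) : Set G),
          H ⊓ Subgroup.centralizer ((V Q : Subgroup G) : Set G)⁆, x = a * b)
    (S₁ : Subgroup G) (hS₁p : IsPGroup p S₁) (hS₁H : S₁ ≤ H) (hS₁idx : ¬ p ∣ S₁.relIndex H)
    (x : G) (hx : x ∈ S₁ ⊓ ⁅H, H⁆) :
    ∃ a ∈ S₁ ⊓ ⁅H ⊓ Subgroup.normalizer ((W S₁ : Subgroup G) : Set G),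
        H ⊓ Subgroup.normalizer ((W S₁ : Subgroup G) : Set G)⁆,
      ∃ b ∈ S₁ ⊓ ⁅H ⊓ Subgroup.centralizer ((V S₁ : Subgroup G) : Set G),
        H ⊓ Subgroup.centralizer ((V S₁ : Subgroup G) : Set G)⁆, x = a * b := by
  obtain ⟨T', hT'H, hT'p, hT'idx, heq⟩ := hc
  obtain ⟨n, hn, hnS⟩ := sylow_conj_eq hT'H hT'p hT'idx hS₁p hS₁H hS₁idx
  subst hnS
  have hH : H.map (MulAut.conj n).toMonoidHom = H := map_conj_eq_self_of_mem H hn
  have hnH : ∀ y ∈ H, n⁻¹ * y * n ∈ H := fun y hy => H.mul_mem (H.mul_mem (H.inv_mem hn) hy) hn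
  -- the two local subgroups are conjugate
  have hKW : H ⊓ Subgroup.normalizer ((W (S₁.map (MulAut.conj n).toMonoidHom) : Subgroup G) :
      Set G) ≤ (H ⊓ Subgroup.normalizer ((W S₁ : Subgroup G) : Set G)).map
        (MulAut.conj n).toMonoidHom := by
    intro y hy
    rw [Cfsg.Agent.Helper16.mem_map_conj_iff]
    refine ⟨hnH y hy.1, ?_⟩
    have hyN := hy.2
    rw [(hW S₁ hS₁p).2.2 n, ← Subgroup.map_equiv_normalizer_eq (W S₁) (MulAut.conj n)] at hyN
    exact (Cfsg.Agent.Helper16.mem_map_conj_iff _ n y).1 hyN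
  have hKV : H ⊓ Subgroup.centralizer ((V (S₁.map (MulAut.conj n).toMonoidHom) : Subgroup G) :
      Set G) ≤ (H ⊓ Subgroup.centralizer ((V S₁ : Subgroup G) : Set G)).map
        (MulAut.conj n).toMonoidHom := by
    intro y hy
    rw [Cfsg.Agent.Helper16.mem_map_conj_iff]
    refine ⟨hnH y hy.1, ?_⟩
    have hyC : y ∈ Subgroup.centralizer
        ((V (S₁.map (MulAut.conj n).toMonoidHom) : Subgroup G) : Set G) := hy.2
    rw [(hV S₁ hS₁p).2.2 n] at hyC
    show n⁻¹ * y * n ∈ Subgroup.centralizer ((V S₁ : Subgroup G) : Set G)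
    rw [Subgroup.mem_centralizer_iff] at hyC ⊢
    intro v hv
    have h1 := hyC (n * v * n⁻¹) ⟨v, hv, rfl⟩
    calc v * (n⁻¹ * y * n) = n⁻¹ * ((n * v * n⁻¹) * y) * n := by group
      _ = n⁻¹ * (y * (n * v * n⁻¹)) * n := by rw [h1]
      _ = n⁻¹ * y * n * v := by group
  have hx' : n * x * n⁻¹ ∈ S₁.map (MulAut.conj n).toMonoidHom ⊓ ⁅H, H⁆ := by
    refine ⟨⟨x, hx.1, rfl⟩, ?_⟩
    have h1 : (MulAut.conj n).toMonoidHom x ∈ (⁅H, H⁆).map (MulAut.conj n).toMonoidHom :=
      Subgroup.mem_map_of_mem _ hx.2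
    rw [Subgroup.map_commutator, hH] at h1
    exact h1
  obtain ⟨a', ha', b', hb', e⟩ := (heq _).1 hx'
  refine ⟨n⁻¹ * a' * n, ⟨?_, ?_⟩, n⁻¹ * b' * n, ⟨?_, ?_⟩, ?_⟩
  · exact (Cfsg.Agent.Helper16.mem_map_conj_iff S₁ n a').1 ha'.1
  · have h1 := Subgroup.commutator_mono hKW hKW ha'.2
    rw [← Subgroup.map_commutator] at h1
    exact (Cfsg.Agent.Helper16.mem_map_conj_iff _ n a').1 h1
  · exact (Cfsg.Agent.Helper16.mem_map_conj_iff S₁ n b').1 hb'.1
  · have h1 := Subgroup.commutator_mono hKV hKV hb'.2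
    rw [← Subgroup.map_commutator] at h1
    exact (Cfsg.Agent.Helper16.mem_map_conj_iff _ n b').1 h1
  · calc x = n⁻¹ * (n * x * n⁻¹) * n := by group
      _ = n⁻¹ * (a' * b') * n := by rw [e]
      _ = n⁻¹ * a' * n * (n⁻¹ * b' * n) := by group

section climb

variable [Finite G] {p : ℕ} [Fact p.Prime]

/-- Climbing the tower for transfer with a pair `(W, V)`. -/
theorem climb_pair_t (S : Sylow p G) (W V : Subgroup G → Subgroup G)
    (hW : Cfsg.IsConjugacyFunctor p W) (hS1 : (S : Subgroup G) ≠ ⊥)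
    (hWZ : ∀ H : Subgroup G, IsPGroup p ↥H →
      H ⊓ Subgroup.centralizer ((H : Subgroup G) : Set G) ≤ W H)
    (hVmono : ∀ H K : Subgroup G, IsPGroup p ↥H → IsPGroup p ↥K → H ≠ ⊥ → K ≠ ⊥ →
      H ⊓ Subgroup.centralizer ((H : Subgroup G) : Set G) ≤
        K ⊓ Subgroup.centralizer ((K : Subgroup G) : Set G) → V H ≤ V K)
    (R : Subgroup G)
    (hRW : (S : Subgroup G) ⊓ ⁅Subgroup.normalizer ((W (S : Subgroup G) : Subgroup G) : Set G),
      Subgroup.normalizer ((W (S : Subgroup G) : Subgroup G) : Set G)⁆ ≤ R)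
    (hRV : (S : Subgroup G) ⊓ ⁅Subgroup.centralizer ((V (S : Subgroup G) : Subgroup G) : Set G),
      Subgroup.centralizer ((V (S : Subgroup G) : Subgroup G) : Set G)⁆ ≤ R)
    (hloc : ∀ T : Subgroup G,
      (S : Subgroup G) ⊓ Subgroup.centralizer ((S : Subgroup G) : Set G) ≤ T →
      Cfsg.IsWellPlaced p W (S : Subgroup G) T →
      ∀ x ∈ ((S : Subgroup G) ⊓ Subgroup.normalizer (T : Set G)) ⊓
          ⁅Subgroup.normalizer (T : Set G), Subgroup.normalizer (T : Set G)⁆,
        ∃ a ∈ ((S : Subgroup G) ⊓ Subgroup.normalizer (T : Set G)) ⊓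
            ⁅Subgroup.normalizer (T : Set G) ⊓ Subgroup.normalizer
              ((W ((S : Subgroup G) ⊓ Subgroup.normalizer (T : Set G)) : Subgroup G) : Set G),
            Subgroup.normalizer (T : Set G) ⊓ Subgroup.normalizer
              ((W ((S : Subgroup G) ⊓ Subgroup.normalizer (T : Set G)) : Subgroup G) : Set G)⁆,
          ∃ b ∈ ((S : Subgroup G) ⊓ Subgroup.normalizer (T : Set G)) ⊓
            ⁅Subgroup.normalizer (T : Set G) ⊓ Subgroup.centralizer
              ((V ((S : Subgroup G) ⊓ Subgroup.normalizer (T : Set G)) : Subgroup G) : Set G),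
            Subgroup.normalizer (T : Set G) ⊓ Subgroup.centralizer
              ((V ((S : Subgroup G) ⊓ Subgroup.normalizer (T : Set G)) : Subgroup G) : Set G)⁆,
          x = a * b) :
    ∀ (d : ℕ) (T : Subgroup G),
      (S : Subgroup G) ⊓ Subgroup.centralizer ((S : Subgroup G) : Set G) ≤ T →
      Cfsg.IsWellPlaced p W (S : Subgroup G) T →
      Nat.card (S : Subgroup G) - Nat.card ((S : Subgroup G) ⊓ Subgroup.normalizer (T : Set G) :
        Subgroup G) = d →
      ((S : Subgroup G) ⊓ Subgroup.normalizer (T : Set G)) ⊓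
        ⁅Subgroup.normalizer (T : Set G), Subgroup.normalizer (T : Set G)⁆ ≤ R := by
  intro d
  induction d using Nat.strong_induction_on with
  | _ d ih =>
    intro T hZT hwp hd x hx
    have hTS : T ≤ (S : Subgroup G) := hwp.1
    have hS₁p : IsPGroup p ((S : Subgroup G) ⊓ Subgroup.normalizer (T : Set G) : Subgroup G) :=
      S.isPGroup'.to_le inf_le_left
    have hZZ : (S : Subgroup G) ⊓ Subgroup.centralizer ((S : Subgroup G) : Set G) ≤
        ((S : Subgroup G) ⊓ Subgroup.normalizer (T : Set G)) ⊓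
          Subgroup.centralizer ((((S : Subgroup G) ⊓ Subgroup.normalizer (T : Set G) :
            Subgroup G)) : Set G) := by
      intro z hz
      refine ⟨⟨hz.1, Subgroup.le_normalizer (hZT hz)⟩, ?_⟩
      exact Subgroup.centralizer_le (show ((((S : Subgroup G) ⊓ Subgroup.normalizer (T : Set G) :
        Subgroup G)) : Set G) ⊆ ((S : Subgroup G) : Set G) from fun y hy => hy.1) hz.2
    have hne : (S : Subgroup G) ⊓ Subgroup.normalizer (T : Set G) ≠ ⊥ := by
      intro hbot
      have hT : T = ⊥ := by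
        rw [eq_bot_iff, ← hbot]; exact le_inf hTS Subgroup.le_normalizer
      have hN : Subgroup.normalizer (T : Set G) = ⊤ := by
        rw [hT]; exact Subgroup.normalizer_eq_top_iff.2 inferInstance
      rw [hN, inf_top_eq] at hbot
      exact hS1 hbot
    have hVV : V (S : Subgroup G) ≤ V ((S : Subgroup G) ⊓ Subgroup.normalizer (T : Set G)) :=
      hVmono _ _ S.isPGroup' hS₁p hS1 hne hZZ
    obtain ⟨a, ha, b, hb, rfl⟩ := hloc T hZT hwp x hx
    refine R.mul_mem ?_ ?_
    · by_cases hN : (S : Subgroup G) ≤ Subgroup.normalizer (T : Set G)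
      · have hS₁ : (S : Subgroup G) ⊓ Subgroup.normalizer (T : Set G) = (S : Subgroup G) :=
          inf_eq_left.2 hN
        rw [hS₁] at ha
        exact hRW ⟨ha.1, Subgroup.commutator_mono inf_le_right inf_le_right ha.2⟩
      · obtain ⟨hle2, hlt⟩ := tower_growth S W hW T hN
        have hwp₁ := isWellPlaced_tower_one W (S : Subgroup G) T hW S.isPGroup' hwp
        have hcard2 : Nat.card ((S : Subgroup G) ⊓ Subgroup.normalizer ((W ((S : Subgroup G) ⊓
            Subgroup.normalizer (T : Set G)) : Subgroup G) : Set G) : Subgroup G) ≤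
            Nat.card (S : Subgroup G) := Subgroup.card_le_of_le inf_le_left
        have hd' : Nat.card (S : Subgroup G) - Nat.card ((S : Subgroup G) ⊓ Subgroup.normalizer
            ((W ((S : Subgroup G) ⊓ Subgroup.normalizer (T : Set G)) : Subgroup G) : Set G) :
            Subgroup G) < d := by omega
        exact ih _ hd' _ (hZZ.trans (hWZ _ hS₁p)) hwp₁ rfl
          ⟨hle2 ha.1, Subgroup.commutator_mono inf_le_right inf_le_right ha.2⟩
    · have hCC : Subgroup.normalizer (T : Set G) ⊓ Subgroup.centralizer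
          ((V ((S : Subgroup G) ⊓ Subgroup.normalizer (T : Set G)) : Subgroup G) : Set G) ≤
          Subgroup.centralizer ((V (S : Subgroup G) : Subgroup G) : Set G) :=
        inf_le_right.trans (Subgroup.centralizer_le (SetLike.coe_subset_coe.2 hVV))
      exact hRV ⟨hb.1.1, Subgroup.commutator_mono hCC hCC hb.2⟩

/-- Centric reduction, elementwise commutator form. -/
theorem step_t_centric (S : Sylow p G) (𝓕 : Set (Subgroup G))
    (h𝓕 : ∀ U ∈ 𝓕, U ≤ (S : Subgroup G))
    (hfam : ∀ (A : Set G) (g : G), A ⊆ ((S : Subgroup G) : Set G) →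
      cj g A ⊆ ((S : Subgroup G) : Set G) → Dec 𝓕 A g)
    (R : Subgroup G)
    (hstep : ∀ U ∈ 𝓕, (S : Subgroup G) ⊓ Subgroup.centralizer ((S : Subgroup G) : Set G) ≤ U →
      ∀ u ∈ U, ∀ x ∈ Subgroup.normalizer (U : Set G), u * (x⁻¹ * u * x)⁻¹ ∈ R)
    (T : Subgroup G) (hTS : T ≤ (S : Subgroup G))
    (hidx : ¬ p ∣ ((S : Subgroup G) ⊓ Subgroup.normalizer (T : Set G)).relIndex
      (Subgroup.normalizer (T : Set G)))
    (t : G) (ht : t ∈ T) (x : G) (hx : x ∈ Subgroup.normalizer (T : Set G)) :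
    t * (x⁻¹ * t * x)⁻¹ ∈ R := by
  obtain ⟨c, hc, hcx⟩ := exists_cent_mul_normalizer S T hidx x⁻¹ (Subgroup.inv_mem _ hx)
  have hcxT : c * x⁻¹ ∈ Subgroup.normalizer (T : Set G) :=
    Subgroup.mul_mem _ (Subgroup.centralizer_le_normalizer _ hc) (Subgroup.inv_mem _ hx)
  obtain ⟨Tp, hTp⟩ : ∃ Tp : Subgroup G,
      Tp = T ⊔ ((S : Subgroup G) ⊓ Subgroup.centralizer (T : Set G)) := ⟨_, rfl⟩
  have hTpS : Tp ≤ (S : Subgroup G) := by rw [hTp]; exact sup_le hTS inf_le_left
  have hN : c * x⁻¹ ∈ Subgroup.normalizer (Tp : Set G) := by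
    apply Cfsg.Agent.Helper16.mem_normalizer_of_map_conj_eq
    rw [hTp, Subgroup.map_sup, Cfsg.Agent.Helper16.map_conj_eq_of_mem_normalizer hcxT,
      Cfsg.Agent.Helper16.map_conj_eq_of_mem_normalizer hcx]
  have hcj : cj (c * x⁻¹)⁻¹ (Tp : Set G) ⊆ ((S : Subgroup G) : Set G) := by
    rw [cj_subset_iff]
    intro a ha
    rw [inv_inv]
    exact hTpS ((Subgroup.mem_normalizer_iff.mp hN a).mp ha)
  have hdec := hfam (Tp : Set G) (c * x⁻¹)⁻¹ hTpS hcj
  have h1 := dec_mem_gen R
    (fun U => (S : Subgroup G) ⊓ Subgroup.centralizer ((S : Subgroup G) : Set G) ≤ U)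
    hstep _ _ hdec (by
      intro h U hU hsub z hz
      have hh : cj h (Tp : Set G) ⊆ ((S : Subgroup G) : Set G) :=
        hsub.trans (SetLike.coe_subset_coe.2 (h𝓕 U hU))
      rw [hTp] at hh hsub
      exact hsub (center_subset_cj_sup S T hidx h hh hz)) t
      (by rw [hTp]; exact Subgroup.mem_sup_left ht)
  rw [inv_inv] at h1
  have h2 : x⁻¹ * t * x ∈ T := by
    have := (Subgroup.mem_normalizer_iff.mp (Subgroup.inv_mem _ hx) t).mp ht
    rwa [inv_inv] at this
  have h3 := Subgroup.mem_centralizer_iff.mp hc _ h2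
  have e : c * x⁻¹ * t * (c * x⁻¹)⁻¹ = x⁻¹ * t * x := by
    calc c * x⁻¹ * t * (c * x⁻¹)⁻¹ = c * (x⁻¹ * t * x) * c⁻¹ := by group
      _ = (x⁻¹ * t * x) * c * c⁻¹ := by rw [← h3]
      _ = x⁻¹ * t * x := by group
  rw [e] at h1
  exact h1

/-- The pair `(W, V)` controls transfer in `G`. -/
theorem pair_t_main (hdiv : p ∣ Nat.card G) (P : Sylow p G) (W V : Subgroup G → Subgroup G)
    (hW : Cfsg.IsConjugacyFunctor p W) (hV : Cfsg.IsConjugacyFunctor p V)
    (hWZ : ∀ H : Subgroup G, IsPGroup p ↥H →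
      H ⊓ Subgroup.centralizer ((H : Subgroup G) : Set G) ≤ W H)
    (hVmono : ∀ H K : Subgroup G, IsPGroup p ↥H → IsPGroup p ↥K → H ≠ ⊥ → K ≠ ⊥ →
      H ⊓ Subgroup.centralizer ((H : Subgroup G) : Set G) ≤
        K ⊓ Subgroup.centralizer ((K : Subgroup G) : Set G) → V H ≤ V K)
    (hloc : ∀ H : Subgroup G,
      (P : Subgroup G) ⊓ Subgroup.centralizer (((P : Subgroup G) : Subgroup G) : Set G) ≤ H →
      H ≤ (P : Subgroup G) →
      ∃ Q : Subgroup G, Q ≤ Subgroup.normalizer ((H : Subgroup G) : Set G) ∧ IsPGroup p ↥Q ∧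
        ¬ p ∣ Q.relIndex (Subgroup.normalizer ((H : Subgroup G) : Set G)) ∧
        ∀ x : G, x ∈ Q ⊓ ⁅Subgroup.normalizer ((H : Subgroup G) : Set G),
            Subgroup.normalizer ((H : Subgroup G) : Set G)⁆ ↔
          ∃ a ∈ Q ⊓ ⁅Subgroup.normalizer ((H : Subgroup G) : Set G) ⊓
              Subgroup.normalizer ((W Q : Subgroup G) : Set G),
            Subgroup.normalizer ((H : Subgroup G) : Set G) ⊓
              Subgroup.normalizer ((W Q : Subgroup G) : Set G)⁆,
          ∃ b ∈ Q ⊓ ⁅Subgroup.normalizer ((H : Subgroup G) : Set G) ⊓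
              Subgroup.centralizer ((V Q : Subgroup G) : Set G),
            Subgroup.normalizer ((H : Subgroup G) : Set G) ⊓
              Subgroup.centralizer ((V Q : Subgroup G) : Set G)⁆, x = a * b)
    (x : G) :
    x ∈ (P : Subgroup G) ⊓ commutator G ↔
      ∃ a ∈ (P : Subgroup G) ⊓ ⁅Subgroup.normalizer ((W (P : Subgroup G) : Subgroup G) : Set G),
          Subgroup.normalizer ((W (P : Subgroup G) : Subgroup G) : Set G)⁆,
        ∃ b ∈ (P : Subgroup G) ⊓ ⁅Subgroup.centralizer ((V (P : Subgroup G) : Subgroup G) : Set G),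
          Subgroup.centralizer ((V (P : Subgroup G) : Subgroup G) : Set G)⁆, x = a * b := by
  have hP1 : (P : Subgroup G) ≠ ⊥ := P.ne_bot_of_dvd_card hdiv
  constructor
  · intro hx
    -- `B` is normalized by `P`
    have hPB : (P : Subgroup G) ≤ Subgroup.normalizer
        ((((P : Subgroup G) ⊓ ⁅Subgroup.centralizer ((V (P : Subgroup G) : Subgroup G) : Set G),
          Subgroup.centralizer ((V (P : Subgroup G) : Subgroup G) : Set G)⁆ : Subgroup G)) :
            Set G) := by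
      intro s hs
      have hsV : s ∈ Subgroup.normalizer ((V (P : Subgroup G) : Subgroup G) : Set G) :=
        normalizer_le_normalizer_W hV _ P.isPGroup' (Subgroup.le_normalizer hs)
      have hsC := normalizer_le_normalizer_centralizer' _ hsV
      have hCmap := Cfsg.Agent.Helper16.map_conj_eq_of_mem_normalizer hsC
      have hPmap := map_conj_eq_self_of_mem (P : Subgroup G) hs
      apply Cfsg.Agent.Helper16.mem_normalizer_of_map_conj_eq
      rw [Subgroup.map_inf _ _ _ (MulAut.conj s).injective, Subgroup.map_commutator, hCmap, hPmap]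
    have hAB : (P : Subgroup G) ⊓ ⁅Subgroup.normalizer ((W (P : Subgroup G) : Subgroup G) : Set G),
        Subgroup.normalizer ((W (P : Subgroup G) : Subgroup G) : Set G)⁆ ≤ Subgroup.normalizer
        ((((P : Subgroup G) ⊓ ⁅Subgroup.centralizer ((V (P : Subgroup G) : Subgroup G) : Set G),
          Subgroup.centralizer ((V (P : Subgroup G) : Subgroup G) : Set G)⁆ : Subgroup G)) :
            Set G) := inf_le_left.trans hPB
    have hxR : x ∈ ((P : Subgroup G) ⊓ ⁅Subgroup.normalizer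
        ((W (P : Subgroup G) : Subgroup G) : Set G),
        Subgroup.normalizer ((W (P : Subgroup G) : Subgroup G) : Set G)⁆) ⊔
        ((P : Subgroup G) ⊓ ⁅Subgroup.centralizer ((V (P : Subgroup G) : Subgroup G) : Set G),
          Subgroup.centralizer ((V (P : Subgroup G) : Subgroup G) : Set G)⁆) := by
      have hfoc : x ∈ (P : Subgroup G).focalSubgroup := by
        rw [← Subgroup.commutator_inf_eq_focalSubgroup P, inf_comm]; exact hx
      refine (?_ : (P : Subgroup G).focalSubgroup ≤ _) hfoc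
      rw [Subgroup.focalSubgroup_def, Subgroup.closure_le]
      rintro g ⟨hgP, y, hyP, u, rfl⟩
      have hfam : ∀ (A : Set G) (g : G), A ⊆ ((P : Subgroup G) : Set G) →
          cj g A ⊆ ((P : Subgroup G) : Set G) →
          Dec {T : Subgroup G | Cfsg.IsWellPlaced p W (P : Subgroup G) T} A g :=
        isConjugationFamily_of_hyp P {T : Subgroup G | Cfsg.IsWellPlaced p W (P : Subgroup G) T}
          (fun U hU => hU.1) (fun T hT => by
            obtain ⟨h, hwp, -⟩ := exists_wellPlaced_conj P W hW _ T hT rfl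
            exact ⟨_, hwp, ⟨h, rfl⟩, hwp.2 0⟩)
      have huy : u * y * u⁻¹ ∈ (P : Subgroup G) := by
        have e : u * y * u⁻¹ = (⁅y, u⁆)⁻¹ * y := by rw [commutatorElement_def]; group
        rw [e]; exact Subgroup.mul_mem _ (Subgroup.inv_mem _ hgP) hyP
      have hdec := hfam {y} u⁻¹ (by rintro _ rfl; exact hyP) (by
        rw [cj_subset_iff]
        rintro _ rfl
        rw [inv_inv]; exact huy)
      have h1 := dec_mem_gen _ (fun _ => True) (fun U hU _ t ht x hx =>
        step_t_centric P _ (fun U hU => hU.1) hfam _ (fun U hU hZU u hu x hx => by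
          have hUle : U ≤ (P : Subgroup G) ⊓ Subgroup.normalizer (U : Set G) :=
            le_inf hU.1 Subgroup.le_normalizer
          have hux : x⁻¹ * u * x ∈ U := by
            have := (Subgroup.mem_normalizer_iff.mp (Subgroup.inv_mem _ hx) u).mp hu
            rwa [inv_inv] at this
          refine climb_pair_t P W V hW hP1 hWZ hVmono _ le_sup_left le_sup_right ?_ _ U hZU hU
            rfl ⟨hUle (U.mul_mem hu (U.inv_mem hux)), ?_⟩
          · intro T hZT hwpT x hx
            exact pair_t_sylow hW hV _ (hloc T hZT hwpT.1) _ (P.isPGroup'.to_le inf_le_left)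
              inf_le_right (hwpT.2 0) x hx
          · have e : u * (x⁻¹ * u * x)⁻¹ = ⁅u, x⁻¹⁆ := by rw [commutatorElement_def]; group
            rw [e]
            exact Subgroup.commutator_mem_commutator (Subgroup.le_normalizer hu)
              (Subgroup.inv_mem _ hx)) U hU.1 (hU.2 0) t ht x hx) _ _ hdec
        (fun _ _ _ _ => trivial) y rfl
      have e : ⁅y, u⁆ = y * (u⁻¹⁻¹ * y * u⁻¹)⁻¹ := by rw [commutatorElement_def]; group
      rw [e]; exact h1
    have hset := Subgroup.coe_mul_of_left_le_normalizer_right _ _ hAB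
    have hx' : x ∈ ((((P : Subgroup G) ⊓ ⁅Subgroup.normalizer
        ((W (P : Subgroup G) : Subgroup G) : Set G),
        Subgroup.normalizer ((W (P : Subgroup G) : Subgroup G) : Set G)⁆) ⊔
        ((P : Subgroup G) ⊓ ⁅Subgroup.centralizer ((V (P : Subgroup G) : Subgroup G) : Set G),
          Subgroup.centralizer ((V (P : Subgroup G) : Subgroup G) : Set G)⁆) : Subgroup G) :
            Set G) := hxR
    rw [hset] at hx'
    obtain ⟨a, ha, b, hb, e⟩ := Set.mem_mul.1 hx'
    exact ⟨a, ha, b, hb, e.symm⟩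
  · rintro ⟨a, ha, b, hb, rfl⟩
    refine ⟨Subgroup.mul_mem _ ha.1 hb.1, ?_⟩
    rw [commutator_def]
    exact Subgroup.mul_mem _ (Subgroup.commutator_mono le_top le_top ha.2)
      (Subgroup.commutator_mono le_top le_top hb.2)

end climb

end Cfsg.Agent.Helper25.PairTransfer
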