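import Mathlib
import Cfsg.Prelude.Def_FusionComponents
import Cfsg.Agent.Helper26.FusSat
import Cfsg.Agent.Helper25.SylowIn

set_option autoImplicit false

namespace Cfsg.Agent.Helper25

open Cfsg Cfsg.FusionSystem Cfsg.Agent.Helper26

variable {Ω₁ Ω₂ : Type*} [Group Ω₁] [Group Ω₂]

/-! ### Subgroups of `Q₁ × Q₂` and their stabilizers in `Aut(Q₁) × Aut(Q₂)` -/

section Stab

variable {Q₁ : Subgroup Ω₁} {Q₂ : Subgroup Ω₂}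

/-- The subgroup of `Ω₁ × Ω₂` given by a subgroup of the product type `Q₁ × Q₂`. -/
def embD (D : Subgroup (Q₁ × Q₂)) : Subgroup (Ω₁ × Ω₂) :=
  D.map (Q₁.subtype.prodMap Q₂.subtype)

theorem mem_embD_iff (D : Subgroup (Q₁ × Q₂)) (x : Ω₁ × Ω₂) :
    x ∈ embD D ↔ ∃ (h₁ : x.1 ∈ Q₁) (h₂ : x.2 ∈ Q₂), ((⟨x.1, h₁⟩, ⟨x.2, h₂⟩) : Q₁ × Q₂) ∈ D := by
  constructor
  · rintro ⟨d, hd, rfl⟩
    exact ⟨d.1.2, d.2.2, hd⟩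
  · rintro ⟨h₁, h₂, hd⟩
    exact ⟨_, hd, rfl⟩

theorem embD_fst_mem (D : Subgroup (Q₁ × Q₂)) {x : Ω₁ × Ω₂} (hx : x ∈ embD D) : x.1 ∈ Q₁ := by
  obtain ⟨h₁, -, -⟩ := (mem_embD_iff D x).1 hx
  exact h₁

theorem embD_snd_mem (D : Subgroup (Q₁ × Q₂)) {x : Ω₁ × Ω₂} (hx : x ∈ embD D) : x.2 ∈ Q₂ := by
  obtain ⟨-, h₂, -⟩ := (mem_embD_iff D x).1 hx
  exact h₂

theorem embD_pair_mem (D : Subgroup (Q₁ × Q₂)) {x : Ω₁ × Ω₂} (hx : x ∈ embD D) :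
    ((⟨x.1, embD_fst_mem D hx⟩, ⟨x.2, embD_snd_mem D hx⟩) : Q₁ × Q₂) ∈ D := by
  obtain ⟨_, _, h⟩ := (mem_embD_iff D x).1 hx
  exact h

/-- `D` projects onto both factors. -/
def FullProj (D : Subgroup (Q₁ × Q₂)) : Prop :=
  (∀ y : Q₁, ∃ d ∈ D, d.1 = y) ∧ (∀ y : Q₂, ∃ d ∈ D, d.2 = y)

theorem embD_fst (D : Subgroup (Q₁ × Q₂)) (hD : FullProj D) :
    (embD D).map (MonoidHom.fst Ω₁ Ω₂) = Q₁ := by
  ext y
  constructor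
  · rintro ⟨x, hx, rfl⟩
    exact embD_fst_mem D hx
  · intro hy
    obtain ⟨d, hd, hdy⟩ := hD.1 ⟨y, hy⟩
    refine ⟨((d.1 : Ω₁), (d.2 : Ω₂)), ⟨d, hd, rfl⟩, ?_⟩
    show (d.1 : Ω₁) = y
    rw [hdy]

theorem embD_snd (D : Subgroup (Q₁ × Q₂)) (hD : FullProj D) :
    (embD D).map (MonoidHom.snd Ω₁ Ω₂) = Q₂ := by
  ext y
  constructor
  · rintro ⟨x, hx, rfl⟩
    exact embD_snd_mem D hx
  · intro hy
    obtain ⟨d, hd, hdy⟩ := hD.2 ⟨y, hy⟩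
    refine ⟨((d.1 : Ω₁), (d.2 : Ω₂)), ⟨d, hd, rfl⟩, ?_⟩
    show (d.2 : Ω₂) = y
    rw [hdy]

/-- The stabilizer of `D` in `Aut(Q₁) × Aut(Q₂)`. -/
def stabD (D : Subgroup (Q₁ × Q₂)) : Subgroup (MulAut Q₁ × MulAut Q₂) where
  carrier := {a | ∀ d : Q₁ × Q₂, ((a.1 d.1, a.2 d.2) : Q₁ × Q₂) ∈ D ↔ d ∈ D}
  one_mem' := fun _ => Iff.rfl
  mul_mem' := by
    intro a b ha hb d
    exact (ha (b.1 d.1, b.2 d.2)).trans (hb d)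
  inv_mem' := by
    intro a ha d
    have h := ha (a.1⁻¹ d.1, a.2⁻¹ d.2)
    rw [MulAut.apply_inv_self, MulAut.apply_inv_self] at h
    exact h.symm

theorem mem_stabD {D : Subgroup (Q₁ × Q₂)} {a : MulAut Q₁ × MulAut Q₂} :
    a ∈ stabD D ↔ ∀ d : Q₁ × Q₂, ((a.1 d.1, a.2 d.2) : Q₁ × Q₂) ∈ D ↔ d ∈ D := Iff.rfl

/-- The image of `D` under `a ∈ Aut(Q₁) × Aut(Q₂)`. -/
def aD (a : MulAut Q₁ × MulAut Q₂) (D : Subgroup (Q₁ × Q₂)) : Subgroup (Q₁ × Q₂) :=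
  D.comap (MulEquiv.prodCongr a.1⁻¹ a.2⁻¹).toMonoidHom

theorem mem_aD {a : MulAut Q₁ × MulAut Q₂} {D : Subgroup (Q₁ × Q₂)} {d : Q₁ × Q₂} :
    d ∈ aD a D ↔ ((a.1⁻¹ d.1, a.2⁻¹ d.2) : Q₁ × Q₂) ∈ D := Iff.rfl

theorem apply_mem_aD {a : MulAut Q₁ × MulAut Q₂} {D : Subgroup (Q₁ × Q₂)} {d : Q₁ × Q₂} :
    ((a.1 d.1, a.2 d.2) : Q₁ × Q₂) ∈ aD a D ↔ d ∈ D := by
  rw [mem_aD]
  show ((a.1⁻¹ (a.1 d.1), a.2⁻¹ (a.2 d.2)) : Q₁ × Q₂) ∈ D ↔ d ∈ D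
  rw [MulAut.inv_apply_self, MulAut.inv_apply_self]

theorem fullProj_aD {a : MulAut Q₁ × MulAut Q₂} {D : Subgroup (Q₁ × Q₂)} (hD : FullProj D) :
    FullProj (aD a D) := by
  constructor
  · intro y
    obtain ⟨d, hd, hdy⟩ := hD.1 (a.1⁻¹ y)
    refine ⟨(a.1 d.1, a.2 d.2), apply_mem_aD.2 hd, ?_⟩
    show a.1 d.1 = y
    rw [hdy, MulAut.apply_inv_self]
  · intro y
    obtain ⟨d, hd, hdy⟩ := hD.2 (a.2⁻¹ y)
    refine ⟨(a.1 d.1, a.2 d.2), apply_mem_aD.2 hd, ?_⟩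
    show a.2 d.2 = y
    rw [hdy, MulAut.apply_inv_self]

theorem stabD_aD (a : MulAut Q₁ × MulAut Q₂) (D : Subgroup (Q₁ × Q₂)) :
    stabD (aD a D) = conjBy (stabD D) a := by
  ext b
  rw [mem_conjBy, mem_stabD, mem_stabD]
  constructor
  · intro h d
    have h1 := h (a.1 d.1, a.2 d.2)
    rw [apply_mem_aD, mem_aD] at h1
    exact h1
  · intro h d
    have h1 := h (a.1⁻¹ d.1, a.2⁻¹ d.2)
    rw [mem_aD, mem_aD]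
    have h2 : (((a⁻¹ * b * a).1 (a.1⁻¹ d.1), (a⁻¹ * b * a).2 (a.2⁻¹ d.2)) : Q₁ × Q₂)
        = (a.1⁻¹ (b.1 d.1), a.2⁻¹ (b.2 d.2)) := by
      show ((a.1⁻¹ (b.1 (a.1 (a.1⁻¹ d.1))), a.2⁻¹ (b.2 (a.2 (a.2⁻¹ d.2)))) : Q₁ × Q₂) = _
      rw [MulAut.apply_inv_self, MulAut.apply_inv_self]
    rw [h2] at h1
    exact h1

/-- Sylow step: a conjugate of `D` under `A` whose stabilizer meets the Sylow subgroup `T` of `A`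
in a Sylow subgroup. -/
theorem exists_aD_sylow [Finite Q₁] [Finite Q₂] {p : ℕ} [Fact p.Prime]
    {T A : Subgroup (MulAut Q₁ × MulAut Q₂)} (hTA : T ≤ A) (hTp : IsPGroup p T)
    (hT : Nat.card T = p ^ (Nat.card A).factorization p) (D : Subgroup (Q₁ × Q₂)) :
    ∃ a ∈ A, Nat.card (T ⊓ stabD (aD a D) : Subgroup (MulAut Q₁ × MulAut Q₂))
      = p ^ (Nat.card (A ⊓ stabD (aD a D) : Subgroup (MulAut Q₁ × MulAut Q₂))).factorization p := by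
  obtain ⟨R, -, hRB, hRp, hRcard⟩ := exists_sylow_between (p := p)
    (K := (⊥ : Subgroup (MulAut Q₁ × MulAut Q₂))) (H := A ⊓ stabD D) IsPGroup.of_bot bot_le
  obtain ⟨a, haA, haR⟩ := exists_conj_le_of_card hTA hT hRp (hRB.trans inf_le_left)
  refine ⟨a, haA, ?_⟩
  have e1 : A ⊓ stabD (aD a D) = conjBy (A ⊓ stabD D) a := by
    rw [stabD_aD]
    ext b
    rw [Subgroup.mem_inf, mem_conjBy, mem_conjBy, Subgroup.mem_inf]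
    constructor
    · rintro ⟨hb, hb'⟩
      exact ⟨A.mul_mem (A.mul_mem (A.inv_mem haA) hb) haA, hb'⟩
    · rintro ⟨hb, hb'⟩
      refine ⟨?_, hb'⟩
      have h1 := A.mul_mem (A.mul_mem haA hb) (A.inv_mem haA)
      have h2 : a * (a⁻¹ * b * a) * a⁻¹ = b := by group
      rw [h2] at h1
      exact h1
  have e2 : Nat.card (A ⊓ stabD (aD a D) : Subgroup (MulAut Q₁ × MulAut Q₂))
      = Nat.card (A ⊓ stabD D : Subgroup (MulAut Q₁ × MulAut Q₂)) := by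
    rw [e1, card_conjBy]
  have h3 : conjBy R a ≤ T ⊓ stabD (aD a D) := by
    refine le_inf haR ?_
    rw [stabD_aD]
    intro b hb
    rw [mem_conjBy] at hb ⊢
    exact (hRB hb).2
  have h4 : Nat.card (conjBy R a) ≤ Nat.card (T ⊓ stabD (aD a D) : Subgroup (MulAut Q₁ × MulAut Q₂)) :=
    Subgroup.card_le_of_le h3
  have h5 : Nat.card (T ⊓ stabD (aD a D) : Subgroup (MulAut Q₁ × MulAut Q₂))
      ≤ p ^ (Nat.card (A ⊓ stabD (aD a D) : Subgroup (MulAut Q₁ × MulAut Q₂))).factorization p :=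
    card_le_of_isPGroup (hTp.to_le inf_le_left) (inf_le_inf_right _ hTA)
  rw [card_conjBy, hRcard] at h4
  rw [e2] at h5 ⊢
  exact le_antisymm h5 h4

end Stab

/-! ### The product system -/

section Fus

variable {S₁ : Subgroup Ω₁} {S₂ : Subgroup Ω₂}

theorem prod_hom_iff {F₁ : FusionSystem S₁} {F₂ : FusionSystem S₂}
    {E : FusionSystem (S₁.prod S₂)} (hE : IsProductSystem F₁ F₂ E)
    {P : Subgroup (Ω₁ × Ω₂)} {Q₁ : Subgroup Ω₁} {Q₂ : Subgroup Ω₂}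
    (h₁ : P.map (MonoidHom.fst Ω₁ Ω₂) = Q₁) (h₂ : P.map (MonoidHom.snd Ω₁ Ω₂) = Q₂)
    (φ : P →* Ω₁ × Ω₂) :
    φ ∈ E.Hom P ↔ P ≤ S₁.prod S₂ ∧ ∃ φ₁ ∈ F₁.Hom Q₁, ∃ φ₂ ∈ F₂.Hom Q₂,
      ∀ (x : P) (h₁ : (x : Ω₁ × Ω₂).1 ∈ Q₁) (h₂ : (x : Ω₁ × Ω₂).2 ∈ Q₂),
        φ x = (φ₁ ⟨(x : Ω₁ × Ω₂).1, h₁⟩, φ₂ ⟨(x : Ω₁ × Ω₂).2, h₂⟩) := by
  subst h₁; subst h₂; exact hE P φ

variable {Q₁ : Subgroup Ω₁} {Q₂ : Subgroup Ω₂}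

theorem embD_le (D : Subgroup (Q₁ × Q₂)) (hQ₁ : Q₁ ≤ S₁) (hQ₂ : Q₂ ≤ S₂) :
    embD D ≤ S₁.prod S₂ := by
  intro x hx
  exact ⟨hQ₁ (embD_fst_mem D hx), hQ₂ (embD_snd_mem D hx)⟩

/-- The action of a pair of automorphisms on `embD D`, as a homomorphism to `Ω₁ × Ω₂`. -/
def actHom (D : Subgroup (Q₁ × Q₂)) (a : MulAut Q₁ × MulAut Q₂) : embD D →* Ω₁ × Ω₂ where
  toFun x := (((a.1 ⟨x.1.1, embD_fst_mem D x.2⟩ : Q₁) : Ω₁),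
    ((a.2 ⟨x.1.2, embD_snd_mem D x.2⟩ : Q₂) : Ω₂))
  map_one' := by
    apply Prod.ext
    · show ((a.1 1 : Q₁) : Ω₁) = 1
      rw [map_one]; rfl
    · show ((a.2 1 : Q₂) : Ω₂) = 1
      rw [map_one]; rfl
  map_mul' x y := by
    apply Prod.ext
    · show ((a.1 (⟨x.1.1, embD_fst_mem D x.2⟩ * ⟨y.1.1, embD_fst_mem D y.2⟩) : Q₁) : Ω₁) = _
      rw [map_mul]; rfl
    · show ((a.2 (⟨x.1.2, embD_snd_mem D x.2⟩ * ⟨y.1.2, embD_snd_mem D y.2⟩) : Q₂) : Ω₂) = _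
      rw [map_mul]; rfl

theorem actHom_mem (D : Subgroup (Q₁ × Q₂)) {a : MulAut Q₁ × MulAut Q₂} (ha : a ∈ stabD D)
    (x : embD D) : actHom D a x ∈ embD D :=
  (mem_embD_iff D _).2 ⟨(a.1 _).2, (a.2 _).2, (ha _).2 (embD_pair_mem D x.2)⟩

/-- The automorphism of `embD D` induced by an element of the stabilizer. -/
def rhoD (D : Subgroup (Q₁ × Q₂)) (a : stabD D) : MulAut (embD D) where
  toFun x := ⟨actHom D a.1 x, actHom_mem D a.2 x⟩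
  invFun x := ⟨actHom D a.1⁻¹ x, actHom_mem D ((stabD D).inv_mem a.2) x⟩
  left_inv x := by
    apply Subtype.ext
    apply Prod.ext
    · show ((a.1.1⁻¹ (a.1.1 ⟨x.1.1, embD_fst_mem D x.2⟩) : Q₁) : Ω₁) = x.1.1
      rw [MulAut.inv_apply_self]
    · show ((a.1.2⁻¹ (a.1.2 ⟨x.1.2, embD_snd_mem D x.2⟩) : Q₂) : Ω₂) = x.1.2
      rw [MulAut.inv_apply_self]
  right_inv x := by
    apply Subtype.ext
    apply Prod.ext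
    · show ((a.1.1 (a.1.1⁻¹ ⟨x.1.1, embD_fst_mem D x.2⟩) : Q₁) : Ω₁) = x.1.1
      rw [MulAut.apply_inv_self]
    · show ((a.1.2 (a.1.2⁻¹ ⟨x.1.2, embD_snd_mem D x.2⟩) : Q₂) : Ω₂) = x.1.2
      rw [MulAut.apply_inv_self]
  map_mul' x y := Subtype.ext (map_mul (actHom D a.1) x y)

theorem rhoD_apply (D : Subgroup (Q₁ × Q₂)) (a : stabD D) (x : embD D) :
    ((rhoD D a x : embD D) : Ω₁ × Ω₂) = actHom D a.1 x := rfl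

theorem rhoD_injective (D : Subgroup (Q₁ × Q₂)) (hD : FullProj D) :
    Function.Injective (rhoD D) := by
  intro a b hab
  apply Subtype.ext
  apply Prod.ext
  · apply MulEquiv.ext
    intro y
    obtain ⟨d, hd, hdy⟩ := hD.1 y
    have hx : ((d.1 : Ω₁), (d.2 : Ω₂)) ∈ embD D := ⟨d, hd, rfl⟩
    have h1 := congrArg (fun α : MulAut (embD D) => ((α ⟨_, hx⟩ : embD D) : Ω₁ × Ω₂).1) hab
    have h2 : ((a.1.1 d.1 : Q₁) : Ω₁) = ((b.1.1 d.1 : Q₁) : Ω₁) := h1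
    rw [hdy] at h2
    exact Subtype.ext h2
  · apply MulEquiv.ext
    intro y
    obtain ⟨d, hd, hdy⟩ := hD.2 y
    have hx : ((d.1 : Ω₁), (d.2 : Ω₂)) ∈ embD D := ⟨d, hd, rfl⟩
    have h1 := congrArg (fun α : MulAut (embD D) => ((α ⟨_, hx⟩ : embD D) : Ω₁ × Ω₂).2) hab
    have h2 : ((a.1.2 d.2 : Q₂) : Ω₂) = ((b.1.2 d.2 : Q₂) : Ω₂) := h1
    rw [hdy] at h2
    exact Subtype.ext h2

theorem actHom_mem_hom {F₁ : FusionSystem S₁} {F₂ : FusionSystem S₂}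
    {E : FusionSystem (S₁.prod S₂)} (hE : IsProductSystem F₁ F₂ E)
    (hQ₁ : Q₁ ≤ S₁) (hQ₂ : Q₂ ≤ S₂) (D : Subgroup (Q₁ × Q₂)) (hD : FullProj D)
    {a : MulAut Q₁ × MulAut Q₂} (ha : a ∈ (F₁.autGroup Q₁).prod (F₂.autGroup Q₂)) :
    actHom D a ∈ E.Hom (embD D) := by
  rw [prod_hom_iff hE (embD_fst D hD) (embD_snd D hD)]
  exact ⟨embD_le D hQ₁ hQ₂, _, (mem_autGroup_iff F₁ hQ₁ a.1).1 ha.1, _,
    (mem_autGroup_iff F₂ hQ₂ a.2).1 ha.2, fun x h₁ h₂ => rfl⟩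

theorem rhoD_mem_autGroup {F₁ : FusionSystem S₁} {F₂ : FusionSystem S₂}
    {E : FusionSystem (S₁.prod S₂)} (hE : IsProductSystem F₁ F₂ E)
    (hQ₁ : Q₁ ≤ S₁) (hQ₂ : Q₂ ≤ S₂) (D : Subgroup (Q₁ × Q₂)) (hD : FullProj D)
    (a : stabD D) (ha : a.1 ∈ (F₁.autGroup Q₁).prod (F₂.autGroup Q₂)) :
    rhoD D a ∈ E.autGroup (embD D) := by
  rw [mem_autGroup_iff E (embD_le D hQ₁ hQ₂)]
  exact fs_congr E (actHom_mem_hom hE hQ₁ hQ₂ D hD ha) (fun x => rfl)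

theorem rhoD_mem_autInducedBy (D : Subgroup (Q₁ × Q₂))
    (a : stabD D) (ha : a.1 ∈ (autInducedBy S₁ Q₁).prod (autInducedBy S₂ Q₂)) :
    rhoD D a ∈ autInducedBy (S₁.prod S₂) (embD D) := by
  obtain ⟨g₁, hg₁, h₁⟩ := (mem_autInducedBy_iff S₁ Q₁ a.1.1).1 ha.1
  obtain ⟨g₂, hg₂, h₂⟩ := (mem_autInducedBy_iff S₂ Q₂ a.1.2).1 ha.2
  rw [mem_autInducedBy_iff]
  refine ⟨(g₁, g₂), ⟨hg₁, hg₂⟩, fun x => ?_⟩
  rw [rhoD_apply]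
  apply Prod.ext
  · exact h₁ _
  · exact h₂ _

theorem exists_rhoD_eq {F₁ : FusionSystem S₁} {F₂ : FusionSystem S₂}
    {E : FusionSystem (S₁.prod S₂)} (hE : IsProductSystem F₁ F₂ E)
    (hQ₁ : Q₁ ≤ S₁) (hQ₂ : Q₂ ≤ S₂) (D : Subgroup (Q₁ × Q₂)) (hD : FullProj D)
    {α : MulAut (embD D)} (hα : α ∈ E.autGroup (embD D)) :
    ∃ a : stabD D, a.1 ∈ (F₁.autGroup Q₁).prod (F₂.autGroup Q₂) ∧ rhoD D a = α := by
  rw [mem_autGroup_iff E (embD_le D hQ₁ hQ₂)] at hα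
  obtain ⟨-, φ₁, hφ₁, φ₂, hφ₂, hφ⟩ :=
    (prod_hom_iff hE (embD_fst D hD) (embD_snd D hD) _).1 hα
  have hα' : ∀ x : embD D, ((α x : embD D) : Ω₁ × Ω₂)
      = (φ₁ ⟨x.1.1, embD_fst_mem D x.2⟩, φ₂ ⟨x.1.2, embD_snd_mem D x.2⟩) := fun x => hφ x _ _
  have hr₁ : φ₁.range = Q₁ := by
    ext y
    constructor
    · rintro ⟨z, rfl⟩
      obtain ⟨d, hd, hdz⟩ := hD.1 z
      have hx : ((d.1 : Ω₁), (d.2 : Ω₂)) ∈ embD D := ⟨d, hd, rfl⟩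
      have h1 := hα' ⟨_, hx⟩
      have h2 := embD_fst_mem D (α ⟨_, hx⟩).2
      rw [h1] at h2
      have h3 : (⟨(d.1 : Ω₁), embD_fst_mem D hx⟩ : Q₁) = z := by rw [← hdz]
      rw [← h3]
      exact h2
    · intro hy
      obtain ⟨d, hd, hdy⟩ := hD.1 ⟨y, hy⟩
      have hx : ((d.1 : Ω₁), (d.2 : Ω₂)) ∈ embD D := ⟨d, hd, rfl⟩
      have h1 := hα' (α.symm ⟨_, hx⟩)
      rw [MulEquiv.apply_symm_apply] at h1
      have h2 := congrArg Prod.fst h1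
      have h3 : (d.1 : Ω₁) = φ₁ ⟨(α.symm ⟨_, hx⟩).1.1, embD_fst_mem D (α.symm ⟨_, hx⟩).2⟩ := h2
      refine ⟨⟨(α.symm ⟨_, hx⟩).1.1, embD_fst_mem D (α.symm ⟨_, hx⟩).2⟩, ?_⟩
      rw [← h3, hdy]
  have hr₂ : φ₂.range = Q₂ := by
    ext y
    constructor
    · rintro ⟨z, rfl⟩
      obtain ⟨d, hd, hdz⟩ := hD.2 z
      have hx : ((d.1 : Ω₁), (d.2 : Ω₂)) ∈ embD D := ⟨d, hd, rfl⟩
      have h1 := hα' ⟨_, hx⟩
      have h2 := embD_snd_mem D (α ⟨_, hx⟩).2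
      rw [h1] at h2
      have h3 : (⟨(d.2 : Ω₂), embD_snd_mem D hx⟩ : Q₂) = z := by rw [← hdz]
      rw [← h3]
      exact h2
    · intro hy
      obtain ⟨d, hd, hdy⟩ := hD.2 ⟨y, hy⟩
      have hx : ((d.1 : Ω₁), (d.2 : Ω₂)) ∈ embD D := ⟨d, hd, rfl⟩
      have h1 := hα' (α.symm ⟨_, hx⟩)
      rw [MulEquiv.apply_symm_apply] at h1
      have h2 := congrArg Prod.snd h1
      have h3 : (d.2 : Ω₂) = φ₂ ⟨(α.symm ⟨_, hx⟩).1.2, embD_snd_mem D (α.symm ⟨_, hx⟩).2⟩ := h2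
      refine ⟨⟨(α.symm ⟨_, hx⟩).1.2, embD_snd_mem D (α.symm ⟨_, hx⟩).2⟩, ?_⟩
      rw [← h3, hdy]
  obtain ⟨e₁, he₁, he₁'⟩ := exists_iso_of_hom F₁ hφ₁ hr₁
  obtain ⟨e₂, he₂, he₂'⟩ := exists_iso_of_hom F₂ hφ₂ hr₂
  have hα'' : ∀ x : embD D, ((α x : embD D) : Ω₁ × Ω₂)
      = (((e₁ ⟨x.1.1, embD_fst_mem D x.2⟩ : Q₁) : Ω₁),
          ((e₂ ⟨x.1.2, embD_snd_mem D x.2⟩ : Q₂) : Ω₂)) := by
    intro x
    rw [hα' x, he₁', he₂']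
  have hstab : ((e₁, e₂) : MulAut Q₁ × MulAut Q₂) ∈ stabD D := by
    intro d
    constructor
    · intro hd
      have hx : (((e₁ d.1 : Q₁) : Ω₁), ((e₂ d.2 : Q₂) : Ω₂)) ∈ embD D := ⟨_, hd, rfl⟩
      have h1 := hα'' (α.symm ⟨_, hx⟩)
      rw [MulEquiv.apply_symm_apply] at h1
      have h2 := congrArg Prod.fst h1
      have h3 := congrArg Prod.snd h1
      have h4 : e₁ d.1 = e₁ ⟨(α.symm ⟨_, hx⟩).1.1, embD_fst_mem D (α.symm ⟨_, hx⟩).2⟩ :=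
        Subtype.ext h2
      have h5 : e₂ d.2 = e₂ ⟨(α.symm ⟨_, hx⟩).1.2, embD_snd_mem D (α.symm ⟨_, hx⟩).2⟩ :=
        Subtype.ext h3
      have h6 := embD_pair_mem D (α.symm ⟨_, hx⟩).2
      rw [← e₁.injective h4, ← e₂.injective h5] at h6
      exact h6
    · intro hd
      have hx : ((d.1 : Ω₁), (d.2 : Ω₂)) ∈ embD D := ⟨d, hd, rfl⟩
      have h1 := hα'' ⟨_, hx⟩
      have h2 := embD_pair_mem D (α ⟨_, hx⟩).2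
      have h3 : ((⟨(α ⟨_, hx⟩).1.1, embD_fst_mem D (α ⟨_, hx⟩).2⟩,
          ⟨(α ⟨_, hx⟩).1.2, embD_snd_mem D (α ⟨_, hx⟩).2⟩) : Q₁ × Q₂) = (e₁ d.1, e₂ d.2) := by
        apply Prod.ext
        · apply Subtype.ext
          exact congrArg Prod.fst h1
        · apply Subtype.ext
          exact congrArg Prod.snd h1
      rw [h3] at h2
      exact h2
  refine ⟨⟨(e₁, e₂), hstab⟩, ⟨(mem_autGroup_iff F₁ hQ₁ e₁).2 he₁,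
    (mem_autGroup_iff F₂ hQ₂ e₂).2 he₂⟩, ?_⟩
  apply MulEquiv.ext
  intro x
  apply Subtype.ext
  rw [rhoD_apply, hα'']
  rfl

theorem isPGroup_prod {p : ℕ} (hS₁ : IsPGroup p S₁) (hS₂ : IsPGroup p S₂) :
    IsPGroup p (S₁.prod S₂) := by
  rintro ⟨⟨g₁, g₂⟩, h₁, h₂⟩
  obtain ⟨k₁, hk₁⟩ := hS₁ ⟨g₁, h₁⟩
  obtain ⟨k₂, hk₂⟩ := hS₂ ⟨g₂, h₂⟩
  have e₁ : g₁ ^ p ^ k₁ = 1 := congrArg Subtype.val hk₁
  have e₂ : g₂ ^ p ^ k₂ = 1 := congrArg Subtype.val hk₂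
  refine ⟨k₁ + k₂, Subtype.ext (Prod.ext ?_ ?_)⟩
  · show g₁ ^ p ^ (k₁ + k₂) = 1
    rw [pow_add, pow_mul, e₁, one_pow]
  · show g₂ ^ p ^ (k₁ + k₂) = 1
    rw [pow_add, mul_comm, pow_mul, e₂, one_pow]

theorem finite_prod [Finite S₁] [Finite S₂] : Finite (S₁.prod S₂) :=
  Finite.of_equiv _ (Subgroup.prodEquiv S₁ S₂).symm.toEquiv

theorem embD_fullyAutomized {p : ℕ} [Fact p.Prime] [Finite S₁] [Finite S₂]
    (hS₁ : IsPGroup p S₁) (hS₂ : IsPGroup p S₂)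
    {F₁ : FusionSystem S₁} {F₂ : FusionSystem S₂}
    {E : FusionSystem (S₁.prod S₂)} (hE : IsProductSystem F₁ F₂ E)
    (hQ₁ : Q₁ ≤ S₁) (hQ₂ : Q₂ ≤ S₂) (D : Subgroup (Q₁ × Q₂)) (hD : FullProj D)
    (hcard : Nat.card (((autInducedBy S₁ Q₁).prod (autInducedBy S₂ Q₂)) ⊓ stabD D :
        Subgroup (MulAut Q₁ × MulAut Q₂))
      = p ^ (Nat.card (((F₁.autGroup Q₁).prod (F₂.autGroup Q₂)) ⊓ stabD D :
        Subgroup (MulAut Q₁ × MulAut Q₂))).factorization p) :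
    E.IsFullyAutomized p (embD D) := by
  have hle := embD_le (S₁ := S₁) (S₂ := S₂) D hQ₁ hQ₂
  haveI : Finite (S₁.prod S₂) := finite_prod
  haveI : Finite (embD D) := finite_of_le hle
  refine ⟨hle, ?_⟩
  rw [isSylowIn_iff_card (autInducedBy_le_autGroup E hle)]
  have e1 : Nat.card (((F₁.autGroup Q₁).prod (F₂.autGroup Q₂)) ⊓ stabD D :
        Subgroup (MulAut Q₁ × MulAut Q₂)) = Nat.card (E.autGroup (embD D)) := by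
    refine Nat.card_congr (Equiv.ofBijective
      (fun a : ↥(((F₁.autGroup Q₁).prod (F₂.autGroup Q₂)) ⊓ stabD D :
        Subgroup (MulAut Q₁ × MulAut Q₂)) =>
        (⟨rhoD D ⟨a.1, a.2.2⟩, rhoD_mem_autGroup hE hQ₁ hQ₂ D hD _ a.2.1⟩ :
          E.autGroup (embD D))) ⟨?_, ?_⟩)
    · intro a b hab
      have h1 := rhoD_injective D hD (congrArg Subtype.val hab)
      have h2 := congrArg (fun z : ↥(stabD D) => (z : MulAut Q₁ × MulAut Q₂)) h1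
      exact Subtype.ext h2
    · rintro ⟨α, hα⟩
      obtain ⟨a, ha, haα⟩ := exists_rhoD_eq hE hQ₁ hQ₂ D hD hα
      exact ⟨⟨a.1, ha, a.2⟩, Subtype.ext haα⟩
  have e2 : Nat.card (((autInducedBy S₁ Q₁).prod (autInducedBy S₂ Q₂)) ⊓ stabD D :
        Subgroup (MulAut Q₁ × MulAut Q₂))
      ≤ Nat.card (autInducedBy (S₁.prod S₂) (embD D)) := by
    refine Nat.card_le_card_of_injective
      (fun a : ↥(((autInducedBy S₁ Q₁).prod (autInducedBy S₂ Q₂)) ⊓ stabD D :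
        Subgroup (MulAut Q₁ × MulAut Q₂)) =>
        (⟨rhoD D ⟨a.1, a.2.2⟩, rhoD_mem_autInducedBy D _ a.2.1⟩ :
          autInducedBy (S₁.prod S₂) (embD D))) ?_
    intro a b hab
    have h1 := rhoD_injective D hD (congrArg Subtype.val hab)
    have h2 := congrArg (fun z : ↥(stabD D) => (z : MulAut Q₁ × MulAut Q₂)) h1
    exact Subtype.ext h2
  have e3 : Nat.card (autInducedBy (S₁.prod S₂) (embD D))
      ≤ p ^ (Nat.card (E.autGroup (embD D))).factorization p :=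
    card_le_of_isPGroup (isPGroup_autInducedBy (isPGroup_prod hS₁ hS₂) _)
      (autInducedBy_le_autGroup E hle)
  rw [← e1, ← hcard] at e3 ⊢
  exact le_antisymm e3 e2

theorem embD_receptive {F₁ : FusionSystem S₁} {F₂ : FusionSystem S₂}
    {E : FusionSystem (S₁.prod S₂)} (hE : IsProductSystem F₁ F₂ E)
    (hQ₁ : F₁.IsReceptive Q₁) (hQ₂ : F₂.IsReceptive Q₂) (D : Subgroup (Q₁ × Q₂))
    (hD : FullProj D) : E.IsReceptive (embD D) := by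
  refine ⟨embD_le D hQ₁.1 hQ₂.1, fun R φ hφ hrange => ?_⟩
  obtain ⟨hRS, φ₁, hφ₁, φ₂, hφ₂, hφ12⟩ := (hE R φ).1 hφ
  have hφ' : ∀ x : R, φ x = (φ₁ ⟨x.1.1, ⟨x.1, x.2, rfl⟩⟩, φ₂ ⟨x.1.2, ⟨x.1, x.2, rfl⟩⟩) :=
    fun x => hφ12 x _ _
  have hr₁ : φ₁.range = Q₁ := by
    ext y
    constructor
    · rintro ⟨z, rfl⟩
      obtain ⟨x, hx, hxz⟩ := z.2
      have h1 : φ ⟨x, hx⟩ ∈ embD D := by rw [← hrange]; exact ⟨_, rfl⟩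
      have h2 := embD_fst_mem D h1
      rw [hφ'] at h2
      have h3 : (⟨x.1, ⟨x, hx, rfl⟩⟩ : ↥(R.map (MonoidHom.fst Ω₁ Ω₂))) = z := Subtype.ext hxz
      rw [← h3]
      exact h2
    · intro hy
      obtain ⟨d, hd, hdy⟩ := hD.1 ⟨y, hy⟩
      have hx : ((d.1 : Ω₁), (d.2 : Ω₂)) ∈ embD D := ⟨d, hd, rfl⟩
      rw [← hrange] at hx
      obtain ⟨x, hx'⟩ := hx
      rw [hφ'] at hx'
      have h2 := congrArg Prod.fst hx'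
      have h3 : φ₁ ⟨x.1.1, ⟨x.1, x.2, rfl⟩⟩ = (d.1 : Ω₁) := h2
      refine ⟨_, h3.trans ?_⟩
      rw [hdy]
  have hr₂ : φ₂.range = Q₂ := by
    ext y
    constructor
    · rintro ⟨z, rfl⟩
      obtain ⟨x, hx, hxz⟩ := z.2
      have h1 : φ ⟨x, hx⟩ ∈ embD D := by rw [← hrange]; exact ⟨_, rfl⟩
      have h2 := embD_snd_mem D h1
      rw [hφ'] at h2
      have h3 : (⟨x.2, ⟨x, hx, rfl⟩⟩ : ↥(R.map (MonoidHom.snd Ω₁ Ω₂))) = z := Subtype.ext hxz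
      rw [← h3]
      exact h2
    · intro hy
      obtain ⟨d, hd, hdy⟩ := hD.2 ⟨y, hy⟩
      have hx : ((d.1 : Ω₁), (d.2 : Ω₂)) ∈ embD D := ⟨d, hd, rfl⟩
      rw [← hrange] at hx
      obtain ⟨x, hx'⟩ := hx
      rw [hφ'] at hx'
      have h2 := congrArg Prod.snd hx'
      have h3 : φ₂ ⟨x.1.2, ⟨x.1, x.2, rfl⟩⟩ = (d.2 : Ω₂) := h2
      refine ⟨_, h3.trans ?_⟩
      rw [hdy]
  obtain ⟨ψ₁, hψ₁, hψ₁'⟩ := hQ₁.2 _ φ₁ hφ₁ hr₁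
  obtain ⟨ψ₂, hψ₂, hψ₂'⟩ := hQ₂.2 _ φ₂ hφ₂ hr₂
  have hNS : extender (S₁.prod S₂) R φ ≤ S₁.prod S₂ := fun g hg =>
    ((mem_extender_iff _ _ _ g).1 hg).1
  have hN₁ : (extender (S₁.prod S₂) R φ).map (MonoidHom.fst Ω₁ Ω₂)
      ≤ extender S₁ (R.map (MonoidHom.fst Ω₁ Ω₂)) φ₁ := by
    rintro _ ⟨g, hg, rfl⟩
    obtain ⟨hgS, hgN, h, hhS, hh⟩ := (mem_extender_iff _ _ _ g).1 hg
    rw [mem_extender_iff]
    refine ⟨hgS.1, ?_, h.1, hhS.1, ?_⟩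
    · refine Subgroup.mem_normalizer_iff.2 fun y => ⟨?_, ?_⟩
      · rintro ⟨x, hx, rfl⟩
        exact ⟨g * x * g⁻¹, (Subgroup.mem_normalizer_iff.1 hgN x).1 hx, rfl⟩
      · rintro ⟨x, hx, hxy⟩
        refine ⟨g⁻¹ * x * g, ?_, ?_⟩
        · refine (Subgroup.mem_normalizer_iff.1 hgN (g⁻¹ * x * g)).2 ?_
          have e : g * (g⁻¹ * x * g) * g⁻¹ = x := by group
          rw [e]; exact hx
        · show g.1⁻¹ * x.1 * g.1 = y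
          have e : x.1 = g.1 * y * g.1⁻¹ := hxy
          rw [e]; group
    · intro x₁ hx₁
      obtain ⟨x, hx, hxx₁⟩ := x₁.2
      have hgx : g * x * g⁻¹ ∈ R := (Subgroup.mem_normalizer_iff.1 hgN x).1 hx
      have h1 := hh ⟨x, hx⟩ hgx
      rw [hφ', hφ'] at h1
      have h2 := congrArg Prod.fst h1
      have h3 : φ₁ ⟨(g * x * g⁻¹).1, ⟨_, hgx, rfl⟩⟩
          = h.1 * φ₁ ⟨x.1, ⟨x, hx, rfl⟩⟩ * h.1⁻¹ := h2
      have e1 : (⟨x.1, ⟨x, hx, rfl⟩⟩ : ↥(R.map (MonoidHom.fst Ω₁ Ω₂))) = x₁ := Subtype.ext hxx₁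
      have e2 : (⟨(g * x * g⁻¹).1, ⟨_, hgx, rfl⟩⟩ : ↥(R.map (MonoidHom.fst Ω₁ Ω₂)))
          = ⟨g.1 * (x₁ : Ω₁) * g.1⁻¹, hx₁⟩ := by
        apply Subtype.ext
        show g.1 * x.1 * g.1⁻¹ = g.1 * (x₁ : Ω₁) * g.1⁻¹
        have e : x.1 = (x₁ : Ω₁) := hxx₁
        rw [e]
      rw [e1, e2] at h3
      exact h3
  have hN₂ : (extender (S₁.prod S₂) R φ).map (MonoidHom.snd Ω₁ Ω₂)
      ≤ extender S₂ (R.map (MonoidHom.snd Ω₁ Ω₂)) φ₂ := by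
    rintro _ ⟨g, hg, rfl⟩
    obtain ⟨hgS, hgN, h, hhS, hh⟩ := (mem_extender_iff _ _ _ g).1 hg
    rw [mem_extender_iff]
    refine ⟨hgS.2, ?_, h.2, hhS.2, ?_⟩
    · refine Subgroup.mem_normalizer_iff.2 fun y => ⟨?_, ?_⟩
      · rintro ⟨x, hx, rfl⟩
        exact ⟨g * x * g⁻¹, (Subgroup.mem_normalizer_iff.1 hgN x).1 hx, rfl⟩
      · rintro ⟨x, hx, hxy⟩
        refine ⟨g⁻¹ * x * g, ?_, ?_⟩
        · refine (Subgroup.mem_normalizer_iff.1 hgN (g⁻¹ * x * g)).2 ?_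
          have e : g * (g⁻¹ * x * g) * g⁻¹ = x := by group
          rw [e]; exact hx
        · show g.2⁻¹ * x.2 * g.2 = y
          have e : x.2 = g.2 * y * g.2⁻¹ := hxy
          rw [e]; group
    · intro x₁ hx₁
      obtain ⟨x, hx, hxx₁⟩ := x₁.2
      have hgx : g * x * g⁻¹ ∈ R := (Subgroup.mem_normalizer_iff.1 hgN x).1 hx
      have h1 := hh ⟨x, hx⟩ hgx
      rw [hφ', hφ'] at h1
      have h2 := congrArg Prod.snd h1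
      have h3 : φ₂ ⟨(g * x * g⁻¹).2, ⟨_, hgx, rfl⟩⟩
          = h.2 * φ₂ ⟨x.2, ⟨x, hx, rfl⟩⟩ * h.2⁻¹ := h2
      have e1 : (⟨x.2, ⟨x, hx, rfl⟩⟩ : ↥(R.map (MonoidHom.snd Ω₁ Ω₂))) = x₁ := Subtype.ext hxx₁
      have e2 : (⟨(g * x * g⁻¹).2, ⟨_, hgx, rfl⟩⟩ : ↥(R.map (MonoidHom.snd Ω₁ Ω₂)))
          = ⟨g.2 * (x₁ : Ω₂) * g.2⁻¹, hx₁⟩ := by
        apply Subtype.ext
        show g.2 * x.2 * g.2⁻¹ = g.2 * (x₁ : Ω₂) * g.2⁻¹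
        have e : x.2 = (x₁ : Ω₂) := hxx₁
        rw [e]
      rw [e1, e2] at h3
      exact h3
  refine ⟨((ψ₁.comp (Subgroup.inclusion hN₁)).comp
      ((MonoidHom.fst Ω₁ Ω₂).subgroupMap (extender (S₁.prod S₂) R φ))).prod
    ((ψ₂.comp (Subgroup.inclusion hN₂)).comp
      ((MonoidHom.snd Ω₁ Ω₂).subgroupMap (extender (S₁.prod S₂) R φ))), ?_, ?_⟩
  · rw [hE]
    exact ⟨hNS, ψ₁.comp (Subgroup.inclusion hN₁), fs_restrict F₁ hN₁ hψ₁,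
      ψ₂.comp (Subgroup.inclusion hN₂), fs_restrict F₂ hN₂ hψ₂, fun x h₁ h₂ => rfl⟩
  · intro x hP hN
    rw [hφ']
    apply Prod.ext
    · exact hψ₁' x.1 ⟨x, hP, rfl⟩ (hN₁ ⟨x, hN, rfl⟩)
    · exact hψ₂' x.2 ⟨x, hP, rfl⟩ (hN₂ ⟨x, hN, rfl⟩)

theorem isConj_aD {F₁ : FusionSystem S₁} {F₂ : FusionSystem S₂}
    {E : FusionSystem (S₁.prod S₂)} (hE : IsProductSystem F₁ F₂ E)
    (hQ₁ : Q₁ ≤ S₁) (hQ₂ : Q₂ ≤ S₂) (D : Subgroup (Q₁ × Q₂)) (hD : FullProj D)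
    {a : MulAut Q₁ × MulAut Q₂} (ha : a ∈ (F₁.autGroup Q₁).prod (F₂.autGroup Q₂)) :
    E.IsConj (embD D) (embD (aD a D)) := by
  refine ⟨actHom D a, actHom_mem_hom hE hQ₁ hQ₂ D hD ha, ?_⟩
  ext y
  constructor
  · rintro ⟨x, rfl⟩
    exact (mem_embD_iff _ _).2 ⟨(a.1 _).2, (a.2 _).2, apply_mem_aD.2 (embD_pair_mem D x.2)⟩
  · intro hy
    have h1 := embD_pair_mem _ hy
    rw [mem_aD] at h1
    refine ⟨⟨(((a.1⁻¹ ⟨y.1, embD_fst_mem _ hy⟩ : Q₁) : Ω₁),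
      ((a.2⁻¹ ⟨y.2, embD_snd_mem _ hy⟩ : Q₂) : Ω₂)), ⟨_, h1, rfl⟩⟩, ?_⟩
    apply Prod.ext
    · show ((a.1 (a.1⁻¹ ⟨y.1, embD_fst_mem _ hy⟩) : Q₁) : Ω₁) = y.1
      rw [MulAut.apply_inv_self]
    · show ((a.2 (a.2⁻¹ ⟨y.2, embD_snd_mem _ hy⟩) : Q₂) : Ω₂) = y.2
      rw [MulAut.apply_inv_self]

theorem exists_embD_conj {F₁ : FusionSystem S₁} {F₂ : FusionSystem S₂}
    {E : FusionSystem (S₁.prod S₂)} (hE : IsProductSystem F₁ F₂ E)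
    {P : Subgroup (Ω₁ × Ω₂)} (hP : P ≤ S₁.prod S₂)
    (h₁ : F₁.IsConj (P.map (MonoidHom.fst Ω₁ Ω₂)) Q₁)
    (h₂ : F₂.IsConj (P.map (MonoidHom.snd Ω₁ Ω₂)) Q₂) :
    ∃ D : Subgroup (Q₁ × Q₂), FullProj D ∧ E.IsConj P (embD D) := by
  obtain ⟨e₁, he₁⟩ := (isConj_iff F₁).1 h₁
  obtain ⟨e₂, he₂⟩ := (isConj_iff F₂).1 h₂
  obtain ⟨δ, hδ⟩ : ∃ δ : P →* Q₁ × Q₂, ∀ x : P,
      δ x = (e₁ ⟨x.1.1, ⟨x.1, x.2, rfl⟩⟩, e₂ ⟨x.1.2, ⟨x.1, x.2, rfl⟩⟩) :=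
    ⟨(e₁.toMonoidHom.comp ((MonoidHom.fst Ω₁ Ω₂).subgroupMap P)).prod
      (e₂.toMonoidHom.comp ((MonoidHom.snd Ω₁ Ω₂).subgroupMap P)), fun x => rfl⟩
  refine ⟨δ.range, ⟨?_, ?_⟩, (Q₁.subtype.prodMap Q₂.subtype).comp δ, ?_, ?_⟩
  · intro y
    obtain ⟨x, hx, hxy⟩ := (e₁.symm y).2
    refine ⟨δ ⟨x, hx⟩, ⟨_, rfl⟩, ?_⟩
    rw [hδ]
    show e₁ ⟨x.1, _⟩ = y
    have e : (⟨x.1, ⟨x, hx, rfl⟩⟩ : ↥(P.map (MonoidHom.fst Ω₁ Ω₂))) = e₁.symm y :=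
      Subtype.ext hxy
    rw [e, MulEquiv.apply_symm_apply]
  · intro y
    obtain ⟨x, hx, hxy⟩ := (e₂.symm y).2
    refine ⟨δ ⟨x, hx⟩, ⟨_, rfl⟩, ?_⟩
    rw [hδ]
    show e₂ ⟨x.2, _⟩ = y
    have e : (⟨x.2, ⟨x, hx, rfl⟩⟩ : ↥(P.map (MonoidHom.snd Ω₁ Ω₂))) = e₂.symm y :=
      Subtype.ext hxy
    rw [e, MulEquiv.apply_symm_apply]
  · rw [hE]
    refine ⟨hP, _, he₁, _, he₂, fun x h₁ h₂ => ?_⟩
    show (Q₁.subtype.prodMap Q₂.subtype) (δ x) = _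
    rw [hδ]
    rfl
  · exact (MonoidHom.map_range _ _).symm

end Fus

end Cfsg.Agent.Helper25
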