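import Mathlib
import Cfsg.Prelude.Def_FusionSystem
import Cfsg.Agent.Helper26.Alperin
import Cfsg.Agent.Helper26.FusNormal
import Cfsg.Agent.Helper26.FusHyp
import Cfsg.Agent.Helper25.SmallFus5
import Cfsg.Agent.Helper25.SmallFusT2
import Cfsg.Agent.Helper25.CritC

set_option autoImplicit false

namespace Cfsg.Agent.Helper25

open Cfsg Cfsg.FusionSystem Cfsg.Agent.Helper26

variable {Ω : Type*} [Group Ω] {S : Subgroup Ω}

/-- The inductive step for "small abelian subgroups of the hyperfocal subgroup control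
fusion". -/
theorem aut_le_of_smallT {p : ℕ} [Fact p.Prime] [Finite S] (hS : IsPGroup p S)
    (E F : FusionSystem S) (hE : E.IsSaturated p) (hEF : ∀ P : Subgroup Ω, E.Hom P ⊆ F.Hom P)
    (hT : F.StronglyClosed (F.hyperfocalSubgroup p))
    (hctl : ∀ A B : Subgroup Ω, A ≤ F.hyperfocalSubgroup p → B ≤ F.hyperfocalSubgroup p →
      SmallAb p A → SmallAb p B → F.homSet A B ⊆ E.homSet A B)
    {Q : Subgroup Ω} (hQa : F.IsFullyAutomized p Q)
    (hQr : F.IsReceptive Q)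
    (IH : ∀ R : Subgroup Ω, R ≤ S → Nat.card Q < Nat.card R → F.Hom R ⊆ E.Hom R) :
    F.autGroup Q ≤ E.autGroup Q := by
  have hQS : Q ≤ S := hQr.1
  have hfQ : Finite Q := finite_of_le hQS
  have hQp : IsPGroup p Q := isPGroup_of_le hS hQS
  have hTn := stronglyClosed_conj F hT
  obtain ⟨A, hAN, hAn, hAc, hAe, hpc⟩ := exists_invariant_abelian_pcent hQp
    ((F.hyperfocalSubgroup p).subgroupOf Q) (by
      intro g x hx
      rw [Subgroup.mem_subgroupOf] at hx ⊢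
      exact hTn g (hQS g.2) x hx)
  have hAT : ∀ x ∈ A, (x : Ω) ∈ F.hyperfocalSubgroup p :=
    fun x hx => Subgroup.mem_subgroupOf.1 (hAN hx)
  -- `F`-automorphisms preserve `Q ∩ T`
  have hpres : ∀ δ ∈ F.autGroup Q, ∀ x : Q, x ∈ (F.hyperfocalSubgroup p).subgroupOf Q ↔
      δ x ∈ (F.hyperfocalSubgroup p).subgroupOf Q := by
    intro δ hδ x
    have hδF := (mem_autGroup_iff F hQS δ).1 hδ
    constructor
    · intro hx
      exact Subgroup.mem_subgroupOf.2
        (stronglyClosed_iso F hT hδF x (Subgroup.mem_subgroupOf.1 hx))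
    · intro hx
      have h1 := stronglyClosed_iso F hT hδF.symm (δ x) (Subgroup.mem_subgroupOf.1 hx)
      rw [MulEquiv.symm_apply_apply] at h1
      exact Subgroup.mem_subgroupOf.2 h1
  -- elements of `Aut_F(Q)` fixing `A` have `p`-power order
  have hpg : ∀ δ : MulAut Q, δ ∈ F.autGroup Q → (∀ a ∈ A, δ a = a) →
      ∃ k : ℕ, δ ^ (p ^ k) = 1 := by
    intro δ hδ hδA
    have hfin : Finite (MulAut Q) := Finite.of_injective (fun f : MulAut Q => (f : Q → Q))
      (fun f g h => MulEquiv.ext (congrFun h))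
    have hN : 0 < orderOf δ := orderOf_pos δ
    obtain ⟨k, n, hn, hkn⟩ :=
      Nat.exists_eq_pow_mul_and_not_dvd hN.ne' p (Fact.out : p.Prime).ne_one
    refine ⟨k, ?_⟩
    have hcop : (orderOf (δ ^ (p ^ k))).Coprime p := by
      have h4 : (δ ^ (p ^ k)) ^ n = 1 := by rw [← pow_mul, ← hkn, pow_orderOf_eq_one]
      have h5 : orderOf (δ ^ (p ^ k)) ∣ n := orderOf_dvd_of_pow_eq_one h4
      have h6 : n.Coprime p :=
        (Nat.Coprime.symm ((Nat.Prime.coprime_iff_not_dvd (Fact.out : p.Prime)).2 hn))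
      exact Nat.Coprime.coprime_dvd_left h5 h6
    have hfixA : ∀ a ∈ A, (δ ^ (p ^ k)) a = a := by
      intro a ha
      have : ∀ j : ℕ, (δ ^ j) a = a := by
        intro j
        induction j with
        | zero => simp
        | succ j ih => rw [pow_succ, MulAut.mul_apply, hδA a ha, ih]
      exact this _
    have hbF : δ ^ (p ^ k) ∈ F.autGroup Q := (F.autGroup Q).pow_mem hδ _
    generalize δ ^ (p ^ k) = b at hcop hfixA hbF
    have hfixN := hpc b (hpres b hbF) hcop hfixA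
    ext x
    have hy : x⁻¹ * b x ∈ (F.hyperfocalSubgroup p).subgroupOf Q := by
      rw [Subgroup.mem_subgroupOf]
      exact mem_hyperfocal F p hQS hbF hcop x
    obtain ⟨j, hj⟩ := hQp (x⁻¹ * b x)
    have h5 := fix_of_coprime b hcop x (x⁻¹ * b x) (by group) (hfixN _ hy) hj
    have h6 : b x = x * (x⁻¹ * b x) := by group
    rw [h6, h5, mul_one]
    rfl
  intro α hα
  have hαF : IsIso F α := (mem_autGroup_iff F hQS α).1 hα
  have hAs : SmallAb p (A.map Q.subtype) := by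
    constructor
    · rintro _ ⟨a, ha, rfl⟩ _ ⟨b, hb, rfl⟩
      show (a : Ω) * (b : Ω) = (b : Ω) * (a : Ω)
      rw [← Subgroup.coe_mul, ← Subgroup.coe_mul, hAc a ha b hb]
    · rintro _ ⟨a, ha, rfl⟩
      show (a : Ω) ^ smallExp p = 1
      rw [← Subgroup.coe_pow, hAe a ha]; rfl
  have hψE' : ∀ hAQ : A.map Q.subtype ≤ Q, (Q.subtype.comp α.toMonoidHom).comp
      (Subgroup.inclusion hAQ) ∈ E.Hom (A.map Q.subtype) := by
    intro hAQ
    have hmemA : ∀ x : Q, x ∈ A → (x : Ω) ∈ A.map Q.subtype := fun x hx => ⟨x, hx, rfl⟩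
    have hmemA' : ∀ x : Q, x ∈ A → ((α x : Q) : Ω) ∈ (A.map α.toMonoidHom).map Q.subtype :=
      fun x hx => ⟨α x, ⟨x, hx, rfl⟩, rfl⟩
    have hψF : (Q.subtype.comp α.toMonoidHom).comp (Subgroup.inclusion hAQ) ∈
        F.Hom (A.map Q.subtype) := fs_restrict F hAQ hαF
    have hA's : SmallAb p ((A.map α.toMonoidHom).map Q.subtype) := by
      refine smallAb_of_surj ((Q.subtype.comp α.toMonoidHom).comp (Subgroup.inclusion hAQ)) hAs ?_
      rintro _ ⟨_, ⟨x, hx, rfl⟩, rfl⟩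
      exact ⟨⟨x, hmemA x hx⟩, rfl⟩
    have hAT1 : A.map Q.subtype ≤ F.hyperfocalSubgroup p := by
      rintro _ ⟨x, hx, rfl⟩
      exact hAT x hx
    have hAT2 : (A.map α.toMonoidHom).map Q.subtype ≤ F.hyperfocalSubgroup p := by
      rintro _ ⟨_, ⟨x, hx, rfl⟩, rfl⟩
      exact stronglyClosed_iso F hT hαF x (hAT x hx)
    have h1 : (Q.subtype.comp α.toMonoidHom).comp (Subgroup.inclusion hAQ) ∈
        F.homSet (A.map Q.subtype) ((A.map α.toMonoidHom).map Q.subtype) := by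
      refine ⟨hψF, ?_⟩
      rintro ⟨_, x, hx, rfl⟩
      exact hmemA' x hx
    exact (hctl _ _ hAT1 hAT2 hAs hA's h1).1
  obtain ⟨A₀, Q₂, Q₃, u, t', hA₀r, hA₀s, hu, ht', hsurj, hmem, heq⟩ :=
    small_stepT hS E hE hQS α A hAn hAs hψE'
  have hQ₃S := hu.le_right
  have hQ₂S := ht'.le_right
  have hfQ₃ : Finite Q₃ := finite_of_le hQ₃S
  have hfQ₂ : Finite Q₂ := finite_of_le hQ₂S
  have hcz : ∀ g : Q, ((u g : Q₃) : Ω)⁻¹ * ((t' (α g) : Q₂) : Ω) ∈ centralizerIn S A₀ := by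
    intro g
    rw [mem_centralizerIn_iff]
    refine ⟨S.mul_mem (S.inv_mem (hQ₃S (u g).2)) (hQ₂S (t' (α g)).2), ?_⟩
    intro a ha
    obtain ⟨x, hx, rfl⟩ := hsurj a ha
    have h1 := heq (g * x * g⁻¹) (hAn g x hx)
    simp only [map_mul, map_inv, Subgroup.coe_mul, Subgroup.coe_inv] at h1
    rw [heq x hx] at h1
    exact comm_aux _ _ _ h1
  by_cases hC : centralizerIn S A₀ ≤ Q₃
  · exact small_case_aT E F hEF hT hctl hQa A hAT hpg α hα u t' hA₀r hA₀s hu ht' hsurj hmem heq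
      hcz hC
  · have hC2 : ¬ centralizerIn S A₀ ≤ Q₂ := by
      intro hC2
      apply hC
      have h32 : Q₃ ≤ Q₂ := by
        intro y hy
        have h1 := hC2 (hcz (u.symm ⟨y, hy⟩))
        rw [MulEquiv.apply_symm_apply] at h1
        have h2 := Q₂.mul_mem (t' (α (u.symm ⟨y, hy⟩))).2 (Q₂.inv_mem h1)
        have e : ((t' (α (u.symm ⟨y, hy⟩)) : Q₂) : Ω) *
            (y⁻¹ * ((t' (α (u.symm ⟨y, hy⟩)) : Q₂) : Ω))⁻¹ = y := by group
        rwa [e] at h2
      have h32' : Q₃ = Q₂ := Subgroup.eq_of_le_of_card_ge h32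
        (by rw [← Nat.card_congr t'.toEquiv, Nat.card_congr u.toEquiv])
      rw [h32']; exact hC2
    have hn₃ : ∀ r ∈ Q₃, ∀ a ∈ A₀, r⁻¹ * a * r ∈ A₀ := by
      intro r hr a ha
      obtain ⟨x, hx, rfl⟩ := hsurj a ha
      have h1 := hmem _ (hAn (u.symm ⟨r, hr⟩)⁻¹ x hx)
      simp only [map_mul, map_inv, inv_inv, MulEquiv.apply_symm_apply, Subgroup.coe_mul,
        Subgroup.coe_inv] at h1
      exact h1
    have hn₂ : ∀ r ∈ Q₂, ∀ a ∈ A₀, r⁻¹ * a * r ∈ A₀ := by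
      intro r hr a ha
      obtain ⟨x, hx, rfl⟩ := hsurj a ha
      have hxg := hAn (α.symm (t'.symm ⟨r, hr⟩))⁻¹ x hx
      have h1 := hmem _ hxg
      rw [← heq _ hxg] at h1
      simp only [map_mul, map_inv, inv_inv, MulEquiv.apply_symm_apply, Subgroup.coe_mul,
        Subgroup.coe_inv, heq x hx] at h1
      exact h1
    obtain ⟨c₃, hc₃, hc₃N, hc₃Q⟩ := exists_normalizing_not_mem hS hQ₃S
      (inf_le_left : centralizerIn S A₀ ≤ S) (conj_mem_centralizerIn hQ₃S hn₃) hC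
    obtain ⟨c₂, hc₂, hc₂N, hc₂Q⟩ := exists_normalizing_not_mem hS hQ₂S
      (inf_le_left : centralizerIn S A₀ ≤ S) (conj_mem_centralizerIn hQ₂S hn₂) hC2
    exact small_case_bT hS E F hEF hQa hQr IH A hpg α hα u t' hu ht' hmem heq
      c₃ hc₃ hc₃N hc₃Q c₂ hc₂ hc₂N hc₂Q

end Cfsg.Agent.Helper25
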