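import Mathlib
import Cfsg.Prelude.Def_SylowChains

/-!
# Control of Sylow intersections: chains as reflexive-transitive closures (helper25)

Generic conversion between the `Fin`-indexed chains of `ControlsSylowIntersections` and
`Relation.ReflTransGen` of a one-step relation, and the transport of the regularity of a
subgroup `M` for a normalizer functor `f` to statements about subgroups of the ambient group.
-/

set_option autoImplicit false

namespace Cfsg.Agent.Helper25.SylCtl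

open Cfsg Relation

variable {G : Type*} [Group G]

/-- One step of a chain as in `ControlsSylowIntersections`. -/
def Step (p : ℕ) (𝓕 : Set (Subgroup G)) (D : Subgroup G) (S' S'' : Sylow p G) : Prop :=
  ∃ (X : Subgroup G) (x : G), X ∈ sylowMembers p 𝓕 (S' : Subgroup G) ∧
    X ∈ sylowMembers p 𝓕 (S'' : Subgroup G) ∧ x ∈ X ∧
    subgroupConjRight x (S'' : Subgroup G) = (S' : Subgroup G) ∧ D ≤ (S'' : Subgroup G) ⊓ X

theorem rtg_of_chain {p : ℕ} {𝓕 : Set (Subgroup G)} {D : Subgroup G} :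
    ∀ (n : ℕ) (c : Fin (n + 1) → Sylow p G),
      (∀ i : Fin n, Step p 𝓕 D (c i.castSucc) (c i.succ)) →
      ReflTransGen (Step p 𝓕 D) (c 0) (c (Fin.last n)) := by
  intro n
  induction n with
  | zero => intro c _; exact ReflTransGen.refl
  | succ n ih =>
    intro c h
    have h1 := ih (fun i => c i.castSucc) (fun i => by
      have := h i.castSucc
      simpa using this)
    have h2 := h (Fin.last n)
    have h3 : ReflTransGen (Step p 𝓕 D) (c 0) (c (Fin.last n).castSucc) := by simpa using h1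
    have h4 : Step p 𝓕 D (c (Fin.last n).castSucc) (c (Fin.last (n + 1))) := by simpa using h2
    exact ReflTransGen.tail h3 h4

theorem chain_of_rtg {p : ℕ} {𝓕 : Set (Subgroup G)} {D : Subgroup G} {S T : Sylow p G}
    (h : ReflTransGen (Step p 𝓕 D) S T) :
    ∃ (n : ℕ) (c : Fin (n + 1) → Sylow p G) (X : Fin n → Subgroup G) (x : Fin n → G),
      c 0 = S ∧ c (Fin.last n) = T ∧
      ∀ i : Fin n,
        X i ∈ sylowMembers p 𝓕 (c i.castSucc : Subgroup G) ∧
        X i ∈ sylowMembers p 𝓕 (c i.succ : Subgroup G) ∧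
        x i ∈ X i ∧ subgroupConjRight (x i) (c i.succ : Subgroup G) = (c i.castSucc : Subgroup G) ∧
        D ≤ (c i.succ : Subgroup G) ⊓ X i := by
  induction h with
  | refl => exact ⟨0, fun _ => S, Fin.elim0, Fin.elim0, rfl, rfl, fun i => i.elim0⟩
  | @tail T' T'' _ hstep ih =>
    obtain ⟨n, c, X, x, h0, hl, hc⟩ := ih
    obtain ⟨X₀, x₀, hX1, hX2, hx, hconj, hD⟩ := hstep
    refine ⟨n + 1, Fin.snoc (α := fun _ => Sylow p G) c T'', Fin.snoc (α := fun _ => Subgroup G) X X₀,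
      Fin.snoc (α := fun _ => G) x x₀, ?_, ?_, ?_⟩
    · have : (0 : Fin (n + 2)) = Fin.castSucc (0 : Fin (n + 1)) := rfl
      rw [this, Fin.snoc_castSucc]; exact h0
    · rw [Fin.snoc_last]
    · intro i
      induction i using Fin.lastCases with
      | last =>
        have e1 : (Fin.last n).succ = Fin.last (n + 1) := rfl
        rw [e1]
        simp only [Fin.snoc_last, Fin.snoc_castSucc]
        rw [hl]
        exact ⟨hX1, hX2, hx, hconj, hD⟩
      | cast j =>
        have e1 : j.castSucc.succ = j.succ.castSucc := rfl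
        rw [e1]
        simp only [Fin.snoc_castSucc]
        exact hc j

theorem controls_iff {p : ℕ} {𝓕 : Set (Subgroup G)} :
    ControlsSylowIntersections p 𝓕 ↔ ∀ S T : Sylow p G, S ≠ T →
      (S : Subgroup G) ⊓ (T : Subgroup G) ≠ ⊥ →
      ReflTransGen (Step p 𝓕 ((S : Subgroup G) ⊓ (T : Subgroup G))) S T := by
  constructor
  · intro h S T hne hD
    obtain ⟨n, c, X, x, h0, hl, hc⟩ := h S T hne hD
    rw [← h0, ← hl]
    refine rtg_of_chain n c (fun i => ?_)
    rw [h0, hl]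
    exact ⟨X i, x i, hc i⟩
  · intro h S T hne hD
    exact chain_of_rtg (h S T hne hD)

/-- If a member `X` contains a Sylow subgroup `Q` and meets the Sylow subgroup `P₁` in a Sylow
subgroup of `X`, then `P₁ ≤ X`. -/
theorem le_of_member {H : Type*} [Group H] [Finite H] {p : ℕ} [Fact p.Prime] (P₁ Q : Sylow p H)
    (X : Subgroup H) (hQ : (Q : Subgroup H) ≤ X)
    (h : ∃ P₀ : Sylow p ↥X, (P₀ : Subgroup ↥X).map X.subtype = (P₁ : Subgroup H) ⊓ X) :
    (P₁ : Subgroup H) ≤ X := by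
  obtain ⟨P₀, hP₀⟩ := h
  have hp : p.Prime := Fact.out
  have c1 : Nat.card ↥((P₁ : Subgroup H) ⊓ X) = p ^ (Nat.card ↥X).factorization p := by
    rw [← hP₀, Subgroup.card_map_of_injective (Subgroup.subtype_injective _)]
    exact P₀.card_eq_multiplicity
  have c2 : Nat.card ↥(Q : Subgroup H) = p ^ (Nat.card H).factorization p := Q.card_eq_multiplicity
  have c3 : Nat.card ↥(P₁ : Subgroup H) = p ^ (Nat.card H).factorization p :=
    P₁.card_eq_multiplicity
  have d1 : p ^ (Nat.card H).factorization p ∣ Nat.card ↥X := by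
    rw [← c2]; exact Subgroup.card_dvd_of_le hQ
  have hX0 : Nat.card ↥X ≠ 0 := Nat.card_pos.ne'
  have l1 : (Nat.card H).factorization p ≤ (Nat.card ↥X).factorization p :=
    (hp.pow_dvd_iff_le_factorization hX0).mp d1
  have l2 : Nat.card ↥(P₁ : Subgroup H) ≤ Nat.card ↥((P₁ : Subgroup H) ⊓ X) := by
    rw [c1, c3]; exact Nat.pow_le_pow_right hp.pos l1
  have e : (P₁ : Subgroup H) ⊓ X = P₁ := Subgroup.eq_of_le_of_card_ge inf_le_left l2
  rw [← e]; exact inf_le_right

theorem member_of_le {p : ℕ} {𝓕 : Set (Subgroup G)} (S' : Sylow p G) {X : Subgroup G}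
    (hX : X ∈ 𝓕) (h : (S' : Subgroup G) ≤ X) : X ∈ sylowMembers p 𝓕 (S' : Subgroup G) := by
  refine ⟨hX, S'.subtype h, ?_⟩
  rw [Sylow.coe_subtype, Subgroup.subgroupOf_map_subtype]

theorem member_of_sylow_le {p : ℕ} {𝓕 : Set (Subgroup G)} (S' : Sylow p G) {X : Subgroup G}
    (hX : X ∈ 𝓕) (P : Sylow p ↥X) (h : (P : Subgroup ↥X).map X.subtype ≤ (S' : Subgroup G)) :
    X ∈ sylowMembers p 𝓕 (S' : Subgroup G) := by
  refine ⟨hX, P, ?_⟩
  apply le_antisymm
  · exact le_inf h (Subgroup.map_subtype_le _)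
  · have hpg : IsPGroup p ↥(((S' : Subgroup G) ⊓ X).subgroupOf X) :=
      (S'.isPGroup'.to_le inf_le_left).comap_of_injective _ (Subgroup.subtype_injective _)
    have hle : (P : Subgroup ↥X) ≤ ((S' : Subgroup G) ⊓ X).subgroupOf X := by
      intro y hy
      rw [Subgroup.mem_subgroupOf]
      exact ⟨h ⟨y, hy, rfl⟩, y.2⟩
    have hmax := P.is_maximal' hpg hle
    intro y hy
    have hyX : y ∈ X := hy.2
    refine ⟨⟨y, hyX⟩, ?_, rfl⟩
    have : (⟨y, hyX⟩ : ↥X) ∈ ((S' : Subgroup G) ⊓ X).subgroupOf X := Subgroup.mem_subgroupOf.mpr hy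
    rw [hmax] at this
    exact this

/-- Ambient form of one step of a chain in `M` for the family induced by `f`. -/
def MStep (p : ℕ) (f : Subgroup G → Set (Subgroup G)) (M : Subgroup G) (D : Subgroup G)
    (P₁ P₂ : Sylow p ↥M) : Prop :=
  ∃ (Q : Sylow p ↥M) (F : Subgroup G) (x : G), F ∈ f ((Q : Subgroup ↥M).map M.subtype) ∧
    x ∈ M ∧ x ∈ Subgroup.normalizer (F : Set G) ∧
    (P₁ : Subgroup ↥M).map M.subtype ≤ Subgroup.normalizer (F : Set G) ∧
    (P₂ : Subgroup ↥M).map M.subtype ≤ Subgroup.normalizer (F : Set G) ∧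
    ((P₂ : Subgroup ↥M).map M.subtype).map (MulAut.conj x⁻¹).toMonoidHom =
      (P₁ : Subgroup ↥M).map M.subtype ∧
    D ≤ (P₁ : Subgroup ↥M).map M.subtype ∧ D ≤ (P₂ : Subgroup ↥M).map M.subtype

theorem mstep_of_step [Finite G] {p : ℕ} [Fact p.Prime] {f : Subgroup G → Set (Subgroup G)}
    (hf : IsNormalizerFunctor p f) {M : Subgroup G} {D' : Subgroup ↥M} {P₁ P₂ : Sylow p ↥M}
    (hle : D' ≤ (P₁ : Subgroup ↥M))
    (hstep : Step p ((fun X : Subgroup G => X.subgroupOf M) '' functorFamily p f M) D' P₁ P₂) :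
    MStep p f M (D'.map M.subtype) P₁ P₂ := by
  obtain ⟨X', x', hX1, hX2, hx, hconj, hD⟩ := hstep
  obtain ⟨⟨X, ⟨Q, F, hF, rfl⟩, rfl⟩, hP1⟩ := hX1
  obtain ⟨-, hP2⟩ := hX2
  have hQp : IsPGroup p ↥((Q : Subgroup ↥M).map M.subtype) := Q.isPGroup'.map _
  obtain ⟨hF1, -⟩ := hf _ hQp
  obtain ⟨hFQ, hNN⟩ := hF1 F hF
  have hQN : (Q : Subgroup ↥M).map M.subtype ≤ Subgroup.normalizer (F : Set G) :=
    le_trans Subgroup.le_normalizer hNN
  have hQX : (Q : Subgroup ↥M) ≤ (M ⊓ Subgroup.normalizer (F : Set G)).subgroupOf M := by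
    intro q hq
    rw [Subgroup.mem_subgroupOf]
    exact ⟨q.2, hQN ⟨q, hq, rfl⟩⟩
  have h1 := le_of_member P₁ Q _ hQX hP1
  have h2 := le_of_member P₂ Q _ hQX hP2
  refine ⟨Q, F, (x' : G), hF, x'.2, ?_, ?_, ?_, ?_, ?_, ?_⟩
  · exact (Subgroup.mem_subgroupOf.mp hx).2
  · rintro _ ⟨y, hy, rfl⟩
    exact (Subgroup.mem_subgroupOf.mp (h1 hy)).2
  · rintro _ ⟨y, hy, rfl⟩
    exact (Subgroup.mem_subgroupOf.mp (h2 hy)).2
  · rw [← hconj]
    unfold subgroupConjRight
    rw [Subgroup.map_map, Subgroup.map_map]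
    congr 1
  · exact Subgroup.map_mono hle
  · exact Subgroup.map_mono (le_trans hD inf_le_left)

/-- Regularity of `M`, in ambient form. -/
theorem reg_rtg [Finite G] {p : ℕ} [Fact p.Prime] {f : Subgroup G → Set (Subgroup G)}
    (hf : IsNormalizerFunctor p f) {M : Subgroup G} (hr : IsFunctorRegular p f M)
    (P P' : Sylow p ↥M) (hne : P ≠ P')
    (hD : (P : Subgroup ↥M) ⊓ (P' : Subgroup ↥M) ≠ ⊥) :
    ReflTransGen (MStep p f M (((P : Subgroup ↥M) ⊓ (P' : Subgroup ↥M)).map M.subtype)) P P' := by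
  have h1 := (controls_iff.mp hr) P P' hne hD
  have h2 : ∀ T : Sylow p ↥M,
      ReflTransGen (Step p ((fun X : Subgroup G => X.subgroupOf M) '' functorFamily p f M)
        ((P : Subgroup ↥M) ⊓ (P' : Subgroup ↥M))) P T →
      (P : Subgroup ↥M) ⊓ (P' : Subgroup ↥M) ≤ (T : Subgroup ↥M) ∧
      ReflTransGen (MStep p f M (((P : Subgroup ↥M) ⊓ (P' : Subgroup ↥M)).map M.subtype)) P T := by
    intro T hT
    induction hT with
    | refl => exact ⟨inf_le_left, ReflTransGen.refl⟩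
    | tail _ hstep ih =>
      obtain ⟨hle, hrtg⟩ := ih
      refine ⟨?_, hrtg.tail (mstep_of_step hf hle hstep)⟩
      obtain ⟨X', x', -, -, -, -, hD'⟩ := hstep
      exact le_trans hD' inf_le_left
  exact (h2 P' h1).2

end Cfsg.Agent.Helper25.SylCtl
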