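import Mathlib
import Cfsg.Prelude.Def_SylowChains
import Cfsg.Agent.Helper25.SylCtlF

/-!
# Goldschmidt: the family of a normalizer functor together with the singular maximal
`p`-local subgroups controls Sylow intersections (helper25)
-/

set_option autoImplicit false

namespace Cfsg.Agent.Helper25.SylCtl

open Cfsg Relation

variable {G : Type*} [Group G]

theorem exists_max_plocal [Finite G] {p : ℕ} {L : Subgroup G} (hL : IsPLocal p L) :
    ∃ M : Subgroup G, IsMaximalPLocal p M ∧ L ≤ M := by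
  obtain ⟨M, hM⟩ := (Set.toFinite {N : Subgroup G | IsPLocal p N ∧ L ≤ N}).exists_maximal
    ⟨L, hL, le_rfl⟩
  refine ⟨M, ⟨hM.prop.1, fun N hN hMN => ?_⟩, hM.prop.2⟩
  exact le_antisymm (hM.le_of_ge ⟨hN, le_trans hM.prop.2 hMN⟩ hMN) hMN

theorem card_map_sylow [Finite G] {p : ℕ} [Fact p.Prime] {M : Subgroup G} (P : Sylow p ↥M) :
    Nat.card ↥((P : Subgroup ↥M).map M.subtype) = p ^ (Nat.card ↥M).factorization p := by
  rw [Subgroup.card_map_of_injective (Subgroup.subtype_injective _)]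
  exact P.card_eq_multiplicity

theorem card_mc [Finite G] (g : G) (X : Subgroup G) :
    Nat.card ↥(X.map (MulAut.conj g).toMonoidHom) = Nat.card ↥X :=
  Subgroup.card_map_of_injective (MulAut.conj g).injective

theorem sylow_above [Finite G] {p : ℕ} [Fact p.Prime] {M E : Subgroup G} (hE : E ≤ M)
    (hp : IsPGroup p ↥E) : ∃ P : Sylow p ↥M, E ≤ (P : Subgroup ↥M).map M.subtype := by
  have hpg : IsPGroup p ↥(E.subgroupOf M) :=
    hp.comap_of_injective _ (Subgroup.subtype_injective _)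
  obtain ⟨P, hP⟩ := hpg.exists_le_sylow
  refine ⟨P, ?_⟩
  rw [← Subgroup.map_subgroupOf_eq_of_le hE]
  exact Subgroup.map_mono hP

theorem sylow_over [Finite G] {p : ℕ} [Fact p.Prime] {M : Subgroup G} (P : Sylow p ↥M) :
    ∃ R : Sylow p G, (P : Subgroup ↥M).map M.subtype ≤ (R : Subgroup G) :=
  (P.isPGroup'.map M.subtype).exists_le_sylow

theorem map_cj_sub [Finite G] {p : ℕ} [Fact p.Prime] {M : Subgroup G} (y : ↥M) (P : Sylow p ↥M) :
    ((cj y P : Sylow p ↥M) : Subgroup ↥M).map M.subtype =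
      ((P : Subgroup ↥M).map M.subtype).map (MulAut.conj (y : G)).toMonoidHom := by
  rw [coe_cj, Subgroup.map_map, Subgroup.map_map]
  congr 1

/-- Normalizers grow in `p`-groups. -/
theorem normalizer_growth [Finite G] {p : ℕ} [Fact p.Prime] (S : Sylow p G) {D : Subgroup G}
    (hD : D ≤ (S : Subgroup G)) (hlt : Nat.card ↥D < Nat.card ↥(S : Subgroup G)) :
    ∃ E : Subgroup G, D ≤ E ∧ E ≤ (S : Subgroup G) ∧ E ≤ Subgroup.normalizer (D : Set G) ∧
      Nat.card ↥D < Nat.card ↥E := by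
  have hp : p.Prime := Fact.out
  have hDp : IsPGroup p ↥D := S.isPGroup'.to_le hD
  obtain ⟨n, hn⟩ := IsPGroup.iff_card.mp hDp
  obtain ⟨a, ha⟩ := IsPGroup.iff_card.mp S.isPGroup'
  have ha' : Nat.card ↥(S : Subgroup G) = p ^ a := ha
  have hna : n < a := by
    rw [hn, ha'] at hlt
    exact (Nat.pow_lt_pow_iff_right hp.one_lt).mp hlt
  have hcH : Nat.card ↥(D.subgroupOf (S : Subgroup G)) = p ^ n := by
    rw [← hn]
    exact Nat.card_congr (Subgroup.subgroupOfEquivOfLe hD).toEquiv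
  have hdvd : p ^ (n + 1) ∣ Nat.card ↥(S : Subgroup G) := by
    rw [ha']; exact pow_dvd_pow p hna
  have h1 := Sylow.prime_pow_dvd_card_normalizer hdvd hcH
  refine ⟨(Subgroup.normalizer ((D.subgroupOf (S : Subgroup G) : Subgroup ↥(S : Subgroup G)) :
    Set ↥(S : Subgroup G))).map (S : Subgroup G).subtype, ?_, Subgroup.map_subtype_le _, ?_, ?_⟩
  · have h2 := Subgroup.map_mono (f := (S : Subgroup G).subtype)
      (Subgroup.le_normalizer (H := D.subgroupOf (S : Subgroup G)))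
    rwa [Subgroup.map_subgroupOf_eq_of_le hD] at h2
  · have h2 := Subgroup.le_normalizer_map (H := D.subgroupOf (S : Subgroup G))
      (S : Subgroup G).subtype
    rwa [Subgroup.map_subgroupOf_eq_of_le hD] at h2
  · rw [Subgroup.card_map_of_injective (Subgroup.subtype_injective _), hn]
    have h3 := Nat.le_of_dvd Nat.card_pos h1
    have h4 : p ^ n < p ^ (n + 1) := Nat.pow_lt_pow_right hp.one_lt (Nat.lt_succ_self n)
    omega

/-- One step through a singular maximal `p`-local subgroup. -/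
def SStep (p : ℕ) (f : Subgroup G → Set (Subgroup G)) (D : Subgroup G) (S' S'' : Sylow p G) :
    Prop :=
  ∃ (M : Subgroup G) (x : G), IsMaximalPLocal p M ∧ ¬ IsFunctorRegular p f M ∧
    (∃ P : Sylow p ↥M, (P : Subgroup ↥M).map M.subtype ≤ (S' : Subgroup G)) ∧
    (∃ P : Sylow p ↥M, (P : Subgroup ↥M).map M.subtype ≤ (S'' : Subgroup G)) ∧
    x ∈ M ∧ (S'' : Subgroup G).map (MulAut.conj x⁻¹).toMonoidHom = (S' : Subgroup G) ∧
    D ≤ (S' : Subgroup G) ∧ D ≤ (S'' : Subgroup G) ∧ D ≤ M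

theorem SStep.symm {p : ℕ} {f : Subgroup G → Set (Subgroup G)} {D : Subgroup G}
    {S' S'' : Sylow p G} (h : SStep p f D S' S'') : SStep p f D S'' S' := by
  obtain ⟨M, x, hmax, hsing, hP1, hP2, hx, hc, hD1, hD2, hDM⟩ := h
  refine ⟨M, x⁻¹, hmax, hsing, hP2, hP1, inv_mem hx, ?_, hD2, hD1, hDM⟩
  rw [← hc, inv_inv, mc_inv_right]

theorem SStep.mono {p : ℕ} {f : Subgroup G → Set (Subgroup G)} {D D₀ : Subgroup G}
    (hD : D ≤ D₀) {S' S'' : Sylow p G} (h : SStep p f D₀ S' S'') : SStep p f D S' S'' := by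
  obtain ⟨M, x, hmax, hsing, hP1, hP2, hx, hc, hD1, hD2, hDM⟩ := h
  exact ⟨M, x, hmax, hsing, hP1, hP2, hx, hc, le_trans hD hD1, le_trans hD hD2, le_trans hD hDM⟩

/-- A step through the family of `f` or through a singular maximal `p`-local subgroup. -/
def GStep (p : ℕ) (f : Subgroup G → Set (Subgroup G)) (D : Subgroup G) (S' S'' : Sylow p G) :
    Prop :=
  FStep p f D S' S'' ∨ SStep p f D S' S''

/-- Being joined by a chain of steps all of whose members contain `D`. -/
abbrev Link (p : ℕ) (f : Subgroup G → Set (Subgroup G)) (D : Subgroup G) :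
    Sylow p G → Sylow p G → Prop :=
  ReflTransGen (GStep p f D)

theorem Link.symm {p : ℕ} {f : Subgroup G → Set (Subgroup G)} {D : Subgroup G}
    {S' S'' : Sylow p G} (h : Link p f D S' S'') : Link p f D S'' S' :=
  rtg_symm (fun _ _ h => h.elim (fun h => Or.inl h.symm) (fun h => Or.inr h.symm)) h

theorem Link.trans {p : ℕ} {f : Subgroup G → Set (Subgroup G)} {D : Subgroup G}
    {S₁ S₂ S₃ : Sylow p G} (h : Link p f D S₁ S₂) (h' : Link p f D S₂ S₃) : Link p f D S₁ S₃ :=
  ReflTransGen.trans h h'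

theorem link_mono {p : ℕ} {f : Subgroup G → Set (Subgroup G)} {D D₀ : Subgroup G}
    (hD : D ≤ D₀) {S' S'' : Sylow p G} (h : Link p f D₀ S' S'') : Link p f D S' S'' :=
  rtg_lift (q := GStep p f D) id
    (fun _ _ h => h.elim (fun h => Or.inl (h.mono hD)) (fun h => Or.inr (h.mono hD))) h

theorem step_of_gstep {p : ℕ} {f : Subgroup G → Set (Subgroup G)} {𝓕 𝓕' : Set (Subgroup G)}
    (h𝓕 : 𝓕 = functorFamily p f ⊤)
    (h𝓕' : 𝓕' = {M | IsMaximalPLocal p M ∧ ¬ IsFunctorRegular p f M}) {D : Subgroup G}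
    {S' S'' : Sylow p G} (h : GStep p f D S' S'') : Step p (𝓕 ∪ 𝓕') D S' S'' := by
  rcases h with h | h
  · exact step_of_fstep (by rw [h𝓕]; exact Set.subset_union_left) h
  · obtain ⟨M, x, hmax, hsing, ⟨P1, hP1⟩, ⟨P2, hP2⟩, hx, hc, hD1, hD2, hDM⟩ := h
    have hM : M ∈ 𝓕 ∪ 𝓕' := by
      right; rw [h𝓕']; exact ⟨hmax, hsing⟩
    exact ⟨M, x, member_of_sylow_le S' hM P1 hP1, member_of_sylow_le S'' hM P2 hP2, hx, hc,
      le_inf hD2 hDM⟩

theorem step_lift [Finite G] {p : ℕ} [Fact p.Prime] {f : Subgroup G → Set (Subgroup G)}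
    (hf : IsNormalizerFunctor p f)
    (hf1 : ∀ P : Subgroup G, IsPGroup p ↥P → P ≠ ⊥ → ∀ F ∈ f P, F ≠ ⊥)
    {D : Subgroup G}
    (IHD : ∀ (S' T' : Sylow p G) (E : Subgroup G), E ≤ (S' : Subgroup G) →
      E ≤ (T' : Subgroup G) → D ≤ E → Nat.card ↥D < Nat.card ↥E → Link p f D S' T')
    {M : Subgroup G} (c : ℕ)
    (IHC : ∀ (L : Subgroup G), IsPLocal p L → ∀ (P : Sylow p ↥L) (x : G), x ∈ L →
      ∀ R : Sylow p G, c < p ^ (Nat.card ↥L).factorization p →
      (P : Subgroup ↥L).map L.subtype ≤ (R : Subgroup G) →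
      D ≤ (P : Subgroup ↥L).map L.subtype →
      D ≤ ((P : Subgroup ↥L).map L.subtype).map (MulAut.conj x).toMonoidHom →
      Link p f D R (cj x R))
    (hcM : c ≤ p ^ (Nat.card ↥M).factorization p)
    (hcD : Nat.card ↥D < p ^ (Nat.card ↥M).factorization p)
    {D₀ : Subgroup G} (hDD₀ : D ≤ D₀) {Pa Pb : Sylow p ↥M} (h : MStep p f M D₀ Pa Pb)
    (Ra Rb : Sylow p G) (ha : (Pa : Subgroup ↥M).map M.subtype ≤ (Ra : Subgroup G))
    (hb : (Pb : Subgroup ↥M).map M.subtype ≤ (Rb : Subgroup G)) :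
    Link p f D Ra Rb := by
  have hp : p.Prime := Fact.out
  obtain ⟨Q, F, x, hF, hxM, hxN, h1, h2, hc, hD1, hD2⟩ := h
  have hDa : D ≤ (Pa : Subgroup ↥M).map M.subtype := le_trans hDD₀ hD1
  have hDb : D ≤ (Pb : Subgroup ↥M).map M.subtype := le_trans hDD₀ hD2
  have hRbx : (Pa : Subgroup ↥M).map M.subtype ≤ ((cj x⁻¹ Rb : Sylow p G) : Subgroup G) := by
    rw [coe_cj, ← hc]; exact Subgroup.map_mono hb
  have cA : Nat.card ↥D < Nat.card ↥((Pa : Subgroup ↥M).map M.subtype) := by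
    rw [card_map_sylow]; exact hcD
  have cB : Nat.card ↥D < Nat.card ↥((Pb : Subgroup ↥M).map M.subtype) := by
    rw [card_map_sylow]; exact hcD
  have L0 : Link p f D Ra (cj x⁻¹ Rb) := IHD Ra (cj x⁻¹ Rb) _ ha hRbx hDa cA
  refine L0.trans ?_
  have hQp : IsPGroup p ↥((Q : Subgroup ↥M).map M.subtype) := Q.isPGroup'.map _
  obtain ⟨hFQ, hNN⟩ := (hf _ hQp).1 F hF
  by_cases hQ : p ^ (Nat.card ↥M).factorization p = p ^ (Nat.card G).factorization p
  · have hRb : (Pb : Subgroup ↥M).map M.subtype = (Rb : Subgroup G) := by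
      apply Subgroup.eq_of_le_of_card_ge hb
      rw [card_map_sylow, hQ]
      exact le_of_eq Rb.card_eq_multiplicity
    have hcQ : Nat.card ↥((Q : Subgroup ↥M).map M.subtype) =
        p ^ (Nat.card G).factorization p := by
      rw [card_map_sylow, hQ]
    apply ReflTransGen.single
    left
    refine ⟨Sylow.ofCard _ hcQ, F, x, ?_, hxN, ?_, ?_, ?_, ?_, ?_⟩
    · rw [Sylow.coe_ofCard]; exact hF
    · rw [coe_cj, ← hRb, hc]; exact h1
    · rw [← hRb]; exact h2
    · rw [coe_cj]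
    · rw [coe_cj, ← hRb, hc]; exact hDa
    · rw [← hRb]; exact hDb
  · have hM0 : Nat.card ↥M ≠ 0 := Nat.card_pos.ne'
    have hG0 : Nat.card G ≠ 0 := Nat.card_pos.ne'
    have hle : (Nat.card ↥M).factorization p ≤ (Nat.card G).factorization p :=
      (Nat.factorization_le_iff_dvd hM0 hG0).mpr (Subgroup.card_subgroup_dvd_card M) p
    have hlt : (Nat.card ↥M).factorization p < (Nat.card G).factorization p := by
      rcases lt_or_eq_of_le hle with h | h
      · exact h
      · exact absurd (by rw [h]) hQ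
    have hdvdG : p ^ ((Nat.card ↥M).factorization p + 1) ∣ Nat.card G :=
      dvd_trans (pow_dvd_pow p hlt) (Nat.ordProj_dvd _ _)
    have hdvdN := Sylow.prime_pow_dvd_card_normalizer hdvdG (card_map_sylow Q)
    have hdvdL : p ^ ((Nat.card ↥M).factorization p + 1) ∣
        Nat.card ↥(Subgroup.normalizer (F : Set G)) :=
      dvd_trans hdvdN (Subgroup.card_dvd_of_le hNN)
    have hL0 : Nat.card ↥(Subgroup.normalizer (F : Set G)) ≠ 0 := Nat.card_pos.ne'
    have hfl : (Nat.card ↥M).factorization p + 1 ≤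
        (Nat.card ↥(Subgroup.normalizer (F : Set G))).factorization p :=
      (hp.pow_dvd_iff_le_factorization hL0).mp hdvdL
    have hcL : c < p ^ (Nat.card ↥(Subgroup.normalizer (F : Set G))).factorization p := by
      have h4 : p ^ (Nat.card ↥M).factorization p <
          p ^ (Nat.card ↥(Subgroup.normalizer (F : Set G))).factorization p :=
        Nat.pow_lt_pow_right hp.one_lt (by omega)
      omega
    have hQ0 : (Q : Subgroup ↥M).map M.subtype ≠ ⊥ := by
      intro h
      have h5 := card_map_sylow Q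
      rw [h, Subgroup.card_bot] at h5
      have h6 : 1 ≤ Nat.card ↥D := Nat.card_pos
      omega
    have hF0 : F ≠ ⊥ := hf1 _ hQp hQ0 F hF
    have hFp : IsPGroup p ↥F := hQp.to_le hFQ
    have hLloc : IsPLocal p (Subgroup.normalizer (F : Set G)) := ⟨F, hFp, hF0, rfl⟩
    obtain ⟨Ph, hPh⟩ := sylow_above h2 (Pb.isPGroup'.map M.subtype)
    obtain ⟨Rh, hRh⟩ := sylow_over Ph
    have hDx : D ≤ ((Ph : Subgroup ↥(Subgroup.normalizer (F : Set G))).map
        (Subgroup.normalizer (F : Set G)).subtype).map (MulAut.conj x⁻¹).toMonoidHom := by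
      refine le_trans hDa ?_
      rw [← hc]; exact Subgroup.map_mono hPh
    have L1 : Link p f D Rh (cj x⁻¹ Rh) :=
      IHC _ hLloc Ph x⁻¹ (inv_mem hxN) Rh hcL hRh (le_trans hDb hPh) hDx
    have L2 : Link p f D Rb Rh := IHD Rb Rh _ hb (le_trans hPh hRh) hDb cB
    have L3 : Link p f D (cj x⁻¹ Rb) (cj x⁻¹ Rh) := by
      refine IHD _ _ ((Pa : Subgroup ↥M).map M.subtype) hRbx ?_ hDa cA
      rw [coe_cj, ← hc]
      exact Subgroup.map_mono (le_trans hPh hRh)
    exact L3.trans (L1.symm.trans L2.symm)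

theorem chain_lift [Finite G] {p : ℕ} [Fact p.Prime] {f : Subgroup G → Set (Subgroup G)}
    (hf : IsNormalizerFunctor p f)
    (hf1 : ∀ P : Subgroup G, IsPGroup p ↥P → P ≠ ⊥ → ∀ F ∈ f P, F ≠ ⊥)
    {D : Subgroup G}
    (IHD : ∀ (S' T' : Sylow p G) (E : Subgroup G), E ≤ (S' : Subgroup G) →
      E ≤ (T' : Subgroup G) → D ≤ E → Nat.card ↥D < Nat.card ↥E → Link p f D S' T')
    {M : Subgroup G} (c : ℕ)
    (IHC : ∀ (L : Subgroup G), IsPLocal p L → ∀ (P : Sylow p ↥L) (x : G), x ∈ L →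
      ∀ R : Sylow p G, c < p ^ (Nat.card ↥L).factorization p →
      (P : Subgroup ↥L).map L.subtype ≤ (R : Subgroup G) →
      D ≤ (P : Subgroup ↥L).map L.subtype →
      D ≤ ((P : Subgroup ↥L).map L.subtype).map (MulAut.conj x).toMonoidHom →
      Link p f D R (cj x R))
    (hcM : c ≤ p ^ (Nat.card ↥M).factorization p)
    (hcD : Nat.card ↥D < p ^ (Nat.card ↥M).factorization p)
    {D₀ : Subgroup G} (hDD₀ : D ≤ D₀) {P₁ P₂ : Sylow p ↥M}
    (h : ReflTransGen (MStep p f M D₀) P₁ P₂)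
    (hD1 : D ≤ (P₁ : Subgroup ↥M).map M.subtype) (R₁ : Sylow p G)
    (h1 : (P₁ : Subgroup ↥M).map M.subtype ≤ (R₁ : Subgroup G)) :
    ∀ R₂ : Sylow p G, (P₂ : Subgroup ↥M).map M.subtype ≤ (R₂ : Subgroup G) →
      Link p f D R₁ R₂ := by
  induction h with
  | refl =>
    intro R₂ h2
    exact IHD R₁ R₂ _ h1 h2 hD1 (by rw [card_map_sylow]; exact hcD)
  | @tail Pm Pe _ hstep ih =>
    intro R₂ h2
    obtain ⟨Rm, hRm⟩ := sylow_over Pm
    exact (ih Rm hRm).trans (step_lift hf hf1 IHD c IHC hcM hcD hDD₀ hstep Rm R₂ hRm h2)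

theorem local_link [Finite G] {p : ℕ} [Fact p.Prime] {f : Subgroup G → Set (Subgroup G)}
    (hf : IsNormalizerFunctor p f)
    (hf1 : ∀ P : Subgroup G, IsPGroup p ↥P → P ≠ ⊥ → ∀ F ∈ f P, F ≠ ⊥)
    {D : Subgroup G} (hD0 : D ≠ ⊥)
    (IHD : ∀ (S' T' : Sylow p G) (E : Subgroup G), E ≤ (S' : Subgroup G) →
      E ≤ (T' : Subgroup G) → D ≤ E → Nat.card ↥D < Nat.card ↥E → Link p f D S' T') :
    ∀ (k : ℕ) (L : Subgroup G), IsPLocal p L → ∀ (P : Sylow p ↥L) (x : G), x ∈ L →
      ∀ R : Sylow p G, Nat.card G - p ^ (Nat.card ↥L).factorization p = k →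
      Nat.card ↥D < p ^ (Nat.card ↥L).factorization p →
      (P : Subgroup ↥L).map L.subtype ≤ (R : Subgroup G) →
      D ≤ (P : Subgroup ↥L).map L.subtype →
      D ≤ ((P : Subgroup ↥L).map L.subtype).map (MulAut.conj x).toMonoidHom →
      Link p f D R (cj x R) := by
  intro k
  induction k using Nat.strong_induction_on with
  | _ k IHk =>
    intro L hL P x hx R hk hcard hPR hDP hDPx
    subst hk
    have hp : p.Prime := Fact.out
    obtain ⟨M, hMmax, hLM⟩ := exists_max_plocal hL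
    have hEM : (P : Subgroup ↥L).map L.subtype ≤ M := le_trans (Subgroup.map_subtype_le _) hLM
    obtain ⟨P', hP'⟩ := sylow_above hEM (P.isPGroup'.map L.subtype)
    obtain ⟨R', hR'⟩ := sylow_over P'
    have cE : Nat.card ↥D < Nat.card ↥((P : Subgroup ↥L).map L.subtype) := by
      rw [card_map_sylow]; exact hcard
    have hLMc : p ^ (Nat.card ↥L).factorization p ≤ p ^ (Nat.card ↥M).factorization p := by
      have h0 := Subgroup.card_le_of_le hP'
      rwa [card_map_sylow, card_map_sylow] at h0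
    have hcDM : Nat.card ↥D < p ^ (Nat.card ↥M).factorization p := lt_of_lt_of_le hcard hLMc
    have L1 : Link p f D R R' := IHD R R' _ hPR (le_trans hP' hR') hDP cE
    have L2 : Link p f D (cj x R) (cj x R') := by
      refine IHD _ _ (((P : Subgroup ↥L).map L.subtype).map (MulAut.conj x).toMonoidHom)
        ?_ ?_ hDPx ?_
      · rw [coe_cj]; exact Subgroup.map_mono hPR
      · rw [coe_cj]; exact Subgroup.map_mono (le_trans hP' hR')
      · rw [card_mc]; exact cE
    have hxM : x ∈ M := hLM hx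
    have hP'' := map_cj_sub (⟨x, hxM⟩ : ↥M) P'
    have hR'' : ((cj (⟨x, hxM⟩ : ↥M) P' : Sylow p ↥M) : Subgroup ↥M).map M.subtype ≤
        ((cj x R' : Sylow p G) : Subgroup G) := by
      rw [hP'', coe_cj]; exact Subgroup.map_mono hR'
    have hDP' : D ≤ (P' : Subgroup ↥M).map M.subtype := le_trans hDP hP'
    have hDP'' : D ≤ ((cj (⟨x, hxM⟩ : ↥M) P' : Sylow p ↥M) : Subgroup ↥M).map M.subtype := by
      rw [hP'']; exact le_trans hDPx (Subgroup.map_mono hP')
    have L3 : Link p f D R' (cj x R') := by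
      by_cases hreg : IsFunctorRegular p f M
      · by_cases hPP : P' = cj (⟨x, hxM⟩ : ↥M) P'
        · have hR3 := hR''
          rw [← hPP] at hR3
          exact IHD _ _ ((P' : Subgroup ↥M).map M.subtype) hR' hR3 hDP'
            (by rw [card_map_sylow]; exact hcDM)
        · have hDD₀ : D ≤ ((P' : Subgroup ↥M) ⊓
              ((cj (⟨x, hxM⟩ : ↥M) P' : Sylow p ↥M) : Subgroup ↥M)).map M.subtype := by
            rw [Subgroup.map_inf _ _ _ (Subgroup.subtype_injective _)]
            exact le_inf hDP' hDP''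
          have hbot : (P' : Subgroup ↥M) ⊓
              ((cj (⟨x, hxM⟩ : ↥M) P' : Sylow p ↥M) : Subgroup ↥M) ≠ ⊥ := by
            intro h
            rw [h, Subgroup.map_bot] at hDD₀
            exact hD0 (le_bot_iff.mp hDD₀)
          have hrtg := reg_rtg hf hreg P' _ hPP hbot
          refine chain_lift hf hf1 IHD (p ^ (Nat.card ↥L).factorization p) ?_ hLMc hcDM hDD₀
            hrtg hDP' R' hR' (cj x R') hR''
          intro L' hL' Ph x' hx' Rh hc' hPR' hDP1 hDP2
          have hle' : p ^ (Nat.card ↥L').factorization p ≤ Nat.card G :=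
            le_trans (Nat.le_of_dvd Nat.card_pos (Nat.ordProj_dvd _ _))
              (Subgroup.card_le_card_group L')
          exact IHk (Nat.card G - p ^ (Nat.card ↥L').factorization p) (by omega) L' hL' Ph x'
            hx' Rh rfl (by omega) hPR' hDP1 hDP2
      · apply ReflTransGen.single
        right
        refine ⟨M, x, hMmax, hreg, ⟨P', hR'⟩, ⟨_, hR''⟩, hxM, ?_, le_trans hDP' hR',
          le_trans hDP'' hR'', le_trans hDP hEM⟩
        rw [coe_cj, mc_inv_left]
    exact L1.trans (L3.trans L2.symm)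

theorem gold_aux [Finite G] {p : ℕ} [Fact p.Prime] {f : Subgroup G → Set (Subgroup G)}
    (hf : IsNormalizerFunctor p f)
    (hf1 : ∀ P : Subgroup G, IsPGroup p ↥P → P ≠ ⊥ → ∀ F ∈ f P, F ≠ ⊥) :
    ∀ (m : ℕ) (S T : Sylow p G),
      Nat.card G - Nat.card ↥((S : Subgroup G) ⊓ (T : Subgroup G)) = m →
      (S : Subgroup G) ⊓ (T : Subgroup G) ≠ ⊥ →
      Link p f ((S : Subgroup G) ⊓ (T : Subgroup G)) S T := by
  intro m
  induction m using Nat.strong_induction_on with
  | _ m IH =>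
    intro S T hm hD
    subst hm
    by_cases hST : S = T
    · rw [hST]
    have hp : p.Prime := Fact.out
    have IHD : ∀ (S' T' : Sylow p G) (E : Subgroup G), E ≤ (S' : Subgroup G) →
        E ≤ (T' : Subgroup G) → (S : Subgroup G) ⊓ (T : Subgroup G) ≤ E →
        Nat.card ↥((S : Subgroup G) ⊓ (T : Subgroup G)) < Nat.card ↥E →
        Link p f ((S : Subgroup G) ⊓ (T : Subgroup G)) S' T' := by
      intro S' T' E hE1 hE2 hDE hcard
      have hle : E ≤ (S' : Subgroup G) ⊓ (T' : Subgroup G) := le_inf hE1 hE2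
      have hc2 := Subgroup.card_le_of_le hle
      have hc3 : Nat.card ↥((S' : Subgroup G) ⊓ (T' : Subgroup G)) ≤ Nat.card G :=
        Subgroup.card_le_card_group _
      have hne : (S' : Subgroup G) ⊓ (T' : Subgroup G) ≠ ⊥ := by
        intro h
        rw [h, Subgroup.card_bot] at hc2
        have h6 : 1 ≤ Nat.card ↥((S : Subgroup G) ⊓ (T : Subgroup G)) := Nat.card_pos
        omega
      have h1 := IH (Nat.card G - Nat.card ↥((S' : Subgroup G) ⊓ (T' : Subgroup G))) (by omega)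
        S' T' rfl hne
      exact link_mono (le_trans hDE hle) h1
    have eS : Nat.card ↥(S : Subgroup G) = p ^ (Nat.card G).factorization p :=
      S.card_eq_multiplicity
    have eT : Nat.card ↥(T : Subgroup G) = p ^ (Nat.card G).factorization p :=
      T.card_eq_multiplicity
    have cS : Nat.card ↥((S : Subgroup G) ⊓ (T : Subgroup G)) < Nat.card ↥(S : Subgroup G) := by
      by_contra hcon
      rw [not_lt] at hcon
      have h1 : (S : Subgroup G) ⊓ (T : Subgroup G) = S :=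
        Subgroup.eq_of_le_of_card_ge inf_le_left hcon
      have h2 : (S : Subgroup G) ≤ T := by rw [← h1]; exact inf_le_right
      have h3 : (S : Subgroup G) = T := Subgroup.eq_of_le_of_card_ge h2 (by omega)
      exact hST (Sylow.ext h3)
    have cT : Nat.card ↥((S : Subgroup G) ⊓ (T : Subgroup G)) < Nat.card ↥(T : Subgroup G) := by
      rw [eT, ← eS]; exact cS
    obtain ⟨E₁, hDE₁, hE₁S, hE₁N, cE₁⟩ := normalizer_growth S inf_le_left cS
    obtain ⟨E₂, hDE₂, hE₂T, hE₂N, cE₂⟩ := normalizer_growth T inf_le_right cT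
    have hDp : IsPGroup p ↥((S : Subgroup G) ⊓ (T : Subgroup G)) := S.isPGroup'.to_le inf_le_left
    have hL : IsPLocal p (Subgroup.normalizer
        (((S : Subgroup G) ⊓ (T : Subgroup G) : Subgroup G) : Set G)) := ⟨_, hDp, hD, rfl⟩
    obtain ⟨P, hP⟩ := sylow_above hE₁N (S.isPGroup'.to_le hE₁S)
    obtain ⟨P₂, hP₂⟩ := sylow_above hE₂N (T.isPGroup'.to_le hE₂T)
    obtain ⟨y, rfl⟩ := exists_cj P P₂
    rw [map_cj_sub] at hP₂
    obtain ⟨R, hR⟩ := sylow_over P
    have L1 : Link p f ((S : Subgroup G) ⊓ (T : Subgroup G)) S R :=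
      IHD S R E₁ hE₁S (le_trans hP hR) hDE₁ cE₁
    have L2 : Link p f ((S : Subgroup G) ⊓ (T : Subgroup G)) T (cj (y : G) R) := by
      refine IHD T _ E₂ hE₂T ?_ hDE₂ cE₂
      rw [coe_cj]; exact le_trans hP₂ (Subgroup.map_mono hR)
    have cP : Nat.card ↥((S : Subgroup G) ⊓ (T : Subgroup G)) <
        p ^ (Nat.card ↥(Subgroup.normalizer
          (((S : Subgroup G) ⊓ (T : Subgroup G) : Subgroup G) : Set G))).factorization p := by
      have h0 := Subgroup.card_le_of_le hP
      rw [card_map_sylow] at h0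
      omega
    have L3 := local_link hf hf1 hD IHD _ _ hL P (y : G) y.2 R rfl cP hR (le_trans hDE₁ hP)
      (le_trans hDE₂ hP₂)
    exact L1.trans (L3.trans L2.symm)

/-- Goldschmidt: any two Sylow subgroups meeting nontrivially are linked, relative to their
intersection, through normalizers of members of `f` of Sylow subgroups and singular maximal
`p`-local subgroups. -/
theorem gold [Finite G] {p : ℕ} [Fact p.Prime] {f : Subgroup G → Set (Subgroup G)}
    (hf : IsNormalizerFunctor p f)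
    (hf1 : ∀ P : Subgroup G, IsPGroup p ↥P → P ≠ ⊥ → ∀ F ∈ f P, F ≠ ⊥) (S T : Sylow p G)
    (hD : (S : Subgroup G) ⊓ (T : Subgroup G) ≠ ⊥) :
    Link p f ((S : Subgroup G) ⊓ (T : Subgroup G)) S T :=
  gold_aux hf hf1 _ S T rfl hD

end Cfsg.Agent.Helper25.SylCtl
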